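import Mathlib

/-!
# Sums of values of Euler's function over `(n/2, n]` (helper364)
-/

set_option autoImplicit false

namespace Cfsg.Agent.H364.SpTot

open Finset

theorem two_mul_sum (n : ℕ) : 2 * ∑ d ∈ Icc 1 n, d.totient * (n / d) = n * (n + 1) := by
  induction n with
  | zero => simp
  | succ n ih =>
    have h1 : ∑ d ∈ Icc 1 (n + 1), d.totient * ((n + 1) / d) =
        ∑ d ∈ Icc 1 (n + 1), d.totient * (n / d) + ∑ d ∈ Icc 1 (n + 1), (if d ∣ n + 1 then d.totient else 0) := by
      rw [← Finset.sum_add_distrib]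
      apply Finset.sum_congr rfl
      intro d _
      rw [Nat.succ_div]
      split_ifs <;> ring
    have h2 : ∑ d ∈ Icc 1 (n + 1), d.totient * (n / d) = ∑ d ∈ Icc 1 n, d.totient * (n / d) := by
      rw [Finset.sum_Icc_succ_top (by omega), Nat.div_eq_of_lt (Nat.lt_succ_self n), mul_zero, add_zero]
    have h3 : ∑ d ∈ Icc 1 (n + 1), (if d ∣ n + 1 then d.totient else 0) = n + 1 := by
      rw [← Finset.sum_filter]
      have h4 : (Icc 1 (n + 1)).filter (fun d => d ∣ n + 1) = (n + 1).divisors := by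
        ext d
        simp only [Finset.mem_filter, Finset.mem_Icc, Nat.mem_divisors]
        constructor
        · rintro ⟨-, h⟩
          exact ⟨h, by omega⟩
        · rintro ⟨h, -⟩
          exact ⟨⟨Nat.pos_of_dvd_of_pos h (by omega), Nat.le_of_dvd (by omega) h⟩, h⟩
      rw [h4]
      exact Nat.sum_totient (n + 1)
    rw [h1, h2, h3]
    have : 2 * (∑ d ∈ Icc 1 n, d.totient * (n / d) + (n + 1)) = 2 * ∑ d ∈ Icc 1 n, d.totient * (n / d) + 2 * (n + 1) := by
      ring
    rw [this, ih]
    ring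

/-- the sum of the values of Euler's function over `(n/2, n]` -/
def ss (n : ℕ) : ℕ := ∑ d ∈ Ioc (n / 2) n, d.totient

theorem div_le (n d : ℕ) (hd : 1 ≤ d) :
    n / d ≤ 2 * (n / 2 / d) + (if n / 2 < d then 1 else 0) + (if d ≤ n / 3 then 1 else 0) := by
  rcases Nat.lt_or_ge (n / 2) d with h | h
  · rw [if_pos h]
    have h1 : n / d < 2 := by
      rw [Nat.div_lt_iff_lt_mul (by omega)]
      omega
    omega
  · rw [if_neg (by omega)]
    -- `n = d k + b`
    set a := n / 2 / d with ha
    have h1 : d * a ≤ n / 2 := Nat.mul_div_le _ _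
    have h2 : n / 2 < d * (a + 1) := by
      have := Nat.lt_mul_div_succ (n / 2) (show 0 < d by omega)
      exact this
    have h3 : n < d * (2 * a + 2) := by
      have e : d * (2 * a + 2) = 2 * (d * (a + 1)) := by ring
      omega
    have h4 : n / d < 2 * a + 2 := by
      rw [Nat.div_lt_iff_lt_mul (by omega), mul_comm]
      exact h3
    have h5 : 1 ≤ a := by
      rw [ha, Nat.le_div_iff_mul_le (by omega)]
      omega
    by_cases h6 : n / d = 2 * a + 1
    · have h7 : d ≤ n / 3 := by
        rw [Nat.le_div_iff_mul_le (by norm_num)]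
        have h8 : 3 ≤ n / d := by omega
        rw [Nat.le_div_iff_mul_le (by omega)] at h8
        omega
      rw [if_pos h7]
      omega
    · omega

theorem sum_totient_le (t : ℕ) : 2 * ∑ d ∈ Icc 1 t, d.totient ≤ t * (t + 1) := by
  rw [← two_mul_sum t]
  apply Nat.mul_le_mul_left
  apply Finset.sum_le_sum
  intro d hd
  rw [Finset.mem_Icc] at hd
  apply Nat.le_mul_of_pos_right
  exact Nat.div_pos hd.2 (by omega)

theorem ss_ge (n : ℕ) :
    n * (n + 1) ≤ 2 * (n / 2 * (n / 2 + 1)) + 2 * ss n + n / 3 * (n / 3 + 1) := by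
  rw [← two_mul_sum n, ← two_mul_sum (n / 2)]
  have h1 : ∑ d ∈ Icc 1 n, d.totient * (n / d) ≤ ∑ d ∈ Icc 1 n, (2 * (d.totient * (n / 2 / d)) +
      (if n / 2 < d then d.totient else 0) + (if d ≤ n / 3 then d.totient else 0)) := by
    apply Finset.sum_le_sum
    intro d hd
    rw [Finset.mem_Icc] at hd
    calc d.totient * (n / d) ≤ d.totient * (2 * (n / 2 / d) + (if n / 2 < d then 1 else 0) +
          (if d ≤ n / 3 then 1 else 0)) := Nat.mul_le_mul_left _ (div_le n d hd.1)
      _ = _ := by
        rw [mul_add, mul_add]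
        congr 1
        · congr 1
          · ring
          · split_ifs <;> simp
        · split_ifs <;> simp
  rw [Finset.sum_add_distrib, Finset.sum_add_distrib, ← Finset.mul_sum] at h1
  have h2 : ∑ d ∈ Icc 1 n, d.totient * (n / 2 / d) = ∑ d ∈ Icc 1 (n / 2), d.totient * (n / 2 / d) := by
    symm
    apply Finset.sum_subset
    · intro d hd
      rw [Finset.mem_Icc] at hd ⊢
      exact ⟨hd.1, hd.2.trans (Nat.div_le_self n 2)⟩
    · intro d hd hd2
      rw [Finset.mem_Icc] at hd hd2
      rw [Nat.div_eq_of_lt (by omega), mul_zero]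
  have h3 : ∑ d ∈ Icc 1 n, (if n / 2 < d then d.totient else 0) = ss n := by
    rw [← Finset.sum_filter, ss]
    apply Finset.sum_congr _ (fun _ _ => rfl)
    ext d
    simp only [Finset.mem_filter, Finset.mem_Icc, Finset.mem_Ioc]
    omega
  have h4 : ∑ d ∈ Icc 1 n, (if d ≤ n / 3 then d.totient else 0) = ∑ d ∈ Icc 1 (n / 3), d.totient := by
    rw [← Finset.sum_filter]
    apply Finset.sum_congr _ (fun _ _ => rfl)
    ext d
    simp only [Finset.mem_filter, Finset.mem_Icc]
    omega
  rw [h2, h3, h4] at h1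
  have h5 := sum_totient_le (n / 3)
  omega

theorem ss_bound (n : ℕ) : 7 * n ^ 2 ≤ 36 * ss n + 6 * n := by
  have h := ss_ge n
  have h1 : 3 * (n / 3) ≤ n := Nat.mul_div_le n 3
  have h2 : n = 2 * (n / 2) ∨ n = 2 * (n / 2) + 1 := by omega
  generalize n / 3 = t at *
  generalize n / 2 = m at *
  generalize ss n = s at *
  have h3 : 9 * (t * (t + 1)) ≤ n ^ 2 + 3 * n := by nlinarith
  rcases h2 with h2 | h2
  · subst h2
    nlinarith
  · subst h2
    nlinarith

end Cfsg.Agent.H364.SpTot
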