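import Mathlib
import Cfsg.Agent.H365.Zsig
import Cfsg.Agent.H364.SpTot

/-!
# Primitive parts of `∏ (Q ^ j - 1)` (helper364)
-/

set_option autoImplicit false

namespace Cfsg.Agent.H364.SpPrim

open Finset Cfsg.Agent.H365.Zsig Cfsg.Agent.H364.SpTot

/-- the primitive part of `Φ_j(Q)` -/
noncomputable def pk (j Q : ℕ) : ℕ := Ph j Q / Nat.gcd (Ph j Q) j

theorem pk_mul (j Q : ℕ) : pk j Q * Nat.gcd (Ph j Q) j = Ph j Q := Nat.div_mul_cancel (Nat.gcd_dvd_left _ _)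

theorem Ph_le {j Q : ℕ} (hj : 0 < j) : Ph j Q ≤ pk j Q * j := by
  conv_lhs => rw [← pk_mul j Q]
  exact Nat.mul_le_mul_left _ (Nat.gcd_le_right _ hj)

theorem order_of_dvd_pk {j Q r : ℕ} (hj : 3 ≤ j) (hQ : 2 ≤ Q) (hr : r.Prime) (h : r ∣ pk j Q) :
    orderOf (Q : ZMod r) = j := by
  have h1 : r ∣ Ph j Q := h.trans (Dvd.intro _ (pk_mul j Q))
  rcases prime_dvd_Ph (by omega) hQ hr h1 with h2 | ⟨k, m, h2, h3, h4, h5, h6⟩
  · exact h2
  · exfalso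
    apply sq_not_dvd hj hQ hr h2 h3 h4 h5 h6
    have h7 : r ∣ Nat.gcd (Ph j Q) j := Nat.dvd_gcd h1 (by rw [h2, pow_succ]; exact ⟨r ^ k * m, by ring⟩)
    rw [← pk_mul j Q, sq]
    exact Nat.mul_dvd_mul h h7

theorem pow_totient_le {j Q : ℕ} (hQ : 2 ≤ Q) : (Q - 1) ^ j.totient ≤ Ph j Q := by
  have h1 : (1 : ℝ) < (Q : ℝ) := by exact_mod_cast (show 1 < Q by omega)
  have h2 := Polynomial.sub_one_pow_totient_le_cyclotomic_eval h1 j
  rw [Ph_real (by omega)] at h2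
  have h3 : ((((Q - 1) ^ j.totient : ℕ)) : ℝ) ≤ ((Ph j Q : ℕ) : ℝ) := by
    push_cast [Nat.cast_sub (show 1 ≤ Q by omega)]
    exact h2
  exact_mod_cast h3

/-- the product of the primitive parts -/
noncomputable def tt (n Q : ℕ) : ℕ := ∏ j ∈ Ioc (n / 2) n, pk j Q

/-- the loss -/
def lam (n : ℕ) : ℕ := ∏ j ∈ Ioc (n / 2) n, j

theorem tt_dvd {n Q : ℕ} (hQ : 1 ≤ Q) : tt n Q ∣ ∏ i ∈ range n, (Q ^ (i + 1) - 1) := by
  have h1 : ∏ i ∈ range n, (Q ^ (i + 1) - 1) = ∏ j ∈ Ioc 0 n, (Q ^ j - 1) := by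
    rw [Finset.range_eq_Ico, Finset.prod_Ico_add' (fun j => Q ^ j - 1) 0 n 1]
    apply Finset.prod_congr _ (fun _ _ => rfl)
    ext x
    simp only [Finset.mem_Ico, Finset.mem_Ioc]
    omega
  rw [h1]
  refine (Finset.prod_dvd_prod_of_dvd _ (fun j => Q ^ j - 1) ?_).trans (Finset.prod_dvd_prod_of_subset _ _ _ ?_)
  · intro j hj
    rw [Finset.mem_Ioc] at hj
    exact (Dvd.intro _ (pk_mul j Q)).trans (Ph_dvd (by omega) hQ)
  · intro j hj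
    rw [Finset.mem_Ioc] at hj ⊢
    omega

theorem order_of_dvd_tt {n Q r : ℕ} (hn : 4 ≤ n) (hQ : 2 ≤ Q) (hr : r.Prime) (h : r ∣ tt n Q) :
    n / 2 < orderOf (Q : ZMod r) ∧ orderOf (Q : ZMod r) ≤ n := by
  obtain ⟨j, hj, hd⟩ := (hr.prime.dvd_finsetProd_iff _).1 h
  rw [Finset.mem_Ioc] at hj
  rw [order_of_dvd_pk (by omega) hQ hr hd]
  exact hj

theorem tt_ge {n Q : ℕ} (hQ : 2 ≤ Q) : (Q - 1) ^ ss n ≤ tt n Q * lam n := by
  rw [ss, ← Finset.prod_pow_eq_pow_sum, tt, lam, ← Finset.prod_mul_distrib]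
  apply Finset.prod_le_prod'
  intro j hj
  rw [Finset.mem_Ioc] at hj
  exact (pow_totient_le hQ).trans (Ph_le (by omega))

theorem lam_le (n : ℕ) : lam n ≤ n ^ (n - n / 2) := by
  have h1 : lam n ≤ ∏ _j ∈ Ioc (n / 2) n, n := by
    apply Finset.prod_le_prod'
    intro j hj
    rw [Finset.mem_Ioc] at hj
    exact hj.2
  rw [Finset.prod_const, Nat.card_Ioc] at h1
  exact h1

theorem lam_pos (n : ℕ) : 0 < lam n := by
  apply Finset.prod_pos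
  intro j hj
  rw [Finset.mem_Ioc] at hj
  omega

end Cfsg.Agent.H364.SpPrim
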