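import Mathlib
import Cfsg.Agent.H364.SpPrim

/-!
# The main numerical inequality, `n ≥ 5` (helper364)
-/

set_option autoImplicit false

namespace Cfsg.Agent.H364.SpIneq

open Finset Cfsg.Agent.H364.SpTot Cfsg.Agent.H364.SpPrim

theorem mono {s c C D q0 q : ℕ} (h0 : 2 ≤ q0) (hq : q0 ≤ q) (hE : D ≤ 6 * s + 3 * c)
    (h : C * (q0 + 1) ^ D < ((q0 ^ 2 - 1) ^ s) ^ 3 * (q0 ^ c) ^ 3) :
    C * (q + 1) ^ D < ((q ^ 2 - 1) ^ s) ^ 3 * (q ^ c) ^ 3 := by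
  have e : ∀ x : ℕ, 1 ≤ x → x ^ 2 - 1 = (x - 1) * (x + 1) := by
    intro x hx
    obtain ⟨y, rfl⟩ := Nat.exists_eq_add_of_le' hx
    rw [Nat.add_sub_cancel]
    have : (y + 1) ^ 2 = y * (y + 1 + 1) + 1 := by ring
    rw [this, Nat.add_sub_cancel]
  rw [e q (by omega)]
  rw [e q0 (by omega)] at h
  -- the ratio is increasing
  have h1 : (q0 - 1) * (q + 1) ≤ (q - 1) * (q0 + 1) := by
    obtain ⟨a, rfl⟩ := Nat.exists_eq_add_of_le' (show 1 ≤ q0 by omega)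
    obtain ⟨b, rfl⟩ := Nat.exists_eq_add_of_le' (show 1 ≤ q by omega)
    rw [Nat.add_sub_cancel, Nat.add_sub_cancel]
    nlinarith
  have h2 : q0 * (q + 1) ≤ q * (q0 + 1) := by nlinarith
  have h3 : (((q0 - 1) * (q0 + 1)) ^ s) ^ 3 * (q0 ^ c) ^ 3 * (q + 1) ^ (6 * s + 3 * c) ≤
      (((q - 1) * (q + 1)) ^ s) ^ 3 * (q ^ c) ^ 3 * (q0 + 1) ^ (6 * s + 3 * c) := by
    have e1 : (((q0 - 1) * (q0 + 1)) ^ s) ^ 3 * (q0 ^ c) ^ 3 * (q + 1) ^ (6 * s + 3 * c) =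
        ((q0 - 1) * (q + 1)) ^ (3 * s) * ((q0 + 1) * (q + 1)) ^ (3 * s) * (q0 * (q + 1)) ^ (3 * c) := by
      simp only [mul_pow, ← pow_mul]
      rw [show s * 3 = 3 * s by ring, show c * 3 = 3 * c by ring, show 6 * s + 3 * c = 3 * s + 3 * s + 3 * c by ring,
        pow_add, pow_add]
      ring
    have e2 : (((q - 1) * (q + 1)) ^ s) ^ 3 * (q ^ c) ^ 3 * (q0 + 1) ^ (6 * s + 3 * c) =
        ((q - 1) * (q0 + 1)) ^ (3 * s) * ((q0 + 1) * (q + 1)) ^ (3 * s) * (q * (q0 + 1)) ^ (3 * c) := by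
      simp only [mul_pow, ← pow_mul]
      rw [show s * 3 = 3 * s by ring, show c * 3 = 3 * c by ring, show 6 * s + 3 * c = 3 * s + 3 * s + 3 * c by ring,
        pow_add, pow_add]
      ring
    rw [e1, e2]
    exact Nat.mul_le_mul (Nat.mul_le_mul_right _ (Nat.pow_le_pow_left h1 _)) (Nat.pow_le_pow_left h2 _)
  have hpos : 0 < (q0 + 1) ^ (6 * s + 3 * c) := pow_pos (by omega) _
  refine lt_of_mul_lt_mul_right ?_ (Nat.zero_le ((q0 + 1) ^ (6 * s + 3 * c)))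
  calc C * (q + 1) ^ D * (q0 + 1) ^ (6 * s + 3 * c)
      = C * (q0 + 1) ^ D * ((q + 1) ^ D * (q0 + 1) ^ (6 * s + 3 * c - D)) := by
        conv_lhs => rw [show 6 * s + 3 * c = D + (6 * s + 3 * c - D) by omega, pow_add]
        ring
    _ ≤ C * (q0 + 1) ^ D * ((q + 1) ^ D * (q + 1) ^ (6 * s + 3 * c - D)) := by
        apply Nat.mul_le_mul_left
        apply Nat.mul_le_mul_left
        exact Nat.pow_le_pow_left (by omega) _
    _ = C * (q0 + 1) ^ D * (q + 1) ^ (6 * s + 3 * c) := by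
        rw [← pow_add]
        congr 2
        omega
    _ < (((q0 - 1) * (q0 + 1)) ^ s) ^ 3 * (q0 ^ c) ^ 3 * (q + 1) ^ (6 * s + 3 * c) :=
        Nat.mul_lt_mul_of_pos_right h (pow_pos (by omega) _)
    _ ≤ _ := h3

/-- the exponent of the `p`-part -/
def cn (n : ℕ) : ℕ := if n % 2 = 1 then n else 0

/-- the start of the range of `q` -/
def q0 (n : ℕ) : ℕ :=
  if n = 5 then 6 else if n = 7 ∨ n = 12 then 4 else if n = 10 then 5 else if n = 19 ∨ n = 21 ∨ 23 ≤ n then 2 else 3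

/-- the check -/
def chk (n : ℕ) : Bool :=
  (lam n ^ 3 * 4 ^ (5 * n) * n ^ 3 * (q0 n + 1) ^ (5 * n + 3) < ((q0 n ^ 2 - 1) ^ ss n) ^ 3 * (q0 n ^ cn n) ^ 3) &&
  (lam n ^ 3 * n ^ 3 * (q0 n + 1) ^ (8 * n + 3) < ((q0 n ^ 2 - 1) ^ ss n) ^ 3 * (q0 n ^ cn n) ^ 3) &&
  (8 * n + 3 ≤ 6 * ss n + 3 * cn n)

theorem chk_all : ∀ n ∈ List.range 48, n < 5 ∨ n = 6 ∨ n = 8 ∨ chk n = true := by
  decide +kernel

theorem pow8 {n : ℕ} (hn : 48 ≤ n) : n ^ 8 ≤ 3 ^ n := by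
  induction n, hn using Nat.le_induction with
  | base => norm_num
  | succ n hn ih =>
    have h1 : (n + 1) ^ 8 * 48 ^ 8 ≤ 3 * n ^ 8 * 48 ^ 8 := by
      calc (n + 1) ^ 8 * 48 ^ 8 = ((n + 1) * 48) ^ 8 := by rw [mul_pow]
        _ ≤ (49 * n) ^ 8 := Nat.pow_le_pow_left (by omega) 8
        _ = 49 ^ 8 * n ^ 8 := by rw [mul_pow]
        _ ≤ (3 * 48 ^ 8) * n ^ 8 := Nat.mul_le_mul_right _ (by norm_num)
        _ = _ := by ring
    have h2 : (n + 1) ^ 8 ≤ 3 * n ^ 8 := Nat.le_of_mul_le_mul_right h1 (by norm_num)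
    calc (n + 1) ^ 8 ≤ 3 * n ^ 8 := h2
      _ ≤ 3 * 3 ^ n := Nat.mul_le_mul_left 3 ih
      _ = 3 ^ (n + 1) := by ring

theorem gen {n : ℕ} (hn : 48 ≤ n) :
    lam n ^ 3 * 4 ^ (5 * n) * n ^ 3 * (2 + 1) ^ (8 * n + 3) < ((2 ^ 2 - 1) ^ ss n) ^ 3 * (2 ^ 0) ^ 3 := by
  have hl := lam_le n
  have hs := ss_bound n
  generalize lam n = L at *
  generalize ss n = s at *
  set K := 3 * (n - n / 2) + 3 with hK
  have hK2 : 2 * K ≤ 3 * n + 9 := by omega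
  have h1 : L ^ 3 * n ^ 3 ≤ n ^ K := by
    calc L ^ 3 * n ^ 3 ≤ (n ^ (n - n / 2)) ^ 3 * n ^ 3 := Nat.mul_le_mul_right _ (Nat.pow_le_pow_left hl 3)
      _ = n ^ K := by rw [← pow_mul, ← pow_add, hK]; congr 1; ring
  have h2 : (L ^ 3 * n ^ 3) ^ 8 ≤ 3 ^ (n * K) := by
    calc (L ^ 3 * n ^ 3) ^ 8 ≤ (n ^ K) ^ 8 := Nat.pow_le_pow_left h1 8
      _ = (n ^ 8) ^ K := by rw [← pow_mul, ← pow_mul, mul_comm]
      _ ≤ (3 ^ n) ^ K := Nat.pow_le_pow_left (pow8 hn) K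
      _ = _ := by rw [← pow_mul]
  have h3 : 4 ^ (5 * n) ≤ 3 ^ (7 * n) := by
    rw [pow_mul, pow_mul]
    exact Nat.pow_le_pow_left (by norm_num) n
  have h4 : n * K + 120 * n + 24 < 24 * s := by
    have h5 : 2 * (n * K) ≤ n * (3 * n + 9) := by
      calc 2 * (n * K) = n * (2 * K) := by ring
        _ ≤ _ := Nat.mul_le_mul_left n hK2
    nlinarith
  have e : ((2 ^ 2 - 1) ^ s) ^ 3 * (2 ^ 0) ^ 3 = 3 ^ (3 * s) := by
    rw [pow_zero, one_pow, mul_one, ← pow_mul, mul_comm s 3, show (2 : ℕ) ^ 2 - 1 = 3 from rfl]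
  rw [e]
  refine lt_of_pow_lt_pow_left₀ 8 (Nat.zero_le _) ?_
  calc (L ^ 3 * 4 ^ (5 * n) * n ^ 3 * (2 + 1) ^ (8 * n + 3)) ^ 8
      = (L ^ 3 * n ^ 3) ^ 8 * (4 ^ (5 * n)) ^ 8 * (3 ^ (8 * n + 3)) ^ 8 := by
        rw [show (2 + 1 : ℕ) = 3 from rfl]
        simp only [mul_pow]
        ring
    _ ≤ 3 ^ (n * K) * (3 ^ (7 * n)) ^ 8 * (3 ^ (8 * n + 3)) ^ 8 :=
        Nat.mul_le_mul_right _ (Nat.mul_le_mul h2 (Nat.pow_le_pow_left h3 8))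
    _ = 3 ^ (n * K + 120 * n + 24) := by
        rw [← pow_mul, ← pow_mul, ← pow_add, ← pow_add]
        congr 1
        ring
    _ < 3 ^ (24 * s) := Nat.pow_lt_pow_right (by norm_num) h4
    _ = (3 ^ (3 * s)) ^ 8 := by rw [← pow_mul]; congr 1; ring

/-- **The inequalities.** -/
theorem ineq {n q : ℕ} (hn : 5 ≤ n) (h6 : n ≠ 6) (h8 : n ≠ 8) (hq : q0 n ≤ q) :
    lam n ^ 3 * 4 ^ (5 * n) * n ^ 3 * (q + 1) ^ (5 * n + 3) < ((q ^ 2 - 1) ^ ss n) ^ 3 * (q ^ cn n) ^ 3 ∧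
    lam n ^ 3 * n ^ 3 * (q + 1) ^ (8 * n + 3) < ((q ^ 2 - 1) ^ ss n) ^ 3 * (q ^ cn n) ^ 3 := by
  have hq02 : 2 ≤ q0 n := by
    rw [q0]
    split_ifs <;> norm_num
  rcases Nat.lt_or_ge n 48 with h | h
  · rcases chk_all n (List.mem_range.2 h) with h1 | h1 | h1 | h1
    · omega
    · omega
    · omega
    · simp only [chk, Bool.and_eq_true, decide_eq_true_eq] at h1
      obtain ⟨⟨h2, h3⟩, h4⟩ := h1
      exact ⟨mono hq02 hq (by omega) h2, mono hq02 hq (by omega) h3⟩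
  · have hs := ss_bound n
    have hE : 8 * n + 3 ≤ 6 * ss n + 3 * 0 := by nlinarith
    have h1 := mono (le_refl 2) (hq02.trans hq) hE (gen h)
    rw [pow_zero, one_pow, mul_one] at h1
    have h2 : 1 ≤ (q ^ cn n) ^ 3 := Nat.one_le_pow _ _ (pow_pos (by omega) _)
    have h3 : lam n ^ 3 * 4 ^ (5 * n) * n ^ 3 * (q + 1) ^ (8 * n + 3) < ((q ^ 2 - 1) ^ ss n) ^ 3 * (q ^ cn n) ^ 3 :=
      h1.trans_le (Nat.le_mul_of_pos_right _ h2)
    constructor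
    · refine lt_of_le_of_lt ?_ h3
      apply Nat.mul_le_mul_left
      exact Nat.pow_le_pow_right (by omega) (by omega)
    · refine lt_of_le_of_lt ?_ h3
      apply Nat.mul_le_mul_right
      apply Nat.mul_le_mul_right
      exact Nat.le_mul_of_pos_right _ (pow_pos (by norm_num) _)

end Cfsg.Agent.H364.SpIneq
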