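import Mathlib
import Cfsg.Agent.H902.Dom

/-!
# Bounds for the parts of `∏ (q ^ (2 i) - 1)` (helper364)
-/

set_option autoImplicit false

namespace Cfsg.Agent.H364.SpVal

open Finset Cfsg.Agent.H902.Lte Cfsg.Agent.H902.Art

/-- the symplectic product -/
def AA (n q : ℕ) : ℕ := ∏ i ∈ range n, (q ^ (2 * (i + 1)) - 1)

theorem AA_ne {n q : ℕ} (hq : 2 ≤ q) : AA n q ≠ 0 := by
  refine Finset.prod_ne_zero_iff.2 fun i _ => ?_
  have : q ^ 1 ≤ q ^ (2 * (i + 1)) := Nat.pow_le_pow_right (by omega) (by omega)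
  rw [pow_one] at this
  omega

theorem cast_sq (q r : ℕ) : (((q : ℤ) ^ 2 : ℤ) : ZMod r) = ((q ^ 2 : ℕ) : ZMod r) := by push_cast; rfl

theorem PC_odd' {r q : ℕ} (hr : r.Prime) (hr2 : r ≠ 2) (hq : 2 ≤ q) (hrq : ¬ r ∣ q) (m : ℕ) :
    1 ≤ orderOf ((q ^ 2 : ℕ) : ZMod r) ∧ ((m < orderOf ((q ^ 2 : ℕ) : ZMod r) ∧ P r (AA m q) = 1) ∨
      (orderOf ((q ^ 2 : ℕ) : ZMod r) ≤ m ∧ (P r (AA m q)) ^ 2 ≤
        ((q ^ orderOf ((q ^ 2 : ℕ) : ZMod r) + 1) ^ 2) ^ (m / orderOf ((q ^ 2 : ℕ) : ZMod r)) *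
          3 ^ (m / orderOf ((q ^ 2 : ℕ) : ZMod r) - 1))) := by
  have hx := abs_sq_ge hq
  have hrx := not_dvd_sq hr hrq
  rw [← cast_sq]
  set x : ℤ := (q : ℤ) ^ 2 with hxdef
  have he := order_pos (q := q) hr hrx
  refine ⟨he, ?_⟩
  rcases Nat.lt_or_ge m (orderOf (x : ZMod r)) with h | h
  · left
    refine ⟨h, ?_⟩
    rw [AA, ← W_sq hq]
    exact PW_zero hr hr2 hx hrx m (Nat.div_eq_of_lt h)
  · right
    refine ⟨h, ?_⟩
    rw [AA, ← W_sq hq]
    apply PW_odd_sq hr hr2 hx hrx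
    · apply Nat.pow_le_pow_left
      have h1 : (x ^ orderOf (x : ZMod r) - 1).natAbs = q ^ (2 * orderOf (x : ZMod r)) - 1 := by
        have h2 : x ^ orderOf (x : ZMod r) - 1 = ((q ^ (2 * orderOf (x : ZMod r)) - 1 : ℕ) : ℤ) := by
          rw [Nat.cast_sub (Nat.one_le_pow _ _ (by omega)), hxdef, ← pow_mul]; push_cast; rfl
        rw [h2, Int.natAbs_natCast]
      rw [h1]
      exact P_sq_sub_one_le hr hr2 hq he
    · exact (Nat.div_pos h (by omega)).ne'

/-- a prime whose order is more than half of `n` -/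
theorem P_le_of_order {r q n : ℕ} (hr : r.Prime) (hr2 : r ≠ 2) (hq : 2 ≤ q) (hrq : ¬ r ∣ q)
    (h1 : n / 2 < orderOf ((q ^ 2 : ℕ) : ZMod r)) :
    P r (AA n q) ≤ q ^ orderOf ((q ^ 2 : ℕ) : ZMod r) + 1 := by
  obtain ⟨he, h | ⟨h2, h3⟩⟩ := PC_odd' hr hr2 hq hrq n
  · rw [h.2]; omega
  · have h4 : n / orderOf ((q ^ 2 : ℕ) : ZMod r) = 1 := by
      have h5 : n / orderOf ((q ^ 2 : ℕ) : ZMod r) < 2 := by
        rw [Nat.div_lt_iff_lt_mul (by omega)]; omega
      have h6 := Nat.div_pos h2 (by omega)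
      omega
    rw [h4, pow_one, Nat.sub_self, pow_zero, mul_one] at h3
    exact le_of_sq_le h3

/-- the general bound -/
theorem P_odd_sq_le {r q n : ℕ} (hr : r.Prime) (hr2 : r ≠ 2) (hq : 2 ≤ q) (hrq : ¬ r ∣ q) :
    (P r (AA n q)) ^ 2 ≤ 3 ^ n * (q + 1) ^ (2 * n) := by
  obtain ⟨he, h | ⟨h2, h3⟩⟩ := PC_odd' hr hr2 hq hrq n
  · rw [h.2, one_pow]
    exact Nat.mul_pos (pow_pos (by norm_num) _) (pow_pos (by omega) _)
  · refine h3.trans ?_
    generalize orderOf ((q ^ 2 : ℕ) : ZMod r) = e at *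
    have h5 : ∀ e : ℕ, 1 ≤ e → q ^ e + 1 ≤ (q + 1) ^ e := by
      intro e he
      induction e, he using Nat.le_induction with
      | base => simp
      | succ k hk ih =>
        rw [pow_succ, pow_succ]
        have h6 : 1 ≤ q ^ k := Nat.one_le_pow _ _ (by omega)
        nlinarith
    calc ((q ^ e + 1) ^ 2) ^ (n / e) * 3 ^ (n / e - 1) ≤ (((q + 1) ^ e) ^ 2) ^ (n / e) * 3 ^ n := by
          apply Nat.mul_le_mul
          · exact Nat.pow_le_pow_left (Nat.pow_le_pow_left (h5 e he) 2) _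
          · apply Nat.pow_le_pow_right (by norm_num)
            have := Nat.div_le_self n e
            omega
      _ = (q + 1) ^ (2 * (e * (n / e))) * 3 ^ n := by
          rw [← pow_mul, ← pow_mul]
          congr 2
          ring
      _ ≤ (q + 1) ^ (2 * n) * 3 ^ n := by
          apply Nat.mul_le_mul_right
          apply Nat.pow_le_pow_right (by omega)
          have := Nat.mul_div_le n e
          omega
      _ = _ := mul_comm _ _

theorem P_le_gen {r q n : ℕ} (hr : r.Prime) (hq : 2 ≤ q) (hrq : ¬ r ∣ q) (hn : 1 ≤ n) :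
    P r (AA n q) ≤ (4 * (q + 1)) ^ n := by
  by_cases hr2 : r = 2
  · subst hr2
    have hodd : Odd q := Nat.not_even_iff_odd.1 fun h => hrq h.two_dvd
    have hq3 : 3 ≤ q := by
      rcases hodd with ⟨k, hk⟩; omega
    have := PC_two hq3 hodd hn
    rw [AA]
    omega
  · apply le_of_sq_le
    refine (P_odd_sq_le hr hr2 hq hrq).trans ?_
    rw [← pow_mul, mul_comm n 2, mul_pow 4]
    apply Nat.mul_le_mul_right
    rw [pow_mul]
    exact Nat.pow_le_pow_left (by norm_num) n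

theorem four_le {q v : ℕ} (hv : 2 ≤ v) (h : 3 ≤ q ∨ (2 ≤ q ∧ 3 ≤ v)) : 4 * (q + 1) ≤ v ^ (q + 1) := by
  rcases h with h | ⟨h, h'⟩
  · have h1 : 4 * (q + 1) ≤ 2 ^ (q + 1) := by
      induction q, h using Nat.le_induction with
      | base => norm_num
      | succ k hk ih =>
        rw [pow_succ]
        omega
    exact h1.trans (Nat.pow_le_pow_left hv _)
  · have h1 : 4 * (q + 1) ≤ 3 ^ (q + 1) := by
      induction q, h using Nat.le_induction with
      | base => norm_num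
      | succ k hk ih =>
        rw [pow_succ]
        omega
    exact h1.trans (Nat.pow_le_pow_left h' _)

/-- the exponent -/
theorem exp_le {q v n N : ℕ} (hv : 2 ≤ v) (h : 3 ≤ q ∨ (2 ≤ q ∧ 3 ≤ v)) (hN : v ^ N ≤ (4 * (q + 1)) ^ n) :
    N ≤ n * (q + 1) := by
  by_contra hcon
  have h1 : v ^ (n * (q + 1)) < v ^ N := Nat.pow_lt_pow_right (by omega) (by omega)
  have h2 : (4 * (q + 1)) ^ n ≤ v ^ (n * (q + 1)) := by
    rw [mul_comm n, pow_mul]
    exact Nat.pow_le_pow_left (four_le hv h) n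
  omega

end Cfsg.Agent.H364.SpVal
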