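import Mathlib
import Cfsg.Agent.H902.Facts
import Cfsg.Agent.H364.SpIneq
import Cfsg.Agent.H364.SpVal

/-!
# Simple groups of Lie type in cross characteristic: the estimate (helper364)
-/

set_option autoImplicit false

namespace Cfsg.Agent.H364.SpCross

open Finset Cfsg.Agent.H902.Lte Cfsg.Agent.H902.Art Cfsg.Agent.H364.SpVal Cfsg.Agent.H364.SpIneq Cfsg.Agent.H364.SpPrim
  Cfsg.Agent.H364.SpTot

section

variable {X : Sh} {v g MS I D : ℕ}

/-- a divisor of `I * MS` prime to `v` -/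
theorem le_num (hX : Real X v g MS) (hI : I ≤ dd X (v ^ g) * NN X * g) (hI0 : 0 < I) (hv : Nat.Coprime D v)
    (hd : D ∣ I * MS) : D ≤ num X (v ^ g) * (g * NN X) := by
  have hM0 := hX.M_ne
  have hP := hX.P_self
  have hPd : P v MS ∣ MS := P_dvd v MS
  rw [hP] at hPd
  obtain ⟨m', hm'⟩ := hPd
  have hq0 : 0 < (v ^ g) ^ NN X := pow_pos (pow_pos hX.hp.pos _) _
  have h1 : dd X (v ^ g) * m' = num X (v ^ g) := by
    have h2 := hX.eq
    rw [hm', ← mul_assoc, mul_comm (dd X (v ^ g)), mul_assoc] at h2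
    exact Nat.eq_of_mul_eq_mul_left hq0 h2
  have h2 : D ∣ I * m' := by
    have h3 : D ∣ (v ^ g) ^ NN X * (I * m') := by
      rw [hm'] at hd
      have e : (v ^ g) ^ NN X * (I * m') = I * ((v ^ g) ^ NN X * m') := by ring
      rw [e]; exact hd
    exact (Nat.Coprime.pow_right _ (Nat.Coprime.pow_right _ hv)).dvd_of_dvd_mul_left h3
  have hm0 : 0 < m' := by
    rcases Nat.eq_zero_or_pos m' with h | h
    · rw [h, mul_zero] at hm'
      exact absurd hm' hM0
    · exact h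
  calc D ≤ I * m' := Nat.le_of_dvd (Nat.mul_pos hI0 hm0) h2
    _ ≤ (dd X (v ^ g) * NN X * g) * m' := Nat.mul_le_mul_right _ hI
    _ = (dd X (v ^ g) * m') * (g * NN X) := by ring
    _ = _ := by rw [h1]

/-- an arbitrary divisor of `I * MS` -/
theorem le_all (hX : Real X v g MS) (hI : I ≤ dd X (v ^ g) * NN X * g) (hI0 : 0 < I) (hd : D ∣ I * MS) :
    D ≤ v ^ (g * NN X) * num X (v ^ g) * (g * NN X) := by
  have hM0 := hX.M_ne
  calc D ≤ I * MS := Nat.le_of_dvd (Nat.mul_pos hI0 (Nat.pos_of_ne_zero hM0)) hd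
    _ ≤ (dd X (v ^ g) * NN X * g) * MS := Nat.mul_le_mul_right _ hI
    _ = (dd X (v ^ g) * MS) * (g * NN X) := by ring
    _ = _ := by rw [hX.eq, ← pow_mul]

theorem cube_num (hX : Real X v g MS) (hX2 : X ≠ .L 2) (hI : I ≤ dd X (v ^ g) * NN X * g) (hI0 : 0 < I)
    (hv : Nat.Coprime D v) (hd : D ∣ I * MS) : D ^ 3 ≤ (v ^ (g * NN X)) ^ 5 * (g * NN X) ^ 3 := by
  have h1 := le_num hX hI hI0 hv hd
  have h2 := hX.num_cube hX2
  rw [← pow_mul v] at h2
  calc D ^ 3 ≤ (num X (v ^ g) * (g * NN X)) ^ 3 := Nat.pow_le_pow_left h1 3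
    _ = num X (v ^ g) ^ 3 * (g * NN X) ^ 3 := mul_pow _ _ _
    _ ≤ _ := Nat.mul_le_mul_right _ h2

theorem cube_all (hX : Real X v g MS) (hX2 : X ≠ .L 2) (hI : I ≤ dd X (v ^ g) * NN X * g) (hI0 : 0 < I)
    (hd : D ∣ I * MS) : D ^ 3 ≤ (v ^ (g * NN X)) ^ 8 * (g * NN X) ^ 3 := by
  have h1 := le_all hX hI hI0 hd
  have h2 := hX.num_cube hX2
  rw [← pow_mul v] at h2
  calc D ^ 3 ≤ (v ^ (g * NN X) * num X (v ^ g) * (g * NN X)) ^ 3 := Nat.pow_le_pow_left h1 3
    _ = (v ^ (g * NN X)) ^ 3 * num X (v ^ g) ^ 3 * (g * NN X) ^ 3 := by rw [mul_pow, mul_pow]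
    _ ≤ (v ^ (g * NN X)) ^ 3 * (v ^ (g * NN X)) ^ 5 * (g * NN X) ^ 3 :=
        Nat.mul_le_mul_right _ (Nat.mul_le_mul_left _ h2)
    _ = _ := by rw [← pow_add]

theorem pow_le_P {Y : Sh} {p f M : ℕ} (hX : Real X v g MS) (hY : Real Y p f M) (hMS : MS ∣ M) :
    v ^ (g * NN X) ≤ P v M := by
  have h1 := P_mono hX.hp hY.M_ne hMS
  rw [hX.P_self, ← pow_mul] at h1
  exact h1

end

/-- **No simple group of Lie type in cross characteristic**, the general case. -/
theorem cross_gen {n p f M : ℕ} (hY : Real (.C n) p f M) (hn : 5 ≤ n) (h6 : n ≠ 6) (h8 : n ≠ 8) (hq : q0 n ≤ p ^ f)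
    {X : Sh} {v g MS I : ℕ} (hX : Real X v g MS) (hX2 : X ≠ .L 2) (hvp : v ≠ p) (hMS : MS ∣ M)
    (hI : I ≤ dd X (v ^ g) * NN X * g) (hI0 : 0 < I)
    (hd : (p ^ f) ^ cn n * tt n ((p ^ f) ^ 2) ∣ I * MS) : False := by
  have hv := hX.hp
  have hq2 := hY.q_ge
  have hvq := hY.not_dvd_q hv hvp
  obtain ⟨i1, i2⟩ := ineq hn h6 h8 hq
  set q := p ^ f with hqdef
  have hQ : 2 ≤ q ^ 2 := by nlinarith
  have h1 := pow_le_P hX hY hMS
  have h2 : P v M ≤ P v (AA n q) := hY.P_other_le hv hvp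
  have hlb := tt_ge (n := n) hQ
  have hlam := lam_pos n
  set N := g * NN X with hN
  -- the common end
  have fin : ∀ B : ℕ, (q ^ cn n * tt n (q ^ 2)) ^ 3 ≤ B →
      lam n ^ 3 * B < ((q ^ 2 - 1) ^ ss n) ^ 3 * (q ^ cn n) ^ 3 → False := by
    intro B hB h3
    have h4 : ((q ^ 2 - 1) ^ ss n) ^ 3 * (q ^ cn n) ^ 3 ≤ lam n ^ 3 * (q ^ cn n * tt n (q ^ 2)) ^ 3 := by
      calc ((q ^ 2 - 1) ^ ss n) ^ 3 * (q ^ cn n) ^ 3 ≤ (tt n (q ^ 2) * lam n) ^ 3 * (q ^ cn n) ^ 3 :=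
            Nat.mul_le_mul_right _ (Nat.pow_le_pow_left hlb 3)
        _ = _ := by simp only [mul_pow]; ring
    have h5 := Nat.mul_le_mul_left (lam n ^ 3) hB
    omega
  have h34 : 3 ≤ q ∨ (2 ≤ q ∧ 3 ≤ v) := by
    by_cases hv2 : v = 2
    · left
      subst hv2
      by_contra hcon
      have : q = 2 := by omega
      rw [this] at hvq
      exact hvq (dvd_refl 2)
    · right
      have := hv.two_le
      exact ⟨hq2, by omega⟩
  have hNle : N ≤ n * (q + 1) := exp_le hv.two_le h34 ((h1.trans h2).trans (P_le_gen hv hq2 hvq (by omega)))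
  by_cases hvt : v ∣ tt n (q ^ 2)
  · -- `v` is one of the primitive primes
    obtain ⟨ho1, ho2⟩ := order_of_dvd_tt (by omega) hQ hv hvt
    have hv2 : v ≠ 2 := by
      intro h
      subst h
      have h3 : orderOf ((q ^ 2 : ℕ) : ZMod 2) ≤ 1 := by
        have hodd : ¬ 2 ∣ q ^ 2 := fun h => hvq (Nat.prime_two.dvd_of_dvd_pow h)
        have h4 : ((q ^ 2 : ℕ) : ZMod 2) = 1 := by
          rw [← Nat.cast_one, ZMod.natCast_eq_natCast_iff]
          show q ^ 2 % 2 = 1 % 2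
          omega
        rw [h4, orderOf_one]
      omega
    have h3 := P_le_of_order hv hv2 hq2 hvq ho1
    have h4 : v ^ N ≤ (q + 1) ^ n := by
      have h5 : q ^ orderOf ((q ^ 2 : ℕ) : ZMod v) + 1 ≤ q ^ n + 1 := by
        have := Nat.pow_le_pow_right (show 0 < q by omega) ho2
        omega
      have h6 : q ^ n + 1 ≤ (q + 1) ^ n := by
        have h7 : ∀ e : ℕ, 1 ≤ e → q ^ e + 1 ≤ (q + 1) ^ e := by
          intro e he
          induction e, he using Nat.le_induction with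
          | base => simp
          | succ k hk ih =>
            rw [pow_succ, pow_succ]
            have h6 : 1 ≤ q ^ k := Nat.one_le_pow _ _ (by omega)
            nlinarith
        exact h7 n (by omega)
      exact (h1.trans h2).trans (h3.trans (h5.trans h6))
    apply fin _ (cube_all hX hX2 hI hI0 hd)
    refine lt_of_le_of_lt ?_ i2
    calc lam n ^ 3 * ((v ^ N) ^ 8 * N ^ 3) ≤ lam n ^ 3 * (((q + 1) ^ n) ^ 8 * (n * (q + 1)) ^ 3) := by
          apply Nat.mul_le_mul_left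
          exact Nat.mul_le_mul (Nat.pow_le_pow_left h4 8) (Nat.pow_le_pow_left hNle 3)
      _ = _ := by
          rw [← pow_mul, mul_pow n, show 8 * n + 3 = n * 8 + 3 by ring, pow_add]
          ring
  · have hcop : Nat.Coprime (q ^ cn n * tt n (q ^ 2)) v := by
      apply Nat.Coprime.mul_left
      · apply Nat.Coprime.pow_left
        exact (Nat.Coprime.symm ((Nat.Prime.coprime_iff_not_dvd hv).2 hvq))
      · exact (Nat.Coprime.symm ((Nat.Prime.coprime_iff_not_dvd hv).2 hvt))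
    have h4 : v ^ N ≤ (4 * (q + 1)) ^ n := (h1.trans h2).trans (P_le_gen hv hq2 hvq (by omega))
    apply fin _ (cube_num hX hX2 hI hI0 hcop hd)
    refine lt_of_le_of_lt ?_ i1
    calc lam n ^ 3 * ((v ^ N) ^ 5 * N ^ 3) ≤ lam n ^ 3 * (((4 * (q + 1)) ^ n) ^ 5 * (n * (q + 1)) ^ 3) := by
          apply Nat.mul_le_mul_left
          exact Nat.mul_le_mul (Nat.pow_le_pow_left h4 5) (Nat.pow_le_pow_left hNle 3)
      _ = _ := by
          rw [← pow_mul, mul_pow n, mul_pow 4, show 5 * n + 3 = n * 5 + 3 by ring, show 5 * n = n * 5 by ring, pow_add]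
          ring

end Cfsg.Agent.H364.SpCross
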