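import Mathlib
import Cfsg.Agent.H364.SpCross

/-!
# Simple groups of Lie type in cross characteristic: the small cases (helper364)
-/

set_option autoImplicit false

namespace Cfsg.Agent.H364.SpSmall

open Finset Cfsg.Agent.H902.Lte Cfsg.Agent.H902.Art Cfsg.Agent.H364.SpVal Cfsg.Agent.H364.SpIneq Cfsg.Agent.H364.SpPrim
  Cfsg.Agent.H364.SpTot Cfsg.Agent.H364.SpCross

/-- remove the common factors with `y` -/
def strip : ℕ → ℕ → ℕ → ℕ
  | 0, x, _ => x
  | k + 1, x, y => let g := Nat.gcd x y; if g = 1 then x else strip k (x / g) y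

/-- the part with orders larger than `n / 2` -/
def te (n q : ℕ) : ℕ := strip 40 (AA n q) (AA (n / 2) q)

/-- the bound for the square of the part of a prime of order `e` -/
def Be (n q e : ℕ) : ℕ := ((q ^ e + 1) ^ 2) ^ (n / e) * 3 ^ (n / e - 1)

def ck (n q D e : ℕ) : Bool :=
  (Be n q e < 9 ^ 64) && (List.range 64).all fun N => decide (Be n q e < 9 ^ N) || decide (Be n q e ^ 5 * N ^ 6 < D ^ 6)

def ck2 (b D : ℕ) : Bool :=
  (b < 3 ^ 64) && (List.range 64).all fun N => decide (b < 3 ^ N) || decide (b ^ 8 * N ^ 3 < D ^ 3)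

def ck3 (P D : ℕ) : Bool :=
  (P < 2 ^ 150) && (List.range 150).all fun N => decide (P < 2 ^ N) || decide (P ^ 5 * N ^ 3 < D ^ 3)

def good (n q t : ℕ) : Bool := (AA n q % t == 0) && (Nat.gcd t (AA (n / 2) q) == 1)

def allck (n q : ℕ) : Bool :=
  good n q (te n q) && ((List.range n).all fun e => ck n q (q ^ cn n * te n q) (e + 1)) &&
    ck2 (q ^ n + 1) (q ^ cn n * te n q) && ((q % 2 == 0) || ck3 ((4 * (q + 1)) ^ n / 4) (q ^ cn n * te n q))

theorem list_ck : ∀ a ∈ [(5, 4), (5, 5), (7, 2), (7, 3), (9, 2), (10, 4), (11, 2), (12, 2), (12, 3), (13, 2), (14, 2),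
    (15, 2), (16, 2), (17, 2), (18, 2), (20, 2), (22, 2)], allck a.1 a.2 = true := by
  decide +kernel

/-- what is known about `|S|` and the index -/
def Fr (n q I MS : ℕ) : Prop :=
  ∀ t : ℕ, t ∣ AA n q → (∀ r : ℕ, r.Prime → r ∣ t → n / 2 < orderOf ((q ^ 2 : ℕ) : ZMod r)) → q ^ cn n * t ∣ I * MS

theorem tt_dvd_AA {n q : ℕ} (hq : 1 ≤ q) : tt n (q ^ 2) ∣ AA n q := by
  have h := tt_dvd (n := n) (Q := q ^ 2) (Nat.one_le_pow _ _ hq)
  have e : ∏ i ∈ range n, ((q ^ 2) ^ (i + 1) - 1) = AA n q := by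
    rw [AA]
    apply Finset.prod_congr rfl
    intro i _
    rw [← pow_mul]
  rwa [e] at h

theorem Fr.gen {n q I MS : ℕ} (h : Fr n q I MS) (hq : 2 ≤ q) (hn : 4 ≤ n) : q ^ cn n * tt n (q ^ 2) ∣ I * MS := by
  refine h _ (tt_dvd_AA (by omega)) fun r hr hd => ?_
  exact (order_of_dvd_tt hn (by nlinarith) hr hd).1

theorem not_dvd_of_AA {n q r : ℕ} (hq : 2 ≤ q) (hr : r.Prime) (h : r ∣ AA n q) : ¬ r ∣ q := by
  intro h1
  rw [AA] at h
  obtain ⟨i, -, hi⟩ := (hr.prime.dvd_finsetProd_iff _).1 h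
  have h2 : r ∣ q ^ (2 * (i + 1)) := dvd_pow h1 (by omega)
  have h3 : 1 ≤ q ^ (2 * (i + 1)) := Nat.one_le_pow _ _ (by omega)
  have h4 : r ∣ 1 := by
    have := Nat.dvd_sub h2 hi
    rwa [Nat.sub_sub_self h3] at this
  exact hr.one_lt.ne' (Nat.dvd_one.1 h4)

theorem order_pos' {q r : ℕ} (hr : r.Prime) (h : ¬ r ∣ q) : 1 ≤ orderOf ((q ^ 2 : ℕ) : ZMod r) := by
  rw [← cast_sq]
  exact order_pos (q := q) hr (not_dvd_sq hr h)

theorem order_of_good {n q r t : ℕ} (hq : 2 ≤ q) (hr : r.Prime) (hg : good n q t = true) (h : r ∣ t) :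
    n / 2 < orderOf ((q ^ 2 : ℕ) : ZMod r) := by
  simp only [good, Bool.and_eq_true, beq_iff_eq] at hg
  obtain ⟨h1, h2⟩ := hg
  have h3 : r ∣ AA n q := h.trans (Nat.dvd_of_mod_eq_zero h1)
  have h4 := not_dvd_of_AA hq hr h3
  have h5 := order_pos' hr h4
  by_contra hcon
  have h6 : r ∣ AA (n / 2) q := by
    set o := orderOf ((q ^ 2 : ℕ) : ZMod r) with ho
    have h7 : r ∣ (q ^ 2) ^ o - 1 := by
      rw [Cfsg.Agent.Lib.Zsigmondy.dvd_pow_sub_one_iff (Nat.one_le_pow _ _ (by omega))]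
    rw [← pow_mul] at h7
    refine h7.trans ?_
    rw [AA]
    have h8 := Finset.dvd_prod_of_mem (fun i => q ^ (2 * (i + 1)) - 1) (show o - 1 ∈ range (n / 2) by
      rw [Finset.mem_range]; omega)
    rwa [show o - 1 + 1 = o by omega] at h8
  have h7 : r ∣ 1 := by
    rw [← h2]
    exact Nat.dvd_gcd h h6
  exact hr.one_lt.ne' (Nat.dvd_one.1 h7)

theorem Fr.good {n q I MS t : ℕ} (h : Fr n q I MS) (hq : 2 ≤ q) (hg : good n q t = true) : q ^ cn n * t ∣ I * MS := by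
  refine h t ?_ fun r hr hd => order_of_good hq hr hg hd
  simp only [SpSmall.good, Bool.and_eq_true, beq_iff_eq] at hg
  exact Nat.dvd_of_mod_eq_zero hg.1

section

variable {n p f q M : ℕ} {X : Sh} {v g MS I t : ℕ}

/-- `v` odd, not dividing `t`, of order `e` -/
theorem ck_false (hY : Real (.C n) p f M) (hq : p ^ f = q) (hX : Real X v g MS) (hX2 : X ≠ .L 2)
    (hvp : v ≠ p) (hMS : MS ∣ M) (hI : I ≤ dd X (v ^ g) * NN X * g) (hI0 : 0 < I) (hd : q ^ cn n * t ∣ I * MS)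
    (hv2 : v ≠ 2) (hvt : ¬ v ∣ t)
    (hck : ∀ e, 1 ≤ e → e ≤ n → e = orderOf ((q ^ 2 : ℕ) : ZMod v) → ck n q (q ^ cn n * t) e = true) : False := by
  have hv := hX.hp
  have hq2 := hY.q_ge
  have hvq := hY.not_dvd_q hv hvp
  have h1 := pow_le_P hX hY hMS
  have h2 : P v M ≤ P v (AA n (p ^ f)) := hY.P_other_le hv hvp
  rw [hq] at hq2 hvq h2
  have hN1 : 1 ≤ g * NN X := Nat.mul_pos hX.hf (NN_pos hX)
  have hv3 : 3 ≤ v := by have := hv.two_le; omega
  have hcop : Nat.Coprime (q ^ cn n * t) v := by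
    apply Nat.Coprime.mul_left
    · apply Nat.Coprime.pow_left
      exact (Nat.Coprime.symm ((Nat.Prime.coprime_iff_not_dvd hv).2 hvq))
    · exact (Nat.Coprime.symm ((Nat.Prime.coprime_iff_not_dvd hv).2 hvt))
  have h3 := cube_num hX hX2 hI hI0 hcop hd
  obtain ⟨he, h4 | ⟨h4, h5⟩⟩ := PC_odd' hv hv2 hq2 hvq n
  · rw [h4.2] at h2
    have h6 : v ^ 1 ≤ v ^ (g * NN X) := Nat.pow_le_pow_right (by omega) hN1
    rw [pow_one] at h6
    omega
  · have h6 := hck _ he h4 rfl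
    have h7 : (v ^ (g * NN X)) ^ 2 ≤ Be n q (orderOf ((q ^ 2 : ℕ) : ZMod v)) :=
      (Nat.pow_le_pow_left (h1.trans h2) 2).trans h5
    generalize orderOf ((q ^ 2 : ℕ) : ZMod v) = e at *
    generalize g * NN X = N at *
    rw [ck, Bool.and_eq_true, decide_eq_true_eq, List.all_eq_true] at h6
    obtain ⟨h8, h9⟩ := h6
    have h10 : 9 ^ N ≤ Be n q e := by
      calc 9 ^ N = (3 ^ N) ^ 2 := by rw [← pow_mul, mul_comm, pow_mul]; norm_num
        _ ≤ (v ^ N) ^ 2 := Nat.pow_le_pow_left (Nat.pow_le_pow_left hv3 N) 2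
        _ ≤ _ := h7
    have h11 : N < 64 := by
      by_contra hcon
      have := Nat.pow_le_pow_right (show 0 < 9 by norm_num) (show 64 ≤ N by omega)
      omega
    have h12 := h9 N (List.mem_range.2 h11)
    rw [Bool.or_eq_true, decide_eq_true_eq, decide_eq_true_eq] at h12
    rcases h12 with h12 | h12
    · omega
    · have h13 : (q ^ cn n * t) ^ 6 ≤ Be n q e ^ 5 * N ^ 6 := by
        calc (q ^ cn n * t) ^ 6 = ((q ^ cn n * t) ^ 3) ^ 2 := by rw [← pow_mul]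
          _ ≤ ((v ^ N) ^ 5 * N ^ 3) ^ 2 := Nat.pow_le_pow_left h3 2
          _ = ((v ^ N) ^ 2) ^ 5 * N ^ 6 := by rw [mul_pow]; ring
          _ ≤ _ := Nat.mul_le_mul_right _ (Nat.pow_le_pow_left h7 5)
      omega

/-- `v` divides `t` -/
theorem ck2_false {b : ℕ} (hY : Real (.C n) p f M) (hX : Real X v g MS) (hX2 : X ≠ .L 2)
    (hMS : MS ∣ M) (hI : I ≤ dd X (v ^ g) * NN X * g) (hI0 : 0 < I) (hd : q ^ cn n * t ∣ I * MS)
    (hv2 : v ≠ 2) (hb : P v M ≤ b) (hck : ck2 b (q ^ cn n * t) = true) : False := by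
  have hv := hX.hp
  have h1 := (pow_le_P hX hY hMS).trans hb
  have hv3 : 3 ≤ v := by have := hv.two_le; omega
  have h3 := cube_all hX hX2 hI hI0 hd
  generalize g * NN X = N at *
  rw [ck2, Bool.and_eq_true, decide_eq_true_eq, List.all_eq_true] at hck
  obtain ⟨h8, h9⟩ := hck
  have h10 : 3 ^ N ≤ b := (Nat.pow_le_pow_left hv3 N).trans h1
  have h11 : N < 64 := by
    by_contra hcon
    have := Nat.pow_le_pow_right (show 0 < 3 by norm_num) (show 64 ≤ N by omega)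
    omega
  have h12 := h9 N (List.mem_range.2 h11)
  rw [Bool.or_eq_true, decide_eq_true_eq, decide_eq_true_eq] at h12
  rcases h12 with h12 | h12
  · omega
  · have h13 : (v ^ N) ^ 8 * N ^ 3 ≤ b ^ 8 * N ^ 3 := Nat.mul_le_mul_right _ (Nat.pow_le_pow_left h1 8)
    omega

/-- `v = 2` -/
theorem ck3_false {b : ℕ} (hY : Real (.C n) p f M) (hq : p ^ f = q) (hX : Real X v g MS) (hX2 : X ≠ .L 2)
    (hvp : v ≠ p) (hMS : MS ∣ M) (hI : I ≤ dd X (v ^ g) * NN X * g) (hI0 : 0 < I) (hd : q ^ cn n * t ∣ I * MS)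
    (hvt : ¬ v ∣ t) (hb : P v M ≤ b) (hck : ck3 b (q ^ cn n * t) = true) : False := by
  have hv := hX.hp
  have hvq := hY.not_dvd_q hv hvp
  rw [hq] at hvq
  have h1 := (pow_le_P hX hY hMS).trans hb
  have hcop : Nat.Coprime (q ^ cn n * t) v := by
    apply Nat.Coprime.mul_left
    · apply Nat.Coprime.pow_left
      exact (Nat.Coprime.symm ((Nat.Prime.coprime_iff_not_dvd hv).2 hvq))
    · exact (Nat.Coprime.symm ((Nat.Prime.coprime_iff_not_dvd hv).2 hvt))
  have h3 := cube_num hX hX2 hI hI0 hcop hd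
  generalize g * NN X = N at *
  rw [ck3, Bool.and_eq_true, decide_eq_true_eq, List.all_eq_true] at hck
  obtain ⟨h8, h9⟩ := hck
  have h10 : 2 ^ N ≤ b := (Nat.pow_le_pow_left hv.two_le N).trans h1
  have h11 : N < 150 := by
    by_contra hcon
    have := Nat.pow_le_pow_right (show 0 < 2 by norm_num) (show 150 ≤ N by omega)
    omega
  have h12 := h9 N (List.mem_range.2 h11)
  rw [Bool.or_eq_true, decide_eq_true_eq, decide_eq_true_eq] at h12
  rcases h12 with h12 | h12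
  · omega
  · have h13 : (v ^ N) ^ 5 * N ^ 3 ≤ b ^ 5 * N ^ 3 := Nat.mul_le_mul_right _ (Nat.pow_le_pow_left h1 5)
    omega

/-- the `2`-part of the order -/
theorem P_two_le (hY : Real (.C n) p f M) (hq : p ^ f = q) (hp2 : 2 ≠ p) (hn : 1 ≤ n) :
    P 2 M ≤ (4 * (q + 1)) ^ n / 4 := by
  have hq2 := hY.q_ge
  have hvq := hY.not_dvd_q Nat.prime_two hp2
  have h2 := hY.P_other Nat.prime_two hp2
  have h3 : num (.C n) (p ^ f) = AA n (p ^ f) := rfl
  rw [h3] at h2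
  rw [hq] at hq2 hvq h2
  have hodd : Odd q := Nat.not_even_iff_odd.1 fun h => hvq h.two_dvd
  have hq3 : 3 ≤ q := by
    rcases hodd with ⟨k, hk⟩; omega
  have hdd : dd (.C n) q = 2 := by
    show Nat.gcd 2 (q - 1) = 2
    apply Nat.gcd_eq_left
    obtain ⟨k, hk⟩ := hodd
    exact ⟨k, by omega⟩
  have h4 : P 2 2 = 2 := by
    have := P_pow_self (r := 2) (k := 1) (a := 1) Nat.prime_two (by norm_num)
    simpa using this
  rw [hdd, h4] at h2
  have h5 := PC_two hq3 hodd hn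
  have h6 : AA n q = ∏ i ∈ range n, (q ^ (2 * (i + 1)) - 1) := rfl
  rw [← h6] at h5
  rw [Nat.le_div_iff_mul_le (by norm_num)]
  omega

theorem two_not_dvd (hY : Real (.C n) p f M) (hq : p ^ f = q) (hn : 2 ≤ n) (hg : good n q t = true) : ¬ 2 ∣ t := by
  intro h
  have hq2 := hY.q_ge
  rw [hq] at hq2
  have h1 := order_of_good hq2 Nat.prime_two hg h
  have h3 : orderOf ((q ^ 2 : ℕ) : ZMod 2) ≤ 1 := by
    have h2 : ¬ 2 ∣ q := by
      apply not_dvd_of_AA hq2 Nat.prime_two (n := n)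
      simp only [good, Bool.and_eq_true, beq_iff_eq] at hg
      exact h.trans (Nat.dvd_of_mod_eq_zero hg.1)
    have hodd : ¬ 2 ∣ q ^ 2 := fun h => h2 (Nat.prime_two.dvd_of_dvd_pow h)
    have h4 : ((q ^ 2 : ℕ) : ZMod 2) = 1 := by
      rw [← Nat.cast_one, ZMod.natCast_eq_natCast_iff]
      show q ^ 2 % 2 = 1 % 2
      omega
    rw [h4, orderOf_one]
  omega

/-- the bound for the primes dividing `t` -/
theorem P_le_good (hY : Real (.C n) p f M) (hq : p ^ f = q) (hn : 2 ≤ n) (hv : v.Prime) (hvp : v ≠ p)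
    (hg : good n q t = true) (hvt : v ∣ t) : P v M ≤ q ^ n + 1 := by
  have hq2 := hY.q_ge
  have hvq := hY.not_dvd_q hv hvp
  have h2 : P v M ≤ P v (AA n (p ^ f)) := hY.P_other_le hv hvp
  rw [hq] at hq2 hvq h2
  have hv2 : v ≠ 2 := by
    rintro rfl
    exact two_not_dvd hY hq hn hg hvt
  have h1 := order_of_good hq2 hv hg hvt
  obtain ⟨he, h4 | ⟨h4, h5⟩⟩ := PC_odd' hv hv2 hq2 hvq n
  · rw [h4.2] at h2
    have := Nat.one_le_pow n q (by omega)
    omega
  · have h6 := P_le_of_order hv hv2 hq2 hvq h1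
    have := Nat.pow_le_pow_right (show 0 < q by omega) h4
    omega

/-- **The small cases without enumeration.** -/
theorem cross_small (hY : Real (.C n) p f M) (hq : p ^ f = q) (hn : 2 ≤ n) (hck : allck n q = true)
    (hX : Real X v g MS) (hX2 : X ≠ .L 2) (hvp : v ≠ p) (hMS : MS ∣ M)
    (hI : I ≤ dd X (v ^ g) * NN X * g) (hI0 : 0 < I) (hd : Fr n q I MS) : False := by
  have hv := hX.hp
  have hq2 := hY.q_ge
  have hvq := hY.not_dvd_q hv hvp
  rw [hq] at hq2 hvq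
  simp only [allck, Bool.and_eq_true, Bool.or_eq_true, beq_iff_eq] at hck
  obtain ⟨⟨⟨h1, h2⟩, h3⟩, h4⟩ := hck
  have hd' := hd.good hq2 h1
  by_cases hvt : v ∣ te n q
  · have hv2 : v ≠ 2 := by
      rintro rfl
      exact two_not_dvd hY hq hn h1 hvt
    exact ck2_false hY hX hX2 hMS hI hI0 hd' hv2 (P_le_good hY hq hn hv hvp h1 hvt) h3
  · by_cases hv2 : v = 2
    · subst hv2
      rcases h4 with h4 | h4
      · exact hvq (Nat.dvd_of_mod_eq_zero h4)
      · exact ck3_false hY hq hX hX2 hvp hMS hI hI0 hd' hvt (P_two_le hY hq hvp (by omega)) h4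
    · refine ck_false hY hq hX hX2 hvp hMS hI hI0 hd' hv2 hvt fun e he hen _ => ?_
      rw [List.all_eq_true] at h2
      have h5 := h2 (e - 1) (List.mem_range.2 (by omega))
      rwa [show e - 1 + 1 = e by omega] at h5

end

end Cfsg.Agent.H364.SpSmall
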