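import Mathlib
import Cfsg.Agent.H364.SpSmall
import Cfsg.Agent.H902.Enum

/-!
# Simple groups of Lie type in cross characteristic: enumerations (helper364)
-/

set_option autoImplicit false

namespace Cfsg.Agent.H364.SpEnum

open Finset Cfsg.Agent.H902.Lte Cfsg.Agent.H902.Art Cfsg.Agent.H364.SpVal Cfsg.Agent.H364.SpIneq Cfsg.Agent.H364.SpPrim
  Cfsg.Agent.H364.SpTot Cfsg.Agent.H364.SpCross Cfsg.Agent.H364.SpSmall

/-- the order -/
def cardC (n q : ℕ) : ℕ := q ^ (n ^ 2) * AA n q / Nat.gcd 2 (q - 1)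

theorem M_eq {n p f q M : ℕ} (hY : Real (.C n) p f M) (hq : p ^ f = q) : M = cardC n q := by
  subst hq
  have h1 := hY.eq
  have h2 : num (.C n) (p ^ f) = AA n (p ^ f) := rfl
  have h3 : dd (.C n) (p ^ f) = Nat.gcd 2 (p ^ f - 1) := rfl
  have h4 : NN (.C n) = n ^ 2 := rfl
  rw [h2, h3, h4] at h1
  rw [cardC, ← h1]
  exact (Nat.mul_div_cancel_left _ (Nat.gcd_pos_of_pos_left _ (by norm_num))).symm

/-- the enumeration -/
def en (n q D v a : ℕ) : Bool :=
  (cardC n q % v ^ (a + 1) != 0) && (List.range (a + 1)).all fun N => (ents v N).all fun x =>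
    decide (x.1 = .L 2) || (cardC n q % val v x != 0) || ((24 * dd x.1 (v ^ x.2) * x.2 * val v x) % D != 0)

theorem en_0 : en 5 2 (2 ^ cn 5 * te 5 2) 3 6 = true := by decide +kernel

theorem en_1 : en 5 3 (3 ^ cn 5 * te 5 3) 2 17 = true := by decide +kernel

theorem en_2 : en 10 2 (2 ^ cn 10 * te 10 2) 3 14 = true := by decide +kernel

theorem en_3 : en 10 3 (3 ^ cn 10 * te 10 3) 2 37 = true := by decide +kernel

theorem en_4 : en 6 2 (2 ^ cn 6 * te 6 2) 3 8 = true := by decide +kernel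

theorem en_5 : en 6 2 (2 ^ cn 6 * te 6 2) 5 3 = true := by decide +kernel

theorem en_6 : en 6 3 (3 ^ cn 6 * te 6 3) 2 21 = true := by decide +kernel

theorem en_7 : en 6 4 (4 ^ cn 6 * te 6 4) 3 8 = true := by decide +kernel

theorem en_8 : en 6 4 (4 ^ cn 6 * te 6 4) 5 7 = true := by decide +kernel

theorem en_9 : en 6 5 (5 ^ cn 6 * te 6 5) 2 21 = true := by decide +kernel

theorem en_10 : en 6 7 (7 ^ cn 6 * te 6 7) 2 27 = true := by decide +kernel

theorem en_11 : en 6 9 (9 ^ cn 6 * te 6 9) 2 27 = true := by decide +kernel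

theorem en_12 : en 3 3 (3 ^ cn 3 * te 3 3) 2 9 = true := by decide +kernel

theorem en_13 : en 3 7 (7 ^ cn 3 * te 3 7) 2 12 = true := by decide +kernel

theorem en_list : ∀ a ∈ [(5, 2, 3, 6), (5, 3, 2, 17), (10, 2, 3, 14), (10, 3, 2, 37), (6, 2, 3, 8), (6, 2, 5, 3),
    (6, 3, 2, 21), (6, 4, 3, 8), (6, 4, 5, 7), (6, 5, 2, 21), (6, 7, 2, 27), (6, 9, 2, 27), (3, 3, 2, 9), (3, 7, 2, 12)],
    en a.1 a.2.1 (a.2.1 ^ cn a.1 * te a.1 a.2.1) a.2.2.1 a.2.2.2 = true := by
  intro a ha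
  simp only [List.mem_cons, List.not_mem_nil, or_false] at ha
  rcases ha with rfl | rfl | rfl | rfl | rfl | rfl | rfl | rfl | rfl | rfl | rfl | rfl | rfl | rfl
  · exact en_0
  · exact en_1
  · exact en_2
  · exact en_3
  · exact en_4
  · exact en_5
  · exact en_6
  · exact en_7
  · exact en_8
  · exact en_9
  · exact en_10
  · exact en_11
  · exact en_12
  · exact en_13

variable {n p f q M : ℕ} {X : Sh} {v g MS I D : ℕ}

theorem en_false {a : ℕ} (hY : Real (.C n) p f M) (hq : p ^ f = q) (hX : Real X v g MS) (hX2 : X ≠ .L 2)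
    (hMS : MS ∣ M) (hI : I ∣ 24 * dd X (v ^ g) * g) (hd : D ∣ I * MS) (hen : en n q D v a = true) : False := by
  have hM := M_eq hY hq
  have hM0 := hY.M_ne
  have hv := hX.hp
  rw [en, Bool.and_eq_true, bne_iff_ne, List.all_eq_true] at hen
  obtain ⟨h1, h2⟩ := hen
  have hN : g * NN X ≤ a := by
    by_contra hcon
    apply h1
    apply Nat.mod_eq_zero_of_dvd
    rw [← hM]
    have h3 : v ^ (g * NN X) ∣ M := by
      have := P_dvd v MS
      rw [hX.P_self, ← pow_mul] at this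
      exact this.trans hMS
    exact (pow_dvd_pow v (by omega)).trans h3
  have h3 := h2 _ (List.mem_range.2 (show g * NN X < a + 1 by omega))
  rw [List.all_eq_true] at h3
  have h4 := h3 _ (mem_ents hX rfl)
  rw [val_eq hX] at h4
  simp only [Bool.or_eq_true, decide_eq_true_eq, bne_iff_ne, ne_eq] at h4
  rcases h4 with (h4 | h4) | h4
  · exact hX2 h4
  · exact h4 (Nat.mod_eq_zero_of_dvd (by rw [← hM]; exact hMS))
  · exact h4 (Nat.mod_eq_zero_of_dvd (hd.trans (Nat.mul_dvd_mul_right hI _)))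

/-- the exact bound for the part -/
theorem P_le_exact {a : ℕ} (hY : Real (.C n) p f M) (hq : p ^ f = q) (hv : v.Prime)
    (h : (cardC n q % v ^ (a + 1) != 0) = true) : P v M ≤ v ^ a := by
  have hM := M_eq hY hq
  rw [bne_iff_ne] at h
  apply Nat.pow_le_pow_right hv.pos
  by_contra hcon
  apply h
  apply Nat.mod_eq_zero_of_dvd
  rw [← hM]
  exact (hv.pow_dvd_iff_le_factorization hY.M_ne).2 (by omega)

theorem cross_fin {b : ℕ} (hY : Real (.C n) p f M) (hq : p ^ f = q) (hn : 2 ≤ n) (hg : good n q (te n q) = true)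
    (hb : ∀ v : ℕ, v.Prime → v ≠ p → v ∣ te n q → P v M ≤ b) (hck2 : ck2 b (q ^ cn n * te n q) = true)
    (hE : ∀ e, 1 ≤ e → e ≤ n → ck n q (q ^ cn n * te n q) e = true ∨
      ∀ v : ℕ, v.Prime → v ≠ 2 → v ∣ q ^ (2 * e) - 1 → ∃ a, en n q (q ^ cn n * te n q) v a = true)
    (h2 : p ≠ 2 → (∃ B, P 2 M ≤ B ∧ ck3 B (q ^ cn n * te n q) = true) ∨ ∃ a, en n q (q ^ cn n * te n q) 2 a = true)
    (hX : Real X v g MS) (hX2 : X ≠ .L 2) (hvp : v ≠ p) (hMS : MS ∣ M)
    (hI : I ≤ dd X (v ^ g) * NN X * g) (hI0 : 0 < I) (hI' : I ∣ 24 * dd X (v ^ g) * g) (hd : Fr n q I MS) : False := by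
  have hv := hX.hp
  have hq2 := hY.q_ge
  have hvq := hY.not_dvd_q hv hvp
  rw [hq] at hq2 hvq
  have hd' := hd.good hq2 hg
  by_cases hvt : v ∣ te n q
  · have hv2 : v ≠ 2 := by
      rintro rfl
      exact two_not_dvd hY hq hn hg hvt
    exact ck2_false hY hX hX2 hMS hI hI0 hd' hv2 (hb v hv hvp hvt) hck2
  · by_cases hv2 : v = 2
    · subst hv2
      rcases h2 (Ne.symm hvp) with ⟨B, h3, h4⟩ | ⟨a, h3⟩
      · exact ck3_false hY hq hX hX2 hvp hMS hI hI0 hd' hvt h3 h4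
      · exact en_false hY hq hX hX2 hMS hI' hd' h3
    · by_cases hs : ∃ a, en n q (q ^ cn n * te n q) v a = true
      · obtain ⟨a, hs⟩ := hs
        exact en_false hY hq hX hX2 hMS hI' hd' hs
      · refine ck_false hY hq hX hX2 hvp hMS hI hI0 hd' hv2 hvt fun e he hen heo => ?_
        rcases hE e he hen with h | h
        · exact h
        · exfalso
          apply hs
          apply h v hv hv2
          rw [pow_mul, heo, Cfsg.Agent.Lib.Zsigmondy.dvd_pow_sub_one_iff (Nat.one_le_pow _ _ (by omega))]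

end Cfsg.Agent.H364.SpEnum
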