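import Mathlib
import Cfsg.Agent.H364.SpEnum

/-!
# Simple groups of Lie type in cross characteristic: ranks 3 and 6 (helper364)
-/

set_option autoImplicit false

namespace Cfsg.Agent.H364.SpSix

open Finset Cfsg.Agent.H902.Lte Cfsg.Agent.H902.Art Cfsg.Agent.H364.SpVal Cfsg.Agent.H364.SpIneq Cfsg.Agent.H364.SpPrim
  Cfsg.Agent.H364.SpTot Cfsg.Agent.H364.SpCross Cfsg.Agent.H364.SpSmall Cfsg.Agent.H364.SpEnum

variable {n p f q M : ℕ} {X : Sh} {v g MS I D : ℕ}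

/-- the exact value of the part for a large order -/
theorem P_eq_of_order {r : ℕ} (hr : r.Prime) (hr2 : r ≠ 2) (hq : 2 ≤ q) (hrq : ¬ r ∣ q)
    (h1 : n / 2 < orderOf ((q ^ 2 : ℕ) : ZMod r)) (h2 : orderOf ((q ^ 2 : ℕ) : ZMod r) ≤ n) :
    P r (AA n q) = P r (q ^ (2 * orderOf ((q ^ 2 : ℕ) : ZMod r)) - 1) := by
  have hx := abs_sq_ge hq
  have hrx := not_dvd_sq hr hrq
  rw [← cast_sq] at h1 h2 ⊢
  set x : ℤ := (q : ℤ) ^ 2 with hxdef
  have he := order_pos (q := q) hr hrx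
  have h4 : n / orderOf (x : ZMod r) = 1 := by
    have h5 : n / orderOf (x : ZMod r) < 2 := by
      rw [Nat.div_lt_iff_lt_mul (by omega)]; omega
    have h6 := Nat.div_pos h2 (by omega)
    omega
  rw [AA, ← W_sq hq, PW_odd hr hr2 hx hrx, h4, pow_one, Nat.factorial_one, padicValNat.one, pow_zero, mul_one]
  have h1 : (x ^ orderOf (x : ZMod r) - 1).natAbs = q ^ (2 * orderOf (x : ZMod r)) - 1 := by
    have h2 : x ^ orderOf (x : ZMod r) - 1 = ((q ^ (2 * orderOf (x : ZMod r)) - 1 : ℕ) : ℤ) := by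
      rw [Nat.cast_sub (Nat.one_le_pow _ _ (by omega)), hxdef, ← pow_mul]; push_cast; rfl
    rw [h2, Int.natAbs_natCast]
  rw [h1]

theorem dvd_pow_iff {r : ℕ} (hq : 2 ≤ q) (k : ℕ) : r ∣ q ^ (2 * k) - 1 ↔ orderOf ((q ^ 2 : ℕ) : ZMod r) ∣ k := by
  rw [pow_mul, Cfsg.Agent.Lib.Zsigmondy.dvd_pow_sub_one_iff (Nat.one_le_pow _ _ (by omega))]

theorem P_le_of_mul {r a b B : ℕ} (hr : r.Prime) (ha : a ≠ 0) (hb : b ≠ 0) (h : ¬ r ∣ a) (hB : b ≤ B) :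
    P r (a * b) ≤ B := by
  rw [P_mul ha hb, P_eq_one h, one_mul]
  exact (P_le hb).trans hB

theorem P_three {r : ℕ} (hr : r.Prime) (hr2 : r ≠ 2) (hq : 2 ≤ q) (hrq : ¬ r ∣ q)
    (h : orderOf ((q ^ 2 : ℕ) : ZMod r) = 3) : P r (q ^ (2 * 3) - 1) ≤ q ^ 2 + q + 1 := by
  have h1 : ¬ r ∣ q ^ (2 * 1) - 1 := by
    rw [dvd_pow_iff hq, h]; norm_num
  obtain ⟨a, rfl⟩ := Nat.exists_eq_add_of_le' (show 1 ≤ q by omega)
  have e1 : (a + 1) ^ (2 * 3) - 1 = ((a + 1) ^ (2 * 1) - 1) * (((a + 1) ^ 2 + (a + 1) + 1) * (a ^ 2 + a + 1)) := by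
    have e2 : (a + 1) ^ (2 * 1) - 1 = a ^ 2 + 2 * a := by
      have : (a + 1) ^ (2 * 1) = a ^ 2 + 2 * a + 1 := by ring
      rw [this, Nat.add_sub_cancel]
    rw [e2]
    have : (a + 1) ^ (2 * 3) = (a ^ 2 + 2 * a) * (((a + 1) ^ 2 + (a + 1) + 1) * (a ^ 2 + a + 1)) + 1 := by ring
    rw [this, Nat.add_sub_cancel]
  have h10 : (a + 1) ^ (2 * 1) - 1 ≠ 0 := by
    intro h0
    rw [h0] at h1
    exact h1 (dvd_zero _)
  have h11 : (a + 1) ^ 2 + (a + 1) + 1 ≠ 0 := by positivity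
  have h12 : a ^ 2 + a + 1 ≠ 0 := by positivity
  rw [e1, P_mul h10 (Nat.mul_ne_zero h11 h12), P_eq_one h1, one_mul, P_mul h11 h12]
  -- `r` divides only one of the factors
  by_cases h2 : r ∣ (a + 1) ^ 2 + (a + 1) + 1
  · have h3 : ¬ r ∣ a ^ 2 + a + 1 := by
      intro h3
      have h4 : r ∣ 2 * (a + 1) := by
        have e3 : (a + 1) ^ 2 + (a + 1) + 1 = (a ^ 2 + a + 1) + 2 * (a + 1) := by ring
        rw [e3] at h2
        exact (Nat.dvd_add_right h3).1 h2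
      rcases hr.dvd_mul.1 h4 with h5 | h5
      · exact hr2 ((Nat.prime_dvd_prime_iff_eq hr Nat.prime_two).1 h5)
      · exact hrq h5
    rw [P_eq_one h3, mul_one]
    exact P_le h11
  · rw [P_eq_one h2, one_mul]
    exact (P_le h12).trans (by nlinarith)

theorem P_six {r : ℕ} (hr : r.Prime) (hq : 2 ≤ q)
    (h : orderOf ((q ^ 2 : ℕ) : ZMod r) = 6) : P r (q ^ (2 * 6) - 1) ≤ q ^ 5 + 1 := by
  have h1 : ¬ r ∣ q ^ (2 * 3) - 1 := by
    rw [dvd_pow_iff hq, h]; norm_num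
  have h2 : ¬ r ∣ q ^ 2 + 1 := by
    intro h2
    have h3 : r ∣ q ^ (2 * 2) - 1 := by
      have e : q ^ (2 * 2) - 1 = (q ^ 2 - 1) * (q ^ 2 + 1) := by
        obtain ⟨b, hb⟩ := Nat.exists_eq_add_of_le' (Nat.one_le_pow 2 q (by omega))
        rw [pow_mul, hb, Nat.add_sub_cancel]
        have : (b + 1) ^ 2 = b * (b + 1 + 1) + 1 := by ring
        rw [this, Nat.add_sub_cancel]
      rw [e]
      exact h2.mul_left _
    rw [dvd_pow_iff hq, h] at h3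
    norm_num at h3
  obtain ⟨b, hb⟩ := Nat.exists_eq_add_of_le' (show 1 ≤ q ^ 2 by nlinarith)
  have e1 : q ^ (2 * 6) - 1 = ((q ^ (2 * 3) - 1) * (q ^ 2 + 1)) * (b ^ 2 + b + 1) := by
    rw [pow_mul, pow_mul, hb]
    have e2 : (b + 1) ^ 3 - 1 = b ^ 3 + 3 * b ^ 2 + 3 * b := by
      have : (b + 1) ^ 3 = b ^ 3 + 3 * b ^ 2 + 3 * b + 1 := by ring
      rw [this, Nat.add_sub_cancel]
    rw [e2]
    have : (b + 1) ^ 6 = (b ^ 3 + 3 * b ^ 2 + 3 * b) * (b + 1 + 1) * (b ^ 2 + b + 1) + 1 := by ring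
    rw [this, Nat.add_sub_cancel]
  rw [e1]
  have h10 : q ^ (2 * 3) - 1 ≠ 0 := by
    intro h0
    rw [h0] at h1
    exact h1 (dvd_zero _)
  apply P_le_of_mul hr (Nat.mul_ne_zero h10 (by positivity)) (by positivity)
  · intro h3
    rcases hr.dvd_mul.1 h3 with h4 | h4
    · exact h1 h4
    · exact h2 h4
  · have h3 : b ^ 2 + b + 1 ≤ (q ^ 2) ^ 2 := by rw [hb]; nlinarith
    have h4 : (q ^ 2) ^ 2 ≤ q ^ 5 := by
      rw [← pow_mul]
      exact Nat.pow_le_pow_right (by omega) (by norm_num)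
    omega

theorem P_le_three (hY : Real (.C 3) p f M) (hq : p ^ f = q) (hv : v.Prime) (hvp : v ≠ p) (hv2 : v ≠ 2)
    (h : 3 / 2 < orderOf ((q ^ 2 : ℕ) : ZMod v)) : P v M ≤ q ^ 2 + q + 1 := by
  have hq2 := hY.q_ge
  have hvq := hY.not_dvd_q hv hvp
  have h2 : P v M ≤ P v (AA 3 (p ^ f)) := hY.P_other_le hv hvp
  rw [hq] at hq2 hvq h2
  obtain ⟨he, h4 | ⟨h4, h5⟩⟩ := PC_odd' hv hv2 hq2 hvq 3
  · rw [h4.2] at h2
    omega
  · have h6 : orderOf ((q ^ 2 : ℕ) : ZMod v) = 2 ∨ orderOf ((q ^ 2 : ℕ) : ZMod v) = 3 := by omega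
    rcases h6 with h6 | h6
    · have h7 := P_le_of_order hv hv2 hq2 hvq h
      rw [h6] at h7
      omega
    · have h7 := P_eq_of_order hv hv2 hq2 hvq h h4
      have h8 := P_three hv hv2 hq2 hvq h6
      rw [h7, h6] at h2
      exact h2.trans h8

theorem P_le_six (hY : Real (.C 6) p f M) (hq : p ^ f = q) (hv : v.Prime) (hvp : v ≠ p) (hv2 : v ≠ 2)
    (h : 6 / 2 < orderOf ((q ^ 2 : ℕ) : ZMod v)) : P v M ≤ q ^ 5 + 1 := by
  have hq2 := hY.q_ge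
  have hvq := hY.not_dvd_q hv hvp
  have h2 : P v M ≤ P v (AA 6 (p ^ f)) := hY.P_other_le hv hvp
  rw [hq] at hq2 hvq h2
  obtain ⟨he, h4 | ⟨h4, h5⟩⟩ := PC_odd' hv hv2 hq2 hvq 6
  · rw [h4.2] at h2
    omega
  · have h6 : orderOf ((q ^ 2 : ℕ) : ZMod v) ≤ 5 ∨ orderOf ((q ^ 2 : ℕ) : ZMod v) = 6 := by omega
    rcases h6 with h6 | h6
    · have h7 := P_le_of_order hv hv2 hq2 hvq h
      have h8 := Nat.pow_le_pow_right (show 0 < q by omega) h6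
      omega
    · have h7 := P_eq_of_order hv hv2 hq2 hvq h h4
      have h8 := P_six hv hq2 h6
      rw [h7, h6] at h2
      exact h2.trans h8

end Cfsg.Agent.H364.SpSix
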