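import Mathlib
import Cfsg.Agent.H364.SpSix

/-!
# Simple groups of Lie type in cross characteristic: all cases together (helper364)
-/

set_option autoImplicit false

namespace Cfsg.Agent.H364.SpFin

open Finset Cfsg.Agent.H902.Lte Cfsg.Agent.H902.Art Cfsg.Agent.H364.SpVal Cfsg.Agent.H364.SpIneq Cfsg.Agent.H364.SpPrim
  Cfsg.Agent.H364.SpTot Cfsg.Agent.H364.SpCross Cfsg.Agent.H364.SpSmall Cfsg.Agent.H364.SpEnum Cfsg.Agent.H364.SpSix

/-- everything known about `S` -/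
structure Cr (n p f M : ℕ) (X : Sh) (v g MS I : ℕ) : Prop where
  hY : Real (.C n) p f M
  hX : Real X v g MS
  hX2 : X ≠ .L 2
  hvp : v ≠ p
  hMS : MS ∣ M
  hI : I ≤ dd X (v ^ g) * NN X * g
  hI0 : 0 < I
  hI' : I ∣ 24 * dd X (v ^ g) * g
  hd : Fr n (p ^ f) I MS

variable {n p f q M : ℕ} {X : Sh} {v g MS I : ℕ}

theorem two_primes {a b : ℕ} (hp : p.Prime) (ha : a.Prime) (hb : b.Prime) (hab : a ≠ b) (h1 : a ∣ p ^ f)
    (h2 : b ∣ p ^ f) : False := by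
  have h3 := (Nat.prime_dvd_prime_iff_eq ha hp).1 (ha.dvd_of_dvd_pow h1)
  have h4 := (Nat.prime_dvd_prime_iff_eq hb hp).1 (hb.dvd_of_dvd_pow h2)
  exact hab (h3.trans h4.symm)

/-- the checks -/
def fl (n q b s : ℕ) : Bool :=
  good n q (te n q) && ck2 b (q ^ cn n * te n q) &&
    ((List.range n).all fun e => decide (e + 1 ≤ s) || ck n q (q ^ cn n * te n q) (e + 1))

/-- the check for the prime `2` -/
def tw (n q a : ℕ) : Bool :=
  ((cardC n q % 2 ^ (a + 1) != 0) && ck3 (2 ^ a) (q ^ cn n * te n q)) || en n q (q ^ cn n * te n q) 2 a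

theorem cross_fl {b s : ℕ} (hc : Cr n p f M X v g MS I) (hq : p ^ f = q) (hn : 2 ≤ n)
    (hb : ∀ v : ℕ, v.Prime → v ≠ p → v ∣ te n q → P v M ≤ b) (hfl : fl n q b s = true)
    (hs : ∀ e, 1 ≤ e → e ≤ s → ∀ v : ℕ, v.Prime → v ≠ 2 → v ∣ q ^ (2 * e) - 1 →
      ∃ a, en n q (q ^ cn n * te n q) v a = true)
    (h2 : p ≠ 2 → ck3 ((4 * (q + 1)) ^ n / 4) (q ^ cn n * te n q) = true ∨ ∃ a, tw n q a = true) : False := by
  simp only [fl, Bool.and_eq_true] at hfl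
  obtain ⟨⟨h3, h4⟩, h5⟩ := hfl
  have hd := hc.hd
  rw [hq] at hd
  refine cross_fin hc.hY hq hn h3 hb h4 ?_ ?_ hc.hX hc.hX2 hc.hvp hc.hMS hc.hI hc.hI0 hc.hI' hd
  · intro e he hen
    rw [List.all_eq_true] at h5
    have h6 := h5 (e - 1) (List.mem_range.2 (by omega))
    rw [show e - 1 + 1 = e by omega, Bool.or_eq_true, decide_eq_true_eq] at h6
    rcases h6 with h6 | h6
    · exact Or.inr (hs e he h6)
    · exact Or.inl h6
  · intro hp2
    rcases h2 hp2 with h6 | ⟨a, h6⟩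
    · exact Or.inl ⟨_, P_two_le hc.hY hq (Ne.symm hp2) (by omega), h6⟩
    · rw [tw, Bool.or_eq_true, Bool.and_eq_true] at h6
      rcases h6 with ⟨h6, h7⟩ | h6
      · exact Or.inl ⟨_, P_le_exact hc.hY hq Nat.prime_two h6, h7⟩
      · exact Or.inr ⟨a, h6⟩

theorem te_bound (hc : Cr n p f M X v g MS I) (hq : p ^ f = q) (hn : 2 ≤ n) (hg : good n q (te n q) = true) :
    ∀ v : ℕ, v.Prime → v ≠ p → v ∣ te n q → P v M ≤ q ^ n + 1 :=
  fun _ hv hvp hd => P_le_good hc.hY hq hn hv hvp hg hd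

theorem ne_two_of_te (hc : Cr n p f M X v g MS I) (hq : p ^ f = q) (hn : 2 ≤ n) (hg : good n q (te n q) = true)
    {w : ℕ} (hw : w ∣ te n q) : w ≠ 2 := by
  rintro rfl
  exact two_not_dvd hc.hY hq hn hg hw

theorem te_three (hc : Cr 3 p f M X v g MS I) (hq : p ^ f = q) (hg : good 3 q (te 3 q) = true) :
    ∀ v : ℕ, v.Prime → v ≠ p → v ∣ te 3 q → P v M ≤ q ^ 2 + q + 1 := fun w hw hwp hd => by
  have hq2 := hc.hY.q_ge
  rw [hq] at hq2
  exact P_le_three hc.hY hq hw hwp (ne_two_of_te hc hq (by norm_num) hg hd) (order_of_good hq2 hw hg hd)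

theorem te_six (hc : Cr 6 p f M X v g MS I) (hq : p ^ f = q) (hg : good 6 q (te 6 q) = true) :
    ∀ v : ℕ, v.Prime → v ≠ p → v ∣ te 6 q → P v M ≤ q ^ 5 + 1 := fun w hw hwp hd => by
  have hq2 := hc.hY.q_ge
  rw [hq] at hq2
  exact P_le_six hc.hY hq hw hwp (ne_two_of_te hc hq (by norm_num) hg hd) (order_of_good hq2 hw hg hd)

theorem good_of_fl {b s : ℕ} (h : fl n q b s = true) : good n q (te n q) = true := by
  simp only [fl, Bool.and_eq_true] at h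
  exact h.1.1

theorem dvd_eight {v : ℕ} (hv : v.Prime) (hv2 : v ≠ 2) (h : v ∣ 8) : False := by
  have h1 : v ∣ 2 ^ 3 := h
  exact hv2 ((Nat.prime_dvd_prime_iff_eq hv Nat.prime_two).1 (hv.dvd_of_dvd_pow h1))

theorem dvd_three {v : ℕ} (hv : v.Prime) (h : v ∣ 3) : v = 3 := (Nat.prime_dvd_prime_iff_eq hv Nat.prime_three).1 h

theorem dvd_fifteen {v : ℕ} (hv : v.Prime) (h : v ∣ 15) : v = 3 ∨ v = 5 := by
  have h1 : v ∣ 3 * 5 := h
  rcases hv.dvd_mul.1 h1 with h2 | h2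
  · exact Or.inl ((Nat.prime_dvd_prime_iff_eq hv Nat.prime_three).1 h2)
  · exact Or.inr ((Nat.prime_dvd_prime_iff_eq hv Nat.prime_five).1 h2)

theorem fl_three : ∀ a ∈ [(3, 1), (4, 0), (5, 0), (7, 0), (8, 0), (9, 0)], fl 3 a.1 (a.1 ^ 2 + a.1 + 1) a.2 = true := by
  decide +kernel

theorem fl_six : ∀ a ∈ [(2, 2), (3, 1), (4, 1), (5, 0), (7, 0), (8, 0), (9, 0), (11, 0), (13, 0), (16, 0), (17, 0),
    (19, 0)], fl 6 a.1 (a.1 ^ 5 + 1) a.2 = true := by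
  decide +kernel

theorem fl_others : ∀ a ∈ [(5, 2, 1), (5, 3, 0), (10, 2, 1), (10, 3, 0)],
    fl a.1 a.2.1 (a.2.1 ^ a.1 + 1) a.2.2 = true := by
  decide +kernel

theorem tw_list : ∀ a ∈ [(3, 3, 9), (3, 5, 9), (3, 7, 12), (3, 9, 12), (5, 3, 17), (6, 3, 21), (6, 5, 21), (6, 7, 27),
    (6, 9, 27), (6, 11, 21), (6, 13, 21), (6, 17, 33), (6, 19, 21), (10, 3, 37)], tw a.1 a.2.1 a.2.2 = true := by
  decide +kernel

end Cfsg.Agent.H364.SpFin
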