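import Mathlib
import Cfsg.Agent.H364.SpFin

/-!
# Simple groups of Lie type in cross characteristic: ranks 3 and 6, `q` large (helper364)
-/

set_option autoImplicit false

namespace Cfsg.Agent.H364.SpLarge

open Finset Cfsg.Agent.H902.Lte Cfsg.Agent.H902.Art Cfsg.Agent.H364.SpVal Cfsg.Agent.H364.SpIneq Cfsg.Agent.H364.SpPrim
  Cfsg.Agent.H364.SpTot Cfsg.Agent.H364.SpCross Cfsg.Agent.H364.SpSmall Cfsg.Agent.H364.SpEnum Cfsg.Agent.H364.SpSix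
  Cfsg.Agent.H364.SpFin

variable {n p f q M : ℕ} {X : Sh} {v g MS I : ℕ}

theorem order_two_le (hq2 : ¬ 2 ∣ q) : orderOf ((q ^ 2 : ℕ) : ZMod 2) ≤ 1 := by
  have hodd : ¬ 2 ∣ q ^ 2 := fun h => hq2 (Nat.prime_two.dvd_of_dvd_pow h)
  have h4 : ((q ^ 2 : ℕ) : ZMod 2) = 1 := by
    rw [← Nat.cast_one, ZMod.natCast_eq_natCast_iff]
    show q ^ 2 % 2 = 1 % 2
    omega
  rw [h4, orderOf_one]

/-- the abstract end -/
theorem fin_large (hc : Cr n p f M X v g MS I) (hn : 2 ≤ n) {t P1 P2 NB C D : ℕ}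
    (ht : t ∣ AA n (p ^ f)) (hto : ∀ r : ℕ, r.Prime → r ∣ t → n / 2 < orderOf (((p ^ f) ^ 2 : ℕ) : ZMod r))
    (hC : (p ^ f) ^ cn n * t * C ≥ D) (h1 : P v M ≤ P1) (h2 : v ≠ 2 → v ∣ t → P v M ≤ P2) (hN : P1 < 2 ^ (NB + 1))
    (e1 : C ^ 3 * (P1 ^ 5 * NB ^ 3) < D ^ 3) (e2 : C ^ 3 * (P2 ^ 8 * NB ^ 3) < D ^ 3) : False := by
  have hX := hc.hX
  have hv := hX.hp
  have hvq := hc.hY.not_dvd_q hv hc.hvp
  have hd := hc.hd t ht hto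
  set q := p ^ f
  have hP := pow_le_P hX hc.hY hc.hMS
  set N := g * NN X with hNdef
  have hNle : N ≤ NB := by
    by_contra hcon
    have h3 : 2 ^ (NB + 1) ≤ v ^ N :=
      (Nat.pow_le_pow_right (by norm_num) (by omega)).trans (Nat.pow_le_pow_left hv.two_le N)
    omega
  have hD : D ^ 3 ≤ C ^ 3 * (q ^ cn n * t) ^ 3 := by
    calc D ^ 3 ≤ (q ^ cn n * t * C) ^ 3 := Nat.pow_le_pow_left hC 3
      _ = _ := by rw [mul_pow, mul_comm]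
  by_cases hvt : v ∣ t
  · have hv2 : v ≠ 2 := by
      intro h
      have h3 := hto v hv hvt
      rw [h] at h3 hvq
      have := order_two_le hvq
      omega
    have h3 := cube_all hX hc.hX2 hc.hI hc.hI0 hd
    have h4 : (v ^ N) ^ 8 * N ^ 3 ≤ P2 ^ 8 * NB ^ 3 :=
      Nat.mul_le_mul (Nat.pow_le_pow_left (hP.trans (h2 hv2 hvt)) 8) (Nat.pow_le_pow_left hNle 3)
    have h5 := Nat.mul_le_mul_left (C ^ 3) (h3.trans h4)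
    omega
  · have hcop : Nat.Coprime (q ^ cn n * t) v := by
      apply Nat.Coprime.mul_left
      · apply Nat.Coprime.pow_left
        exact (Nat.Coprime.symm ((Nat.Prime.coprime_iff_not_dvd hv).2 hvq))
      · exact (Nat.Coprime.symm ((Nat.Prime.coprime_iff_not_dvd hv).2 hvt))
    have h3 := cube_num hX hc.hX2 hc.hI hc.hI0 hcop hd
    have h4 : (v ^ N) ^ 5 * N ^ 3 ≤ P1 ^ 5 * NB ^ 3 :=
      Nat.mul_le_mul (Nat.pow_le_pow_left (hP.trans h1) 5) (Nat.pow_le_pow_left hNle 3)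
    have h5 := Nat.mul_le_mul_left (C ^ 3) (h3.trans h4)
    omega

/-- general bound of the parts -/
theorem P_le_unif (hc : Cr n p f M X v g MS I) (hn : 1 ≤ n) {B : ℕ} (h2 : (4 * (p ^ f + 1)) ^ n / 4 ≤ B)
    (h3 : 3 ^ n * (p ^ f + 1) ^ (2 * n) ≤ B ^ 2) : P v M ≤ B := by
  have hv := hc.hX.hp
  by_cases hv2 : v = 2
  · subst hv2
    exact (P_two_le hc.hY rfl hc.hvp hn).trans h2
  · apply le_of_sq_le
    have h4 : P v M ≤ P v (AA n (p ^ f)) := hc.hY.P_other_le hv hc.hvp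
    exact (Nat.pow_le_pow_left h4 2).trans ((P_odd_sq_le hv hv2 hc.hY.q_ge (hc.hY.not_dvd_q hv hc.hvp)).trans h3)

theorem six_a {x : ℕ} (hx : 36 ≤ x) :
    120 ^ 3 * ((2 ^ 10 * (x + 1 + 1) ^ 6) ^ 5 * (2 * (x + 1)) ^ 3) < ((x * (x + 2)) ^ 8) ^ 3 := by
  have hx0 : 0 < x := by omega
  have h1 : (x + 2) * 36 ≤ 38 * x := by omega
  have h2 : (x + 1) * 36 ≤ 37 * x := by omega
  have h3 : (x + 2) ^ 6 * (x + 1) ^ 3 * 36 ^ 9 ≤ 38 ^ 6 * 37 ^ 3 * x ^ 9 := by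
    calc (x + 2) ^ 6 * (x + 1) ^ 3 * 36 ^ 9 = ((x + 2) * 36) ^ 6 * ((x + 1) * 36) ^ 3 := by ring
      _ ≤ (38 * x) ^ 6 * (37 * x) ^ 3 := Nat.mul_le_mul (Nat.pow_le_pow_left h1 6) (Nat.pow_le_pow_left h2 3)
      _ = _ := by ring
  have h4 : 36 ^ 15 ≤ x ^ 15 := Nat.pow_le_pow_left hx 15
  have h5 : (120 ^ 3 * 2 ^ 53) * (38 ^ 6 * 37 ^ 3) < 36 ^ 9 * 36 ^ 15 := by norm_num
  have h6 : 120 ^ 3 * 2 ^ 53 * ((x + 2) ^ 6 * (x + 1) ^ 3) < x ^ 24 := by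
    refine lt_of_mul_lt_mul_right ?_ (Nat.zero_le (36 ^ 9))
    calc 120 ^ 3 * 2 ^ 53 * ((x + 2) ^ 6 * (x + 1) ^ 3) * 36 ^ 9
        = 120 ^ 3 * 2 ^ 53 * ((x + 2) ^ 6 * (x + 1) ^ 3 * 36 ^ 9) := mul_assoc _ _ _
      _ ≤ 120 ^ 3 * 2 ^ 53 * (38 ^ 6 * 37 ^ 3 * x ^ 9) := Nat.mul_le_mul_left _ h3
      _ = 120 ^ 3 * 2 ^ 53 * (38 ^ 6 * 37 ^ 3) * x ^ 9 := (mul_assoc _ _ _).symm
      _ < 36 ^ 9 * 36 ^ 15 * x ^ 9 := Nat.mul_lt_mul_of_pos_right h5 (pow_pos hx0 9)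
      _ ≤ 36 ^ 9 * x ^ 15 * x ^ 9 := Nat.mul_le_mul_right _ (Nat.mul_le_mul_left _ h4)
      _ = x ^ 24 * 36 ^ 9 := by ring
  calc 120 ^ 3 * ((2 ^ 10 * (x + 1 + 1) ^ 6) ^ 5 * (2 * (x + 1)) ^ 3)
      = (120 ^ 3 * 2 ^ 53 * ((x + 2) ^ 6 * (x + 1) ^ 3)) * (x + 2) ^ 24 := by ring
    _ < x ^ 24 * (x + 2) ^ 24 := Nat.mul_lt_mul_of_pos_right h6 (pow_pos (by omega) _)
    _ = _ := by ring

theorem six_b {x : ℕ} (hx : 36 ≤ x) :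
    120 ^ 3 * (((x + 1) ^ 5 + 1) ^ 8 * (2 * (x + 1)) ^ 3) < ((x * (x + 2)) ^ 8) ^ 3 := by
  have hx0 : 0 < x := by omega
  have h2 : (x + 1) * 36 ≤ 37 * x := by omega
  have h3 : ((x + 1) ^ 5 + 1) * 36 ^ 5 ≤ (37 ^ 5 + 1) * x ^ 5 := by
    have h4 : ((x + 1) * 36) ^ 5 ≤ (37 * x) ^ 5 := Nat.pow_le_pow_left h2 5
    have h5 : 36 ^ 5 ≤ x ^ 5 := Nat.pow_le_pow_left hx 5
    rw [mul_pow, mul_pow] at h4
    rw [add_mul, add_mul, one_mul, one_mul]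
    exact Nat.add_le_add h4 h5
  have h7 : 120 ^ 3 * 8 * (37 ^ 5 + 1) ^ 8 * 37 ^ 3 < 36 ^ 43 * 36 ^ 5 := by norm_num
  have h6 : 36 ^ 5 ≤ x ^ 5 := Nat.pow_le_pow_left hx 5
  have h8 : 120 ^ 3 * (((x + 1) ^ 5 + 1) ^ 8 * (2 * (x + 1)) ^ 3) < x ^ 48 := by
    refine lt_of_mul_lt_mul_right ?_ (Nat.zero_le (36 ^ 43))
    calc 120 ^ 3 * (((x + 1) ^ 5 + 1) ^ 8 * (2 * (x + 1)) ^ 3) * 36 ^ 43
        = 120 ^ 3 * 8 * ((((x + 1) ^ 5 + 1) * 36 ^ 5) ^ 8 * ((x + 1) * 36) ^ 3) := by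
          rw [show (36 : ℕ) ^ 43 = (36 ^ 5) ^ 8 * 36 ^ 3 by rw [← pow_mul, ← pow_add], mul_pow 2, mul_pow ((x + 1) ^ 5 + 1),
            mul_pow (x + 1) 36]
          ring
      _ ≤ 120 ^ 3 * 8 * (((37 ^ 5 + 1) * x ^ 5) ^ 8 * (37 * x) ^ 3) := by
          apply Nat.mul_le_mul_left
          exact Nat.mul_le_mul (Nat.pow_le_pow_left h3 8) (Nat.pow_le_pow_left h2 3)
      _ = (120 ^ 3 * 8 * (37 ^ 5 + 1) ^ 8 * 37 ^ 3) * x ^ 43 := by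
          rw [mul_pow, mul_pow, ← pow_mul, show x ^ 43 = x ^ (5 * 8) * x ^ 3 by rw [← pow_add]]
          ring
      _ < (36 ^ 43 * 36 ^ 5) * x ^ 43 := Nat.mul_lt_mul_of_pos_right h7 (pow_pos hx0 _)
      _ ≤ (36 ^ 43 * x ^ 5) * x ^ 43 := Nat.mul_le_mul_right _ (Nat.mul_le_mul_left _ h6)
      _ = x ^ 48 * 36 ^ 43 := by
          rw [mul_assoc, ← pow_add, mul_comm]
  refine h8.trans_le ?_
  calc x ^ 48 = (x ^ 2) ^ 24 := by rw [← pow_mul]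
    _ ≤ (x * (x + 2)) ^ 24 := Nat.pow_le_pow_left (by nlinarith) 24
    _ = _ := by rw [← pow_mul]

theorem six_c : ∀ q : ℕ, 37 ≤ q → 2 ^ 10 * (q + 1) ^ 6 < 2 ^ (2 * q + 1) := by
  intro q hq
  induction q, hq using Nat.le_induction with
  | base => norm_num
  | succ k hk ih =>
    have h1 : 2 ^ (2 * (k + 1) + 1) = 4 * 2 ^ (2 * k + 1) := by ring
    rw [h1]
    have h2 : (k + 1 + 1) ^ 6 * 38 ^ 6 ≤ 39 ^ 6 * (k + 1) ^ 6 := by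
      rw [← mul_pow, ← mul_pow]
      exact Nat.pow_le_pow_left (by omega) 6
    have h3 : (k + 1 + 1) ^ 6 ≤ 4 * (k + 1) ^ 6 := by
      have h4 : (39 : ℕ) ^ 6 ≤ 4 * 38 ^ 6 := by norm_num
      have h5 : (k + 1 + 1) ^ 6 * 38 ^ 6 ≤ (4 * (k + 1) ^ 6) * 38 ^ 6 := by
        calc _ ≤ 39 ^ 6 * (k + 1) ^ 6 := h2
          _ ≤ (4 * 38 ^ 6) * (k + 1) ^ 6 := Nat.mul_le_mul_right _ h4
          _ = _ := by ring
      exact Nat.le_of_mul_le_mul_right h5 (by norm_num)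
    omega

theorem six_large (hc : Cr 6 p f M X v g MS I) (hq : 37 ≤ p ^ f) : False := by
  have hQ : 2 ≤ (p ^ f) ^ 2 := by nlinarith
  have hlb := tt_ge (n := 6) hQ
  have hs : ss 6 = 8 := by decide +kernel
  have hl : lam 6 = 120 := by decide +kernel
  rw [hs, hl] at hlb
  have hb2 : v ≠ 2 → v ∣ tt 6 ((p ^ f) ^ 2) → P v M ≤ (p ^ f) ^ 5 + 1 := fun hv2 hvt =>
    P_le_six hc.hY rfl hc.hX.hp hc.hvp hv2 (order_of_dvd_tt (by norm_num) hQ hc.hX.hp hvt).1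
  have hb1 : P v M ≤ 2 ^ 10 * (p ^ f + 1) ^ 6 := by
    apply P_le_unif hc (by norm_num)
    · generalize p ^ f + 1 = x
      have : (4 * x) ^ 6 = 2 ^ 10 * x ^ 6 * 4 := by ring
      rw [this, Nat.mul_div_cancel _ (by norm_num)]
    · generalize p ^ f + 1 = x
      have : (2 ^ 10 * x ^ 6) ^ 2 = 2 ^ 20 * x ^ (2 * 6) := by ring
      rw [this]
      exact Nat.mul_le_mul_right _ (by norm_num)
  have e : (p ^ f) ^ 2 - 1 = (p ^ f - 1) * (p ^ f - 1 + 2) := by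
    obtain ⟨x, hx⟩ := Nat.exists_eq_add_of_le' (show 1 ≤ p ^ f by omega)
    rw [hx, Nat.add_sub_cancel]
    have : (x + 1) ^ 2 = x * (x + 2) + 1 := by ring
    rw [this, Nat.add_sub_cancel]
  refine fin_large hc (by norm_num) (t := tt 6 ((p ^ f) ^ 2)) (P1 := 2 ^ 10 * (p ^ f + 1) ^ 6) (P2 := (p ^ f) ^ 5 + 1)
    (NB := 2 * p ^ f) (C := 120) (D := ((p ^ f) ^ 2 - 1) ^ 8) (tt_dvd_AA (by omega)) ?_ ?_ hb1 hb2 ?_ ?_ ?_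
  · intro r hr hd
    exact (order_of_dvd_tt (by norm_num) hQ hr hd).1
  · have : cn 6 = 0 := rfl
    rw [this, pow_zero, one_mul]
    exact hlb
  · exact six_c _ hq
  · rw [e]
    obtain ⟨x, hx⟩ := Nat.exists_eq_add_of_le' (show 1 ≤ p ^ f by omega)
    have h := six_a (x := x) (by omega)
    rw [hx, Nat.add_sub_cancel]
    exact h
  · rw [e]
    obtain ⟨x, hx⟩ := Nat.exists_eq_add_of_le' (show 1 ≤ p ^ f by omega)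
    have h := six_b (x := x) (by omega)
    rw [hx, Nat.add_sub_cancel]
    exact h

theorem three_a {q : ℕ} (hq : 11 ≤ q) : 6 ^ 3 * ((16 * (q + 1) ^ 3) ^ 5 * (q + 3) ^ 3) < (q ^ 9) ^ 3 := by
  have hq0 : 0 < q := by omega
  have h1 : (q + 1) * 11 ≤ 12 * q := by omega
  have h2 : (q + 3) * 11 ≤ 14 * q := by omega
  have h3 : (q + 1) ^ 15 * (q + 3) ^ 3 * 11 ^ 18 ≤ 12 ^ 15 * 14 ^ 3 * q ^ 18 := by
    calc (q + 1) ^ 15 * (q + 3) ^ 3 * 11 ^ 18 = ((q + 1) * 11) ^ 15 * ((q + 3) * 11) ^ 3 := by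
          rw [mul_pow, mul_pow, show (11 : ℕ) ^ 18 = 11 ^ 15 * 11 ^ 3 by rw [← pow_add]]; ring
      _ ≤ (12 * q) ^ 15 * (14 * q) ^ 3 := Nat.mul_le_mul (Nat.pow_le_pow_left h1 15) (Nat.pow_le_pow_left h2 3)
      _ = _ := by rw [mul_pow, mul_pow, show q ^ 18 = q ^ 15 * q ^ 3 by rw [← pow_add]]; ring
  have h4 : 11 ^ 9 ≤ q ^ 9 := Nat.pow_le_pow_left hq 9
  have h5 : 6 ^ 3 * 16 ^ 5 * (12 ^ 15 * 14 ^ 3) < 11 ^ 18 * 11 ^ 9 := by norm_num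
  refine lt_of_mul_lt_mul_right ?_ (Nat.zero_le (11 ^ 18))
  calc 6 ^ 3 * ((16 * (q + 1) ^ 3) ^ 5 * (q + 3) ^ 3) * 11 ^ 18
      = 6 ^ 3 * 16 ^ 5 * ((q + 1) ^ 15 * (q + 3) ^ 3 * 11 ^ 18) := by
        rw [mul_pow 16, ← pow_mul (q + 1)]; ring
    _ ≤ 6 ^ 3 * 16 ^ 5 * (12 ^ 15 * 14 ^ 3 * q ^ 18) := Nat.mul_le_mul_left _ h3
    _ = 6 ^ 3 * 16 ^ 5 * (12 ^ 15 * 14 ^ 3) * q ^ 18 := (mul_assoc _ _ _).symm
    _ < 11 ^ 18 * 11 ^ 9 * q ^ 18 := Nat.mul_lt_mul_of_pos_right h5 (pow_pos hq0 _)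
    _ ≤ 11 ^ 18 * q ^ 9 * q ^ 18 := Nat.mul_le_mul_right _ (Nat.mul_le_mul_left _ h4)
    _ = (q ^ 9) ^ 3 * 11 ^ 18 := by rw [← pow_mul, mul_assoc, ← pow_add, mul_comm]

theorem three_b {q : ℕ} (hq : 11 ≤ q) : 6 ^ 3 * ((q ^ 2 + q + 1) ^ 8 * (q + 3) ^ 3) < (q ^ 9) ^ 3 := by
  have hq0 : 0 < q := by omega
  have h1 : q ^ 2 + q + 1 ≤ 2 * q ^ 2 := by nlinarith
  have h2 : q + 3 ≤ 2 * q := by omega
  have h4 : 11 ^ 8 ≤ q ^ 8 := Nat.pow_le_pow_left (by omega) 8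
  have h5 : 6 ^ 3 * (2 ^ 8 * 2 ^ 3) < 11 ^ 8 := by norm_num
  calc 6 ^ 3 * ((q ^ 2 + q + 1) ^ 8 * (q + 3) ^ 3) ≤ 6 ^ 3 * ((2 * q ^ 2) ^ 8 * (2 * q) ^ 3) := by
        apply Nat.mul_le_mul_left
        exact Nat.mul_le_mul (Nat.pow_le_pow_left h1 8) (Nat.pow_le_pow_left h2 3)
    _ = 6 ^ 3 * (2 ^ 8 * 2 ^ 3) * q ^ 19 := by
        rw [mul_pow, mul_pow, ← pow_mul, show q ^ 19 = q ^ (2 * 8) * q ^ 3 by rw [← pow_add]]; ring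
    _ < 11 ^ 8 * q ^ 19 := Nat.mul_lt_mul_of_pos_right h5 (pow_pos hq0 _)
    _ ≤ q ^ 8 * q ^ 19 := Nat.mul_le_mul_right _ h4
    _ = (q ^ 9) ^ 3 := by rw [← pow_mul, ← pow_add]

theorem three_c : ∀ q : ℕ, 11 ≤ q → 16 * (q + 1) ^ 3 < 2 ^ (q + 3 + 1) := by
  intro q hq
  induction q, hq using Nat.le_induction with
  | base => norm_num
  | succ k hk ih =>
    have h1 : 2 ^ (k + 1 + 3 + 1) = 2 * 2 ^ (k + 3 + 1) := by ring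
    rw [h1]
    have h3 : (k + 1 + 1) ^ 3 ≤ 2 * (k + 1) ^ 3 := by nlinarith [sq_nonneg (k : ℤ), pow_pos (show 0 < k by omega) 3]
    omega

/-- the number for rank 3 -/
def t3 (q : ℕ) : ℕ := (q ^ 2 + 1) / Nat.gcd (q ^ 2 + 1) 2 * ((q ^ 4 + q ^ 2 + 1) / Nat.gcd (q ^ 4 + q ^ 2 + 1) 3)

theorem AA_three {q : ℕ} (hq : 1 ≤ q) : AA 3 q = (q ^ 2 - 1) * ((q ^ 2 - 1) * (q ^ 2 + 1)) *
    ((q ^ 2 - 1) * (q ^ 4 + q ^ 2 + 1)) := by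
  have h1 : AA 3 q = (q ^ 2 - 1) * (q ^ 4 - 1) * (q ^ 6 - 1) := by
    simp only [AA, Finset.prod_range_succ, Finset.prod_range_zero]
    norm_num
  obtain ⟨b, hb⟩ := Nat.exists_eq_add_of_le' (Nat.one_le_pow 2 q hq)
  have h4 : q ^ 4 = (b + 1) ^ 2 := by rw [← hb, ← pow_mul]
  have h6 : q ^ 6 = (b + 1) ^ 3 := by rw [← hb, ← pow_mul]
  have e4 : (b + 1) ^ 2 - 1 = b * (b + 1 + 1) := by
    have : (b + 1) ^ 2 = b * (b + 1 + 1) + 1 := by ring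
    rw [this, Nat.add_sub_cancel]
  have e6 : (b + 1) ^ 3 - 1 = b * ((b + 1) ^ 2 + (b + 1) + 1) := by
    have : (b + 1) ^ 3 = b * ((b + 1) ^ 2 + (b + 1) + 1) + 1 := by ring
    rw [this, Nat.add_sub_cancel]
  rw [h1, h4, h6, hb, e4, e6, Nat.add_sub_cancel]

theorem t3_dvd {q : ℕ} (hq : 1 ≤ q) : t3 q ∣ AA 3 q := by
  rw [AA_three hq]
  exact Nat.mul_dvd_mul ((Nat.div_dvd_of_dvd (Nat.gcd_dvd_left _ _)).trans ((Dvd.intro_left _ rfl).mul_left _))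
    ((Nat.div_dvd_of_dvd (Nat.gcd_dvd_left _ _)).trans (Dvd.intro_left _ rfl))

theorem sq_mod_four (q : ℕ) : q ^ 2 % 4 = 0 ∨ q ^ 2 % 4 = 1 := by
  have h : q % 4 < 4 := Nat.mod_lt _ (by norm_num)
  rw [Nat.pow_mod]
  interval_cases q % 4 <;> simp

theorem t3_order {q r : ℕ} (hq : 2 ≤ q) (hr : r.Prime) (h : r ∣ t3 q) : 3 / 2 < orderOf ((q ^ 2 : ℕ) : ZMod r) := by
  have hAA : r ∣ AA 3 q := h.trans (t3_dvd (by omega))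
  have hrq := not_dvd_of_AA hq hr hAA
  have h1 := order_pos' hr hrq
  by_contra hcon
  have h2 : orderOf ((q ^ 2 : ℕ) : ZMod r) = 1 := by omega
  have h3 : r ∣ q ^ 2 - 1 := by
    have := (dvd_pow_iff (r := r) hq 1).2 (by rw [h2])
    simpa using this
  obtain ⟨b, hb⟩ := Nat.exists_eq_add_of_le' (Nat.one_le_pow 2 q (by omega))
  have h4 : q ^ 4 = (b + 1) ^ 2 := by rw [← hb, ← pow_mul]
  rw [hb, Nat.add_sub_cancel] at h3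
  rw [t3] at h
  rcases hr.dvd_mul.1 h with h5 | h5
  · have h6 : r ∣ q ^ 2 + 1 := h5.trans (Nat.div_dvd_of_dvd (Nat.gcd_dvd_left _ _))
    have h7 : r ∣ 2 := by
      rw [hb, show b + 1 + 1 = b + 2 by ring] at h6
      exact (Nat.dvd_add_right h3).1 h6
    have h8 : r = 2 := (Nat.prime_dvd_prime_iff_eq hr Nat.prime_two).1 h7
    subst h8
    have h9 : Nat.gcd (q ^ 2 + 1) 2 = 2 := Nat.gcd_eq_right h6
    rw [h9] at h5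
    have h10 := sq_mod_four q
    omega
  · have h6 : r ∣ q ^ 4 + q ^ 2 + 1 := h5.trans (Nat.div_dvd_of_dvd (Nat.gcd_dvd_left _ _))
    have e : q ^ 4 + q ^ 2 + 1 = b * (b + 3) + 3 := by rw [h4, hb]; ring
    have h7 : r ∣ 3 := by
      rw [e] at h6
      exact (Nat.dvd_add_right (h3.mul_right _)).1 h6
    have h8 : r = 3 := (Nat.prime_dvd_prime_iff_eq hr Nat.prime_three).1 h7
    subst h8
    have h9 : Nat.gcd (q ^ 4 + q ^ 2 + 1) 3 = 3 := Nat.gcd_eq_right h6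
    rw [h9, e] at h5
    obtain ⟨c, rfl⟩ := h3
    have e2 : 3 * c * (3 * c + 3) + 3 = 3 * (3 * (c * (c + 1)) + 1) := by ring
    rw [e2, Nat.mul_div_cancel_left _ (by norm_num)] at h5
    omega

theorem t3_ge {q : ℕ} : q ^ 6 ≤ t3 q * 6 := by
  have h1 : q ^ 2 + 1 ≤ (q ^ 2 + 1) / Nat.gcd (q ^ 2 + 1) 2 * 2 := by
    calc q ^ 2 + 1 = (q ^ 2 + 1) / Nat.gcd (q ^ 2 + 1) 2 * Nat.gcd (q ^ 2 + 1) 2 :=
          (Nat.div_mul_cancel (Nat.gcd_dvd_left _ _)).symm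
      _ ≤ _ := Nat.mul_le_mul_left _ (Nat.gcd_le_right _ (by norm_num))
  have h2 : q ^ 4 + q ^ 2 + 1 ≤ (q ^ 4 + q ^ 2 + 1) / Nat.gcd (q ^ 4 + q ^ 2 + 1) 3 * 3 := by
    calc q ^ 4 + q ^ 2 + 1 = (q ^ 4 + q ^ 2 + 1) / Nat.gcd (q ^ 4 + q ^ 2 + 1) 3 * Nat.gcd (q ^ 4 + q ^ 2 + 1) 3 :=
          (Nat.div_mul_cancel (Nat.gcd_dvd_left _ _)).symm
      _ ≤ _ := Nat.mul_le_mul_left _ (Nat.gcd_le_right _ (by norm_num))
  rw [t3]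
  calc q ^ 6 ≤ (q ^ 2 + 1) * (q ^ 4 + q ^ 2 + 1) := by
        have : (q ^ 2 + 1) * (q ^ 4 + q ^ 2 + 1) = q ^ 6 + (2 * q ^ 4 + 2 * q ^ 2 + 1) := by ring
        omega
    _ ≤ _ := Nat.mul_le_mul h1 h2
    _ = _ := by ring

theorem three_large (hc : Cr 3 p f M X v g MS I) (hq : 11 ≤ p ^ f) : False := by
  have hb2 : v ≠ 2 → v ∣ t3 (p ^ f) → P v M ≤ (p ^ f) ^ 2 + p ^ f + 1 := fun hv2 hvt =>
    P_le_three hc.hY rfl hc.hX.hp hc.hvp hv2 (t3_order (by omega) hc.hX.hp hvt)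
  have hb1 : P v M ≤ 16 * (p ^ f + 1) ^ 3 := by
    apply P_le_unif hc (by norm_num)
    · generalize p ^ f + 1 = x
      have : (4 * x) ^ 3 = 16 * x ^ 3 * 4 := by ring
      rw [this, Nat.mul_div_cancel _ (by norm_num)]
    · generalize p ^ f + 1 = x
      have : (16 * x ^ 3) ^ 2 = 256 * x ^ (2 * 3) := by ring
      rw [this]
      exact Nat.mul_le_mul_right _ (by norm_num)
  refine fin_large hc (by norm_num) (t := t3 (p ^ f)) (P1 := 16 * (p ^ f + 1) ^ 3) (P2 := (p ^ f) ^ 2 + p ^ f + 1)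
    (NB := p ^ f + 3) (C := 6) (D := (p ^ f) ^ 9) (t3_dvd (by omega)) ?_ ?_ hb1 hb2 ?_ ?_ ?_
  · intro r hr hd
    exact t3_order (by omega) hr hd
  · have : cn 3 = 3 := rfl
    rw [this]
    have h1 := t3_ge (q := p ^ f)
    generalize p ^ f = q at *
    calc q ^ 9 = q ^ 3 * q ^ 6 := by rw [← pow_add]
      _ ≤ q ^ 3 * (t3 q * 6) := Nat.mul_le_mul_left _ h1
      _ = _ := by ring
  · exact three_c _ hq
  · exact three_a hq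
  · exact three_b hq

end Cfsg.Agent.H364.SpLarge
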