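import Mathlib
import Cfsg.Agent.H364.SpIneq

/-!
# The numerical inequality for `D_n`, `n ≥ 8` even (helper364)
-/

set_option autoImplicit false

namespace Cfsg.Agent.H364.DIneq

open Finset Cfsg.Agent.H365.Zsig Cfsg.Agent.H364.SpTot Cfsg.Agent.H364.SpPrim Cfsg.Agent.H364.SpIneq

/-- the product of the primitive parts -/
noncomputable def tD (n Q : ℕ) : ℕ := ∏ j ∈ Ioc (n / 2) (n - 1), pk j Q

/-- the loss -/
def lD (n : ℕ) : ℕ := ∏ j ∈ Ioc (n / 2) (n - 1), j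

/-- the degree -/
def sD (n : ℕ) : ℕ := ∑ j ∈ Ioc (n / 2) (n - 1), j.totient

theorem tD_dvd {n Q : ℕ} (hQ : 1 ≤ Q) : tD n Q ∣ ∏ i ∈ range (n - 1), (Q ^ (i + 1) - 1) := by
  have h1 : ∏ i ∈ range (n - 1), (Q ^ (i + 1) - 1) = ∏ j ∈ Ioc 0 (n - 1), (Q ^ j - 1) := by
    rw [Finset.range_eq_Ico, Finset.prod_Ico_add' (fun j => Q ^ j - 1) 0 (n - 1) 1]
    apply Finset.prod_congr _ (fun _ _ => rfl)
    ext x
    simp only [Finset.mem_Ico, Finset.mem_Ioc]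
    omega
  rw [h1]
  refine (Finset.prod_dvd_prod_of_dvd _ (fun j => Q ^ j - 1) ?_).trans (Finset.prod_dvd_prod_of_subset _ _ _ ?_)
  · intro j hj
    rw [Finset.mem_Ioc] at hj
    exact (Dvd.intro _ (pk_mul j Q)).trans (Ph_dvd (by omega) hQ)
  · intro j hj
    rw [Finset.mem_Ioc] at hj ⊢
    omega

theorem order_of_dvd_tD {n Q r : ℕ} (hn : 4 ≤ n) (hQ : 2 ≤ Q) (hr : r.Prime) (h : r ∣ tD n Q) :
    n / 2 < orderOf (Q : ZMod r) ∧ orderOf (Q : ZMod r) ≤ n - 1 := by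
  obtain ⟨j, hj, hd⟩ := (hr.prime.dvd_finsetProd_iff _).1 h
  rw [Finset.mem_Ioc] at hj
  rw [order_of_dvd_pk (by omega) hQ hr hd]
  exact hj

theorem tD_ge {n Q : ℕ} (hQ : 2 ≤ Q) : (Q - 1) ^ sD n ≤ tD n Q * lD n := by
  rw [sD, ← Finset.prod_pow_eq_pow_sum, tD, lD, ← Finset.prod_mul_distrib]
  apply Finset.prod_le_prod'
  intro j hj
  rw [Finset.mem_Ioc] at hj
  exact (pow_totient_le hQ).trans (Ph_le (by omega))

theorem lD_le (n : ℕ) : lD n ≤ n ^ (n - 1 - n / 2) := by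
  have h1 : lD n ≤ ∏ _j ∈ Ioc (n / 2) (n - 1), n := by
    apply Finset.prod_le_prod'
    intro j hj
    rw [Finset.mem_Ioc] at hj
    omega
  rw [Finset.prod_const, Nat.card_Ioc] at h1
  exact h1

theorem lD_pos (n : ℕ) : 0 < lD n := by
  apply Finset.prod_pos
  intro j hj
  rw [Finset.mem_Ioc] at hj
  omega

theorem sD_add {n : ℕ} (hn : 2 ≤ n) : ss n = sD n + n.totient := by
  obtain ⟨m, rfl⟩ := Nat.exists_eq_add_of_le' (show 1 ≤ n by omega)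
  rw [ss, sD, Nat.add_sub_cancel]
  have h : (m + 1) / 2 ≤ m := by omega
  rw [← Finset.insert_Ioc_right_eq_Ioc_add_one h, Finset.sum_insert, add_comm]
  rw [Finset.mem_Ioc]
  omega

theorem sD_bound {n : ℕ} (hn : 2 ≤ n) : 7 * n ^ 2 ≤ 36 * sD n + 42 * n := by
  have h1 := ss_bound n
  have h2 := sD_add hn
  have h3 := Nat.totient_le n
  omega

/-- the start of the range of `q` -/
def q0 (n : ℕ) : ℕ :=
  if n = 8 then 17 else if n = 10 then 8 else if n = 12 then 4 else if n ≤ 22 then 3 else 2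

/-- the check -/
def chk (n : ℕ) : Bool :=
  (lD n ^ 3 * 4 ^ (5 * n) * n ^ 3 * (q0 n + 1) ^ (5 * n + 3) < ((q0 n ^ 2 - 1) ^ sD n) ^ 3 * (q0 n ^ 0) ^ 3) &&
  (lD n ^ 3 * n ^ 3 * (q0 n + 1) ^ (8 * (n - 1) + 3) < ((q0 n ^ 2 - 1) ^ sD n) ^ 3 * (q0 n ^ 0) ^ 3) &&
  (8 * (n - 1) + 3 ≤ 6 * sD n + 3 * 0) && (5 * n + 3 ≤ 6 * sD n + 3 * 0)

theorem chk_all : ∀ n ∈ List.range 48, n < 8 ∨ n % 2 = 1 ∨ chk n = true := by
  decide +kernel

theorem gen {n : ℕ} (hn : 48 ≤ n) (hev : n % 2 = 0) :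
    lD n ^ 3 * 4 ^ (5 * n) * n ^ 3 * (2 + 1) ^ (8 * n + 3) < ((2 ^ 2 - 1) ^ sD n) ^ 3 * (2 ^ 0) ^ 3 := by
  have hl := lD_le n
  have hs := sD_bound (show 2 ≤ n by omega)
  generalize lD n = L at *
  generalize sD n = s at *
  set K := 3 * (n - 1 - n / 2) + 3 with hK
  have hK2 : 2 * K = 3 * n := by omega
  have h1 : L ^ 3 * n ^ 3 ≤ n ^ K := by
    calc L ^ 3 * n ^ 3 ≤ (n ^ (n - 1 - n / 2)) ^ 3 * n ^ 3 := Nat.mul_le_mul_right _ (Nat.pow_le_pow_left hl 3)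
      _ = n ^ K := by rw [← pow_mul, ← pow_add, hK]; congr 1; ring
  have h2 : (L ^ 3 * n ^ 3) ^ 8 ≤ 3 ^ (n * K) := by
    calc (L ^ 3 * n ^ 3) ^ 8 ≤ (n ^ K) ^ 8 := Nat.pow_le_pow_left h1 8
      _ = (n ^ 8) ^ K := by rw [← pow_mul, ← pow_mul, mul_comm]
      _ ≤ (3 ^ n) ^ K := Nat.pow_le_pow_left (pow8 hn) K
      _ = _ := by rw [← pow_mul]
  have h3 : 4 ^ (5 * n) ≤ 3 ^ (7 * n) := by
    rw [pow_mul, pow_mul]
    exact Nat.pow_le_pow_left (by norm_num) n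
  have h4 : n * K + 120 * n + 24 < 24 * s := by
    have h5 : 2 * (n * K) = n * (3 * n) := by
      calc 2 * (n * K) = n * (2 * K) := by ring
        _ = _ := by rw [hK2]
    nlinarith
  have e : ((2 ^ 2 - 1) ^ s) ^ 3 * (2 ^ 0) ^ 3 = 3 ^ (3 * s) := by
    rw [pow_zero, one_pow, mul_one, ← pow_mul, mul_comm s 3, show (2 : ℕ) ^ 2 - 1 = 3 from rfl]
  rw [e]
  refine lt_of_pow_lt_pow_left₀ 8 (Nat.zero_le _) ?_
  calc (L ^ 3 * 4 ^ (5 * n) * n ^ 3 * (2 + 1) ^ (8 * n + 3)) ^ 8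
      = (L ^ 3 * n ^ 3) ^ 8 * (4 ^ (5 * n)) ^ 8 * (3 ^ (8 * n + 3)) ^ 8 := by
        rw [show (2 + 1 : ℕ) = 3 from rfl]
        simp only [mul_pow]
        ring
    _ ≤ 3 ^ (n * K) * (3 ^ (7 * n)) ^ 8 * (3 ^ (8 * n + 3)) ^ 8 :=
        Nat.mul_le_mul_right _ (Nat.mul_le_mul h2 (Nat.pow_le_pow_left h3 8))
    _ = 3 ^ (n * K + 120 * n + 24) := by
        rw [← pow_mul, ← pow_mul, ← pow_add, ← pow_add]
        congr 1
        ring
    _ < 3 ^ (24 * s) := Nat.pow_lt_pow_right (by norm_num) h4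
    _ = (3 ^ (3 * s)) ^ 8 := by rw [← pow_mul]; congr 1; ring

/-- **The inequalities.** -/
theorem ineq {n q : ℕ} (hn : 8 ≤ n) (hev : n % 2 = 0) (hq : q0 n ≤ q) :
    lD n ^ 3 * 4 ^ (5 * n) * n ^ 3 * (q + 1) ^ (5 * n + 3) < ((q ^ 2 - 1) ^ sD n) ^ 3 ∧
    lD n ^ 3 * n ^ 3 * (q + 1) ^ (8 * (n - 1) + 3) < ((q ^ 2 - 1) ^ sD n) ^ 3 := by
  have hq02 : 2 ≤ q0 n := by
    rw [q0]
    split_ifs <;> norm_num
  have hone : ∀ x : ℕ, ((x ^ 2 - 1) ^ sD n) ^ 3 * (x ^ 0) ^ 3 = ((x ^ 2 - 1) ^ sD n) ^ 3 := fun x => by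
    rw [pow_zero, one_pow, mul_one]
  rw [← hone q]
  rcases Nat.lt_or_ge n 48 with h | h
  · rcases chk_all n (List.mem_range.2 h) with h1 | h1 | h1
    · omega
    · omega
    · simp only [chk, Bool.and_eq_true, decide_eq_true_eq] at h1
      obtain ⟨⟨⟨h2, h3⟩, h4⟩, h5⟩ := h1
      exact ⟨mono hq02 hq h5 h2, mono hq02 hq h4 h3⟩
  · have hs := sD_bound (show 2 ≤ n by omega)
    have hE : 8 * n + 3 ≤ 6 * sD n + 3 * 0 := by nlinarith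
    have h3 := mono (le_refl 2) (hq02.trans hq) hE (gen h hev)
    constructor
    · refine lt_of_le_of_lt ?_ h3
      apply Nat.mul_le_mul_left
      exact Nat.pow_le_pow_right (by omega) (by omega)
    · refine lt_of_le_of_lt ?_ h3
      calc lD n ^ 3 * n ^ 3 * (q + 1) ^ (8 * (n - 1) + 3) ≤ lD n ^ 3 * n ^ 3 * (q + 1) ^ (8 * n + 3) := by
            apply Nat.mul_le_mul_left
            exact Nat.pow_le_pow_right (by omega) (by omega)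
        _ ≤ _ := by
            apply Nat.mul_le_mul_right
            apply Nat.mul_le_mul_right
            exact Nat.le_mul_of_pos_right _ (pow_pos (by norm_num) _)

end Cfsg.Agent.H364.DIneq
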