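import Mathlib
import Cfsg.Agent.H364.DIneq
import Cfsg.Agent.H364.SpSmall

/-!
# `D_n`, `n ≥ 8` even: no simple groups of Lie type in cross characteristic, the estimate (helper364)
-/

set_option autoImplicit false

namespace Cfsg.Agent.H364.DCross

open Finset Cfsg.Agent.H902.Lte Cfsg.Agent.H902.Art Cfsg.Agent.H364.SpVal Cfsg.Agent.H364.SpPrim
  Cfsg.Agent.H364.SpCross Cfsg.Agent.H364.SpSmall Cfsg.Agent.H364.DIneq

/-- what is known about `|S|` and the index -/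
def FrD (n q I MS : ℕ) : Prop :=
  ∀ t : ℕ, t ∣ AA (n - 1) q → (∀ r : ℕ, r.Prime → r ∣ t → n / 2 < orderOf ((q ^ 2 : ℕ) : ZMod r)) → t ∣ I * MS

/-- everything known about `S` -/
structure CrD (n p f M : ℕ) (X : Sh) (v g MS I : ℕ) : Prop where
  hY : Real (.D n) p f M
  hX : Real X v g MS
  hX2 : X ≠ .L 2
  hvp : v ≠ p
  hMS : MS ∣ M
  hI : I ≤ dd X (v ^ g) * NN X * g
  hI0 : 0 < I
  hI' : I ∣ 24 * dd X (v ^ g) * g
  hd : FrD n (p ^ f) I MS

theorem num_D_mul {n q : ℕ} (hn : 1 ≤ n) (hq : 1 ≤ q) : num (.D n) q * (q ^ n + 1) = AA n q := by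
  obtain ⟨m, rfl⟩ := Nat.exists_eq_add_of_le' hn
  have h1 : num (.D (m + 1)) q = (q ^ (m + 1) - 1) * AA m q := rfl
  have h2 : AA (m + 1) q = AA m q * (q ^ (2 * (m + 1)) - 1) := by
    rw [AA, AA, Finset.prod_range_succ]
  obtain ⟨a, ha⟩ := Nat.exists_eq_add_of_le' (Nat.one_le_pow (m + 1) q hq)
  have h3 : q ^ (2 * (m + 1)) - 1 = (q ^ (m + 1) - 1) * (q ^ (m + 1) + 1) := by
    rw [two_mul, pow_add, ha]
    have : (a + 1) * (a + 1) = a * (a + 1 + 1) + 1 := by ring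
    rw [this]
    simp
  rw [h1, h2, h3]
  ring

theorem AA_dvd_num {n q : ℕ} : AA (n - 1) q ∣ num (.D n) q := Dvd.intro_left _ rfl

variable {n p f M : ℕ}

theorem P_le_AA (hY : Real (.D n) p f M) {v : ℕ} (hv : v.Prime) (hvp : v ≠ p) : P v M ≤ P v (AA n (p ^ f)) := by
  have hq := hY.q_ge
  have hn : 4 ≤ n := hY.ok
  refine (hY.P_other_le hv hvp).trans ?_
  apply P_mono hv (AA_ne hq)
  rw [← num_D_mul (n := n) (by omega) (by omega)]
  exact Dvd.intro _ rfl

theorem tD_dvd_AA {n q : ℕ} (hq : 1 ≤ q) : tD n (q ^ 2) ∣ AA (n - 1) q := by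
  have h := tD_dvd (n := n) (Q := q ^ 2) (Nat.one_le_pow _ _ hq)
  have e : ∏ i ∈ range (n - 1), ((q ^ 2) ^ (i + 1) - 1) = AA (n - 1) q := by
    rw [AA]
    apply Finset.prod_congr rfl
    intro i _
    rw [← pow_mul]
  rwa [e] at h

theorem FrD.gen {n q I MS : ℕ} (h : FrD n q I MS) (hq : 2 ≤ q) (hn : 4 ≤ n) : tD n (q ^ 2) ∣ I * MS := by
  refine h _ (tD_dvd_AA (by omega)) fun r hr hd => ?_
  exact (order_of_dvd_tD hn (by nlinarith) hr hd).1

/-- **No simple group of Lie type in cross characteristic**, the general case. -/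
theorem cross_gen (hn : 8 ≤ n) (hev : n % 2 = 0) {X : Sh} {v g MS I : ℕ} (hc : CrD n p f M X v g MS I)
    (hq : q0 n ≤ p ^ f) : False := by
  obtain ⟨hY, hX, hX2, hvp, hMS, hI, hI0, -, hfr⟩ := hc
  have hv := hX.hp
  have hq2 := hY.q_ge
  have hvq := hY.not_dvd_q hv hvp
  have hd := hfr.gen hq2 (by omega)
  obtain ⟨i1, i2⟩ := ineq hn hev hq
  have h2 : P v M ≤ P v (AA n (p ^ f)) := P_le_AA hY hv hvp
  set q := p ^ f with hqdef
  have hQ : 2 ≤ q ^ 2 := by nlinarith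
  have h1 := pow_le_P hX hY hMS
  have hlb := tD_ge (n := n) hQ
  have hlam := lD_pos n
  set N := g * NN X with hN
  -- the common end
  have fin : ∀ B : ℕ, (tD n (q ^ 2)) ^ 3 ≤ B →
      lD n ^ 3 * B < ((q ^ 2 - 1) ^ sD n) ^ 3 → False := by
    intro B hB h3
    have h4 : ((q ^ 2 - 1) ^ sD n) ^ 3 ≤ lD n ^ 3 * (tD n (q ^ 2)) ^ 3 := by
      calc ((q ^ 2 - 1) ^ sD n) ^ 3 ≤ (tD n (q ^ 2) * lD n) ^ 3 := Nat.pow_le_pow_left hlb 3
        _ = _ := by rw [mul_pow, mul_comm]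
    have h5 := Nat.mul_le_mul_left (lD n ^ 3) hB
    omega
  have h34 : 3 ≤ q ∨ (2 ≤ q ∧ 3 ≤ v) := by
    by_cases hv2 : v = 2
    · left
      subst hv2
      by_contra hcon
      have : q = 2 := by omega
      rw [this] at hvq
      exact hvq (dvd_refl 2)
    · right
      have := hv.two_le
      exact ⟨hq2, by omega⟩
  have hNle : N ≤ n * (q + 1) := exp_le hv.two_le h34 ((h1.trans h2).trans (P_le_gen hv hq2 hvq (by omega)))
  by_cases hvt : v ∣ tD n (q ^ 2)
  · -- `v` is one of the primitive primes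
    obtain ⟨ho1, ho2⟩ := order_of_dvd_tD (by omega) hQ hv hvt
    have hv2 : v ≠ 2 := by
      intro h
      subst h
      have h3 : orderOf ((q ^ 2 : ℕ) : ZMod 2) ≤ 1 := by
        have hodd : ¬ 2 ∣ q ^ 2 := fun h => hvq (Nat.prime_two.dvd_of_dvd_pow h)
        have h4 : ((q ^ 2 : ℕ) : ZMod 2) = 1 := by
          rw [← Nat.cast_one, ZMod.natCast_eq_natCast_iff]
          show q ^ 2 % 2 = 1 % 2
          omega
        rw [h4, orderOf_one]
      omega
    have h3 := P_le_of_order hv hv2 hq2 hvq ho1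
    have h4 : v ^ N ≤ (q + 1) ^ (n - 1) := by
      have h5 : q ^ orderOf ((q ^ 2 : ℕ) : ZMod v) + 1 ≤ q ^ (n - 1) + 1 := by
        have := Nat.pow_le_pow_right (show 0 < q by omega) ho2
        omega
      have h6 : q ^ (n - 1) + 1 ≤ (q + 1) ^ (n - 1) := by
        have h7 : ∀ e : ℕ, 1 ≤ e → q ^ e + 1 ≤ (q + 1) ^ e := by
          intro e he
          induction e, he using Nat.le_induction with
          | base => simp
          | succ k hk ih =>
            rw [pow_succ, pow_succ]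
            have h6 : 1 ≤ q ^ k := Nat.one_le_pow _ _ (by omega)
            nlinarith
        exact h7 (n - 1) (by omega)
      exact (h1.trans h2).trans (h3.trans (h5.trans h6))
    apply fin _ (cube_all hX hX2 hI hI0 hd)
    refine lt_of_le_of_lt ?_ i2
    calc lD n ^ 3 * ((v ^ N) ^ 8 * N ^ 3) ≤ lD n ^ 3 * (((q + 1) ^ (n - 1)) ^ 8 * (n * (q + 1)) ^ 3) := by
          apply Nat.mul_le_mul_left
          exact Nat.mul_le_mul (Nat.pow_le_pow_left h4 8) (Nat.pow_le_pow_left hNle 3)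
      _ = _ := by
          rw [← pow_mul, mul_pow n, show 8 * (n - 1) + 3 = (n - 1) * 8 + 3 by ring, pow_add]
          ring
  · have hcop : Nat.Coprime (tD n (q ^ 2)) v :=
      (Nat.Coprime.symm ((Nat.Prime.coprime_iff_not_dvd hv).2 hvt))
    have h4 : v ^ N ≤ (4 * (q + 1)) ^ n := (h1.trans h2).trans (P_le_gen hv hq2 hvq (by omega))
    apply fin _ (cube_num hX hX2 hI hI0 hcop hd)
    refine lt_of_le_of_lt ?_ i1
    calc lD n ^ 3 * ((v ^ N) ^ 5 * N ^ 3) ≤ lD n ^ 3 * (((4 * (q + 1)) ^ n) ^ 5 * (n * (q + 1)) ^ 3) := by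
          apply Nat.mul_le_mul_left
          exact Nat.mul_le_mul (Nat.pow_le_pow_left h4 5) (Nat.pow_le_pow_left hNle 3)
      _ = _ := by
          rw [← pow_mul, mul_pow n, mul_pow 4, show 5 * n + 3 = n * 5 + 3 by ring, show 5 * n = n * 5 by ring, pow_add]
          ring

end Cfsg.Agent.H364.DCross
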