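import Mathlib
import Cfsg.Agent.H364.SpLarge

/-!
# No simple group of Lie type in cross characteristic (helper364)
-/

set_option autoImplicit false

namespace Cfsg.Agent.H364.SpAll

open Finset Cfsg.Agent.H902.Lte Cfsg.Agent.H902.Art Cfsg.Agent.H364.SpVal Cfsg.Agent.H364.SpIneq Cfsg.Agent.H364.SpPrim
  Cfsg.Agent.H364.SpTot Cfsg.Agent.H364.SpCross Cfsg.Agent.H364.SpSmall Cfsg.Agent.H364.SpEnum Cfsg.Agent.H364.SpSix
  Cfsg.Agent.H364.SpFin Cfsg.Agent.H364.SpLarge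

variable {n p f q M : ℕ} {X : Sh} {v g MS I : ℕ}

/-- not a prime power -/
def npp (q : ℕ) : Bool := [2, 3, 5, 7].any fun a => [2, 3, 5, 7, 11, 13, 17].any fun b =>
  (a != b) && (q % a == 0) && (q % b == 0)

theorem npp_false (hp : p.Prime) (h : npp (p ^ f) = true) : False := by
  simp only [npp, List.any_eq_true, Bool.and_eq_true, bne_iff_ne, beq_iff_eq] at h
  obtain ⟨a, ha, b, hb, ⟨hab, h1⟩, h2⟩ := h
  have ha' : a.Prime := by
    simp only [List.mem_cons, List.not_mem_nil, or_false] at ha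
    rcases ha with rfl | rfl | rfl | rfl <;> norm_num
  have hb' : b.Prime := by
    simp only [List.mem_cons, List.not_mem_nil, or_false] at hb
    rcases hb with rfl | rfl | rfl | rfl | rfl | rfl | rfl <;> norm_num
  exact two_primes hp ha' hb' hab (Nat.dvd_of_mod_eq_zero h1) (Nat.dvd_of_mod_eq_zero h2)

/-- the small cases for `n = 6` -/
def l6 : List (ℕ × ℕ × ℕ) := [(2, 2, 0), (3, 1, 21), (4, 1, 0), (5, 0, 21), (7, 0, 27), (8, 0, 0), (9, 0, 27), (11, 0, 21),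
  (13, 0, 21), (16, 0, 0), (17, 0, 33), (19, 0, 21), (23, 0, 27), (25, 0, 27), (27, 0, 21), (29, 0, 21), (31, 0, 39),
  (32, 0, 0)]

theorem l6_all : ∀ q ∈ List.range 37, q < 2 ∨ npp q = true ∨ q ∈ l6.map (fun a => a.1) := by
  decide +kernel

theorem l6_fl : ∀ a ∈ l6, fl 6 a.1 (a.1 ^ 5 + 1) a.2.1 = true ∧ (a.1 % 2 = 0 ∨ tw 6 a.1 a.2.2 = true) ∧
    (1 < a.2.1 → a.1 = 2) ∧ (a.2.1 = 0 ∨ (a.2.1 ≤ 2 ∧ a.1 ≤ 4)) := by
  decide +kernel

theorem en_six : en 6 2 (2 ^ cn 6 * te 6 2) 3 8 = true ∧ en 6 2 (2 ^ cn 6 * te 6 2) 5 3 = true ∧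
    en 6 4 (4 ^ cn 6 * te 6 4) 3 8 = true ∧ en 6 4 (4 ^ cn 6 * te 6 4) 5 7 = true :=
  ⟨en_list (6, 2, 3, 8) (by simp), en_list (6, 2, 5, 3) (by simp), en_list (6, 4, 3, 8) (by simp),
    en_list (6, 4, 5, 7) (by simp)⟩

theorem even_of {q : ℕ} (hp : p.Prime) (hq : p ^ f = q) (h : q % 2 = 0) : p = 2 := by
  have h1 : 2 ∣ p ^ f := by rw [hq]; exact Nat.dvd_of_mod_eq_zero h
  exact ((Nat.prime_dvd_prime_iff_eq Nat.prime_two hp).1 (Nat.prime_two.dvd_of_dvd_pow h1)).symm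

theorem six_small (hc : Cr 6 p f M X v g MS I) (hq : p ^ f < 37) : False := by
  have hp := hc.hY.hp
  have hq2 := hc.hY.q_ge
  rcases l6_all _ (List.mem_range.2 hq) with h | h | h
  · omega
  · exact npp_false hp h
  · obtain ⟨⟨q, s, a⟩, ha, haq⟩ := List.mem_map.1 h
    have haq' : p ^ f = q := haq.symm
    obtain ⟨h1, h2, h3, h4⟩ := l6_fl _ ha
    simp only at h1 h2 h3 h4
    refine cross_fl (b := q ^ 5 + 1) (s := s) hc haq' (by norm_num) (te_six hc haq' (good_of_fl h1)) h1 ?_ ?_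
    · intro e he hes w hw hw2 hwd
      rcases h4 with h4 | ⟨h4, h5⟩
      · omega
      · obtain ⟨e1, e2, e3, e4⟩ := en_six
        rw [haq'] at hq2
        have h6 : e = 1 ∨ e = 2 := by omega
        have h7 : q = 2 ∨ q = 3 ∨ q = 4 := by omega
        rcases h6 with rfl | rfl
        · rcases h7 with rfl | rfl | rfl
          · have h8 := dvd_three hw (by simpa using hwd)
            rw [h8]
            exact ⟨8, e1⟩
          · exact (dvd_eight hw hw2 (by simpa using hwd)).elim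
          · rcases dvd_fifteen hw (by simpa using hwd) with h8 | h8
            · rw [h8]; exact ⟨8, e3⟩
            · rw [h8]; exact ⟨7, e4⟩
        · have h8 := h3 (by omega)
          subst h8
          rcases dvd_fifteen hw (by simpa using hwd) with h8 | h8
          · rw [h8]; exact ⟨8, e1⟩
          · rw [h8]; exact ⟨3, e2⟩
    · intro hp2
      rcases h2 with h2 | h2
      · exact absurd (even_of hp haq' h2) hp2
      · exact Or.inr ⟨a, h2⟩

/-- the small cases for `n = 3` -/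
def l3 : List (ℕ × ℕ × ℕ) := [(3, 1, 9), (4, 0, 0), (5, 0, 9), (7, 0, 12), (8, 0, 0), (9, 0, 12)]

theorem l3_all : ∀ q ∈ List.range 11, q < 3 ∨ npp q = true ∨ q ∈ l3.map (fun a => a.1) := by
  decide +kernel

theorem l3_fl : ∀ a ∈ l3, fl 3 a.1 (a.1 ^ 2 + a.1 + 1) a.2.1 = true ∧ (a.1 % 2 = 0 ∨ tw 3 a.1 a.2.2 = true) ∧
    (a.2.1 = 0 ∨ (a.2.1 = 1 ∧ a.1 = 3)) := by
  decide +kernel

theorem three_small (hc : Cr 3 p f M X v g MS I) (hq : p ^ f < 11) (hq2 : p ^ f ≠ 2) : False := by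
  have hp := hc.hY.hp
  have hq3 := hc.hY.q_ge
  rcases l3_all _ (List.mem_range.2 hq) with h | h | h
  · omega
  · exact npp_false hp h
  · obtain ⟨⟨q, s, a⟩, ha, haq⟩ := List.mem_map.1 h
    have haq' : p ^ f = q := haq.symm
    obtain ⟨h1, h2, h4⟩ := l3_fl _ ha
    simp only at h1 h2 h4
    refine cross_fl (b := q ^ 2 + q + 1) (s := s) hc haq' (by norm_num) (te_three hc haq' (good_of_fl h1)) h1 ?_ ?_
    · intro e he hes w hw hw2 hwd
      rcases h4 with h4 | ⟨h4, h5⟩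
      · omega
      · have h6 : e = 1 := by omega
        subst h6
        subst h5
        exact (dvd_eight hw hw2 (by simpa using hwd)).elim
    · intro hp2
      rcases h2 with h2 | h2
      · exact absurd (even_of hp haq' h2) hp2
      · exact Or.inr ⟨a, h2⟩

/-- the other small cases -/
def l5 : List (ℕ × ℕ × ℕ × ℕ) := [(5, 2, 1, 0), (5, 3, 0, 17), (5, 4, 0, 0), (5, 5, 0, 17), (7, 2, 0, 0), (7, 3, 0, 24), (9, 2, 0, 0),
  (10, 2, 1, 0), (10, 3, 0, 37), (10, 4, 0, 0), (11, 2, 0, 0), (12, 2, 0, 0), (12, 3, 0, 45), (13, 2, 0, 0),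
  (14, 2, 0, 0), (15, 2, 0, 0), (16, 2, 0, 0), (17, 2, 0, 0), (18, 2, 0, 0), (20, 2, 0, 0), (22, 2, 0, 0)]

theorem l5_all : ∀ n ∈ List.range 23, ∀ q ∈ List.range 6, n < 5 ∨ q < 2 ∨ n = 6 ∨ n = 8 ∨ q0 n ≤ q ∨
    (n, q) ∈ l5.map (fun a => (a.1, a.2.1)) := by
  decide +kernel

theorem l5_fl : ∀ a ∈ l5, fl a.1 a.2.1 (a.2.1 ^ a.1 + 1) a.2.2.1 = true ∧ (a.2.1 % 2 = 0 ∨ tw a.1 a.2.1 a.2.2.2 = true) ∧
    (a.2.2.1 = 0 ∨ (a.2.2.1 = 1 ∧ a.2.1 = 2 ∧ (a.1 = 5 ∨ a.1 = 10))) := by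
  decide +kernel

theorem q0_eq {n : ℕ} (hn : 23 ≤ n) : q0 n = 2 := by
  rw [q0, if_neg (by omega), if_neg (by omega), if_neg (by omega), if_pos (by omega)]

theorem q0_le {n : ℕ} : q0 n ≤ 6 := by
  rw [q0]
  split_ifs <;> norm_num

theorem others (hc : Cr n p f M X v g MS I) (hn : 5 ≤ n) (h6 : n ≠ 6) (h8 : n ≠ 8) : False := by
  have hp := hc.hY.hp
  have hq2 := hc.hY.q_ge
  have hgen : q0 n ≤ p ^ f → False := fun hq =>
    cross_gen hc.hY hn h6 h8 hq hc.hX hc.hX2 hc.hvp hc.hMS hc.hI hc.hI0 (hc.hd.gen hq2 (by omega))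
  rcases Nat.lt_or_ge n 23 with h | h
  swap
  · exact hgen (by rw [q0_eq h]; exact hq2)
  rcases Nat.lt_or_ge (p ^ f) 6 with h' | h'
  swap
  · exact hgen (q0_le.trans h')
  rcases l5_all n (List.mem_range.2 h) _ (List.mem_range.2 h') with h1 | h1 | h1 | h1 | h1 | h1
  · omega
  · omega
  · exact h6 h1
  · exact h8 h1
  · exact hgen h1
  · obtain ⟨⟨n', q, s, a⟩, ha, haq⟩ := List.mem_map.1 h1
    simp only [Prod.mk.injEq] at haq
    obtain ⟨rfl, haq⟩ := haq
    have haq' : p ^ f = q := haq.symm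
    obtain ⟨h1, h2, h4⟩ := l5_fl _ ha
    simp only at h1 h2 h4
    refine cross_fl (b := q ^ n' + 1) (s := s) hc haq' (by omega) (te_bound hc haq' (by omega) (good_of_fl h1)) h1 ?_ ?_
    · intro e he hes w hw hw2 hwd
      rcases h4 with h4 | ⟨h4, h5, h6⟩
      · omega
      · have h6' : e = 1 := by omega
        subst h6'
        subst h5
        have h8 := dvd_three hw (by simpa using hwd)
        rw [h8]
        rcases h6 with rfl | rfl
        · exact ⟨6, en_list (5, 2, 3, 6) (by simp)⟩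
        · exact ⟨14, en_list (10, 2, 3, 14) (by simp)⟩
    · intro hp2
      rcases h2 with h2 | h2
      · exact absurd (even_of hp haq' h2) hp2
      · exact Or.inr ⟨a, h2⟩

/-- **No simple group of Lie type in cross characteristic.** -/
theorem cross_all (hc : Cr n p f M X v g MS I) (hn : 3 ≤ n) (h4 : n ≠ 4) (h8 : n ≠ 8) (h32 : ¬ (n = 3 ∧ p ^ f = 2)) :
    False := by
  by_cases h3 : n = 3
  · subst h3
    rcases Nat.lt_or_ge (p ^ f) 11 with h | h
    · exact three_small hc h fun h' => h32 ⟨rfl, h'⟩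
    · exact three_large hc h
  by_cases h6 : n = 6
  · subst h6
    rcases Nat.lt_or_ge (p ^ f) 37 with h | h
    · exact six_small hc h
    · exact six_large hc h
  exact others hc (by omega) h6 h8

end Cfsg.Agent.H364.SpAll
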