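import Mathlib
import Cfsg.Agent.H365.Near

/-!
# The shape in the natural characteristic: no `p`-chief factors below `S` for `C_n` (helper364)
-/

set_option autoImplicit false

namespace Cfsg.Agent.H364.SpShape

open Cfsg.Agent.H902.Lte Cfsg.Agent.H902.Art Cfsg.Agent.H365.Near

variable {X Y : Sh} {p g f M M' : ℕ}

theorem delta_lt2 {δ G : ℕ} (hp : p.Prime) (h24 : p ^ δ ∣ 24 * g) (h6 : p = 2 → 2 ^ δ ∣ 6 * g) (hg : 1 ≤ g)
    (hG : 2 * g ≤ G) (hG6 : 6 ≤ G) : 2 * δ < G := by
  by_cases hδ0 : δ = 0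
  · omega
  by_cases hp2 : p = 2
  · subst hp2
    have h7 := h6 rfl
    have h8 : 2 ^ (δ - 1) ∣ g := by
      have h9 : 2 ^ δ ∣ 2 * (3 * g) := by rw [← mul_assoc]; exact h7
      have h10 : 2 * 2 ^ (δ - 1) ∣ 2 * (3 * g) := by
        have : 2 * 2 ^ (δ - 1) = 2 ^ δ := by
          rw [← pow_succ']; congr 1; omega
        rw [this]; exact h9
      have h11 := Nat.dvd_of_mul_dvd_mul_left (by norm_num) h10
      exact (Nat.Coprime.pow_left _ (by norm_num)).dvd_of_dvd_mul_left h11
    have h9 := Nat.le_of_dvd (by omega) h8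
    by_cases h10 : 3 ≤ δ
    · have := lt_pow' h10
      omega
    · omega
  by_cases hp3 : p = 3
  · subst hp3
    have h8 : 3 ^ (δ - 1) ∣ g := by
      have h10 : 3 * 3 ^ (δ - 1) ∣ 3 * (8 * g) := by
        have : 3 * 3 ^ (δ - 1) = 3 ^ δ := by
          rw [← pow_succ']; congr 1; omega
        rw [this, ← mul_assoc]; exact h24
      have h11 := Nat.dvd_of_mul_dvd_mul_left (by norm_num) h10
      exact (Nat.Coprime.pow_left _ (by norm_num)).dvd_of_dvd_mul_left h11
    have h9 := Nat.le_of_dvd (by omega) h8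
    by_cases h10 : δ = 1
    · omega
    · have h11 : δ - 1 + 1 < 3 ^ (δ - 1) := by
        have h12 : ∀ k : ℕ, 1 ≤ k → k + 1 < 3 ^ k := by
          intro k hk
          induction k, hk using Nat.le_induction with
          | base => norm_num
          | succ k hk ih => rw [pow_succ]; omega
        exact h12 _ (by omega)
      omega
  · have h5 : 5 ≤ p := by
      have := hp.two_le
      by_contra h
      have h7 : p = 4 := by omega
      rw [h7] at hp; exact absurd hp (by decide)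
    have hc : Nat.Coprime p 24 := by
      rw [hp.coprime_iff_not_dvd]
      intro h
      have h7 : p ∣ 2 ^ 3 * 3 := h
      rcases hp.dvd_mul.1 h7 with h8 | h8
      · exact hp2 ((Nat.prime_dvd_prime_iff_eq hp Nat.prime_two).1 (hp.dvd_of_dvd_pow h8))
      · exact hp3 ((Nat.prime_dvd_prime_iff_eq hp Nat.prime_three).1 h8)
    have h8 : p ^ δ ∣ g := (Nat.Coprime.pow_left _ hc).dvd_of_dvd_mul_left h24
    have h9 := Nat.le_of_dvd (by omega) h8
    have h10 : δ < p ^ δ := Nat.lt_pow_self (by omega)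
    omega

/-- the combinatorial part -/
theorem shape_j {n j : ℕ} (hX : Real X p g M') (hn : 3 ≤ n) (hk : kap X + 4 * j = 2 * n)
    (hB : (n - 1) * DM X ≤ n * BM X) : j = 0 := by
  have hok := hX.ok
  obtain ⟨m, rfl⟩ : ∃ m, n = m + 3 := ⟨n - 3, by omega⟩
  rw [show m + 3 - 1 = m + 2 by omega] at hB
  cases X with
  | L l =>
    have hl : 2 ≤ l := hok.1
    have h1 : 2 * (l - 1) + 4 * j = 2 * (m + 3) := hk
    have h2 : (m + 2) * l ≤ (m + 3) * (l - 1) := hB
    obtain ⟨a, rfl⟩ : ∃ a, l = a + 1 := ⟨l - 1, by omega⟩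
    rw [Nat.add_sub_cancel] at h1 h2
    nlinarith
  | C l =>
    have hl : 2 ≤ l := hok.1
    have h1 : 2 * l + 4 * j = 2 * (m + 3) := hk
    have h2 : (m + 2) * (2 * l) ≤ (m + 3) * (2 * (l - 1)) := hB
    obtain ⟨a, rfl⟩ : ∃ a, l = a + 1 := ⟨l - 1, by omega⟩
    rw [Nat.add_sub_cancel] at h2
    nlinarith
  | U l =>
    have hl : 3 ≤ l := hok.1
    by_cases hev : Even l
    · have h1 : l + 4 * j = 2 * (m + 3) := by
        have : kap (.U l) = l := if_pos hev
        rw [this] at hk; exact hk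
      have h3 : DM (.U l) = 2 * (l - 1) := if_pos hev
      have h4 : BM (.U l) = if l = 4 then 4 else 2 * (l - 3) := if_pos hev
      rw [h3, h4] at hB
      split_ifs at hB with h5
      · subst h5
        omega
      · obtain ⟨a, rfl⟩ : ∃ a, l = a + 3 := ⟨l - 3, by omega⟩
        rw [show a + 3 - 1 = a + 2 by omega, show a + 3 - 3 = a by omega] at hB
        nlinarith
    · have h1 : l - 1 + 4 * j = 2 * (m + 3) := by
        have : kap (.U l) = l - 1 := if_neg hev
        rw [this] at hk; exact hk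
      have h3 : DM (.U l) = 2 * l := if_neg hev
      have h4 : BM (.U l) = 2 * (l - 2) := if_neg hev
      rw [h3, h4] at hB
      obtain ⟨a, rfl⟩ : ∃ a, l = a + 2 := ⟨l - 2, by omega⟩
      rw [show a + 2 - 2 = a by omega] at hB
      rw [show a + 2 - 1 = a + 1 by omega] at h1
      nlinarith
  | D l =>
    have hl : 4 ≤ l := hok
    have h1 : 2 * l + 4 * j = 2 * (m + 3) := hk
    have h2 : (m + 2) * (2 * (l - 1)) ≤ (m + 3) * (2 * (l - 2)) := hB
    obtain ⟨a, rfl⟩ : ∃ a, l = a + 2 := ⟨l - 2, by omega⟩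
    rw [show a + 2 - 1 = a + 1 by omega, show a + 2 - 2 = a by omega] at h2
    nlinarith
  | DD l =>
    have hl : 4 ≤ l := hok
    have h1 : 2 * (l - 1) + 4 * j = 2 * (m + 3) := hk
    have h2 : (m + 2) * (2 * l) ≤ (m + 3) * (2 * (l - 1)) := hB
    obtain ⟨a, rfl⟩ : ∃ a, l = a + 1 := ⟨l - 1, by omega⟩
    rw [Nat.add_sub_cancel] at h1 h2
    nlinarith
  | G2 =>
    have h2 : (m + 2) * 6 ≤ (m + 3) * 2 := hB
    omega
  | F4 =>
    have h1 : 8 + 4 * j = 2 * (m + 3) := hk
    have h2 : (m + 2) * 12 ≤ (m + 3) * 8 := hB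
    omega
  | E6 =>
    have h1 : 12 + 4 * j = 2 * (m + 3) := hk
    have h2 : (m + 2) * 12 ≤ (m + 3) * 9 := hB
    omega
  | E7 =>
    have h1 : 14 + 4 * j = 2 * (m + 3) := hk
    have h2 : (m + 2) * 18 ≤ (m + 3) * 14 := hB
    omega
  | E8 =>
    have h1 : 16 + 4 * j = 2 * (m + 3) := hk
    have h2 : (m + 2) * 30 ≤ (m + 3) * 24 := hB
    omega
  | TE6 =>
    have h2 : (m + 2) * 18 ≤ (m + 3) * 12 := hB
    have h1 : 8 + 4 * j = 2 * (m + 3) := hk
    omega
  | TD4 =>
    have h2 : (m + 2) * 12 ≤ (m + 3) * 6 := hB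
    omega
  | Sz =>
    have h2 : (m + 2) * 4 ≤ (m + 3) * 1 := hB
    omega
  | Ree =>
    have h2 : (m + 2) * 6 ≤ (m + 3) * 1 := hB
    omega
  | TF4 =>
    have h2 : (m + 2) * 12 ≤ (m + 3) * 6 := hB
    omega

/-- **The shape of `S` in the natural characteristic.** -/
theorem same_char {n j δ r s : ℕ} (hX : Real X p g M') (hY : Real (.C n) p f M) (hn : 3 ≤ n) (hdvd : M' ∣ M)
    (hr : r.Prime) (hro : orderOf (p : ZMod r) = f * (2 * n)) (hrM : r ∣ M')
    (hs : s.Prime) (hso : orderOf (p : ZMod s) = f * (2 * n - 2)) (hsM : s ∣ M')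
    (hexp : g * NN X + 2 * n * f * j + δ = f * n ^ 2) (h24 : p ^ δ ∣ 24 * g) (h6 : p = 2 → 2 ^ δ ∣ 6 * g) :
    M' = M ∧ j = 0 := by
  have hf := hY.hf
  have hg := hX.hf
  have hDY : DM (.C n) = 2 * n := rfl
  have h3n : f * 3 ≤ f * n := Nat.mul_le_mul_left f hn
  have hG6 : 6 ≤ f * DM (.C n) := by rw [hDY]; nlinarith
  have hD : g * DM X = f * DM (.C n) := by
    rcases D_cases hX hY hdvd hr (by rw [hDY]; exact hro) (by omega) hrM with h | ⟨-, -, h⟩
    · exact h
    · omega
  have hge := (DM_ge hX).1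
  have h2g : 2 * g ≤ f * DM (.C n) := by rw [← hD]; nlinarith
  have hδ := delta_lt2 hX.hp h24 h6 hg h2g hG6
  -- the invariant `kap`
  have h1 : 4 * (g * NN X) = (g * DM X) * kap X := by
    calc 4 * (g * NN X) = g * (4 * NN X) := by ring
      _ = _ := by rw [four_NN hX]; ring
  rw [hD, hDY] at h1
  rw [hDY] at hδ hG6
  have hk2 := kap_even hX
  have hk : kap X + 4 * j = 2 * n ∧ δ = 0 := by
    have h2 : f * (2 * n) * (kap X + 4 * j) + 4 * δ = f * (2 * n) * (2 * n) := by
      have e : 4 * (g * NN X + 2 * n * f * j + δ) = 4 * (f * n ^ 2) := by rw [hexp]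
      have e2 : f * (2 * n) * (kap X + 4 * j) + 4 * δ = f * (2 * n) * kap X + 4 * (2 * n * f * j) + 4 * δ := by ring
      have e3 : f * (2 * n) * (2 * n) = 4 * (f * n ^ 2) := by ring
      rw [e2, e3, ← h1, ← e]; ring
    generalize f * (2 * n) = G at *
    have hG0 : 0 < G := by omega
    have h3 : kap X + 4 * j ≤ 2 * n := by
      by_contra hcon
      have h4 : G * (2 * n + 1) ≤ G * (kap X + 4 * j) := Nat.mul_le_mul_left _ (by omega)
      have h5 : G * (2 * n + 1) = G * (2 * n) + G := by ring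
      omega
    have h6 : ¬ kap X + 4 * j < 2 * n := by
      intro hcon
      have h4 : G * (kap X + 4 * j + 2) ≤ G * (2 * n) := Nat.mul_le_mul_left _ (by omega)
      have h5 : G * (kap X + 4 * j + 2) = G * (kap X + 4 * j) + 2 * G := by ring
      omega
    have h7 : kap X + 4 * j = 2 * n := by omega
    refine ⟨h7, ?_⟩
    rw [h7] at h2
    omega
  obtain ⟨hk, rfl⟩ := hk
  -- the second exponent
  have hsp : s ≠ p := ne_of_order hs (show 1 ≤ f * (2 * n - 2) from Nat.mul_pos hf (by omega)) hso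
  have hB : (n - 1) * DM X ≤ n * BM X := by
    rcases hX.order_cases hs hsp hsM with h | ⟨e, he, heB, h⟩
    · exfalso
      rw [hso, hD, hDY] at h
      have h4 : 2 * n - 2 ∣ 2 * n := Nat.dvd_of_mul_dvd_mul_left hf h
      have h5 : 2 * n - 2 ∣ 2 := by
        have := Nat.dvd_sub h4 (dvd_refl (2 * n - 2))
        rwa [show 2 * n - (2 * n - 2) = 2 by omega] at this
      have := Nat.le_of_dvd (by norm_num) h5
      omega
    · rw [hso] at h
      have h4 : f * (2 * n - 2) ≤ g * BM X :=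
        (Nat.le_of_dvd (Nat.mul_pos hg he) h).trans (Nat.mul_le_mul_left _ heB)
      have h5 : f * (2 * n - 2) * DM X ≤ f * (2 * n) * BM X := by
        calc f * (2 * n - 2) * DM X ≤ g * BM X * DM X := Nat.mul_le_mul_right _ h4
          _ = g * DM X * BM X := by ring
          _ = _ := by rw [hD, hDY]
      obtain ⟨m, rfl⟩ : ∃ m, n = m + 1 := ⟨n - 1, by omega⟩
      rw [show 2 * (m + 1) - 2 = 2 * m by omega] at h5
      rw [Nat.add_sub_cancel]
      have h6 : (2 * f) * (m * DM X) ≤ (2 * f) * ((m + 1) * BM X) := by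
        calc (2 * f) * (m * DM X) = f * (2 * m) * DM X := by ring
          _ ≤ _ := h5
          _ = _ := by ring
      exact Nat.le_of_mul_le_mul_left h6 (by omega)
  have hj := shape_j hX hn hk hB
  refine ⟨?_, hj⟩
  subst hj
  have hN : f * NN (.C n) - g * NN X = 0 := by
    have : NN (.C n) = n ^ 2 := rfl
    rw [this]
    omega
  rcases near_out hX hY hdvd hr (by rw [hDY]; exact hro) (by rw [hDY]; omega) hrM (by rw [hN]; exact one_dvd _)
    (by rw [hN]; exact fun _ => one_dvd _) with ⟨rfl, rfl⟩ | h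
  · have h1 := hX.eq
    rw [← hY.eq] at h1
    exact Nat.eq_of_mul_eq_mul_left (Nat.pos_of_ne_zero hY.dd_ne) h1
  · exfalso
    simp only [Exc, Sh.C.injEq, reduceCtorEq, false_and, and_false, or_false, false_or, exists_false] at h
    obtain ⟨-, h, -⟩ := h
    omega

end Cfsg.Agent.H364.SpShape
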