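import Mathlib
import Cfsg.Agent.H364.Core

/-!
# Primes with cyclic Sylow subgroups dividing the order of the radical (helper364)
-/

set_option autoImplicit false

namespace Cfsg.Agent.H364.CycFrat

open Subgroup Cfsg.Agent.H364
open scoped commutatorElement

theorem isCyclic_of_sylow {G : Type*} [Group G] [Finite G] {r : ℕ} [Fact r.Prime]
    (hcyc : ∃ x : G, orderOf x = r ^ (Nat.card G).factorization r) {Q : Subgroup G} (hQ : IsPGroup r Q) :
    IsCyclic Q := by
  obtain ⟨x, hx⟩ := hcyc
  let P0 : Sylow r G := Sylow.ofCard (zpowers x) (by rw [Nat.card_zpowers, hx])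
  have hP0 : IsCyclic (P0 : Subgroup G) := by
    show IsCyclic (zpowers x)
    infer_instance
  obtain ⟨P1, hP1⟩ := hQ.exists_le_sylow
  have e : (P0 : Subgroup G) ≃* (P1 : Subgroup G) := Sylow.equiv P0 P1
  have hP1c : IsCyclic (P1 : Subgroup G) := isCyclic_of_surjective e.toMonoidHom e.surjective
  exact isCyclic_of_injective (Subgroup.inclusion hP1) (Subgroup.inclusion_injective hP1)

/-- **Lemma A**: `r` divides the order of the normal subgroup `K`, the Sylow `r`-subgroups of `G` are cyclic; then `r` is adjacent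
to the prime divisors of the orders of the perfect subgroups of `G / K`. -/
theorem exists_orderOf_mul {G : Type*} [Group G] [Finite G] (K : Subgroup G) [K.Normal] {r s : ℕ} (hr : r.Prime)
    (hs : s.Prime) (hrs : r ≠ s) (hcyc : ∃ x : G, orderOf x = r ^ (Nat.card G).factorization r)
    (hrK : r ∣ Nat.card K) (S : Subgroup (G ⧸ K)) (hS : ⁅S, S⁆ = S) (hsS : s ∣ Nat.card S) :
    ∃ x : G, orderOf x = r * s := by
  have := Fact.mk hr
  have := Fact.mk hs
  obtain ⟨Q⟩ : Nonempty (Sylow r K) := inferInstance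
  set Q' : Subgroup G := (Q : Subgroup K).map K.subtype with hQ'
  have hQ'c : Nat.card Q' = Nat.card Q := by
    rw [hQ', Subgroup.card_map_of_injective K.subtype_injective]
  have hQp : IsPGroup r Q' := Q.isPGroup'.map K.subtype
  have hQcyc : IsCyclic Q' := isCyclic_of_sylow hcyc hQp
  set N : Subgroup G := normalizer (Q' : Set G) with hN
  have h1 : N ⊔ K = ⊤ := Sylow.normalizer_sup_eq_top Q
  let φ : N →* MulAut Q' := normalizerMonoidHom Q'
  have hcomm : ∀ a b : MulAut Q', a * b = b * a := by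
    intro a b
    apply (IsCyclic.mulAutMulEquiv Q').injective
    rw [map_mul, map_mul, mul_comm]
  set M : Subgroup G := S.comap (QuotientGroup.mk' K) ⊓ N with hM
  have hMmap : M.map (QuotientGroup.mk' K) = S := by
    apply le_antisymm
    · rintro _ ⟨x, hx, rfl⟩
      exact hx.1
    · intro y hy
      obtain ⟨g, rfl⟩ := QuotientGroup.mk'_surjective K y
      have hg : g ∈ N ⊔ K := by rw [h1]; trivial
      obtain ⟨a, ha, k, hk, rfl⟩ := Subgroup.mem_sup_of_normal_right.1 hg
      have h2 : (QuotientGroup.mk' K) (a * k) = (QuotientGroup.mk' K) a := by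
        rw [map_mul]
        have : (QuotientGroup.mk' K) k = 1 := (QuotientGroup.eq_one_iff k).2 hk
        rw [this, mul_one]
      rw [h2] at hy ⊢
      exact ⟨a, ⟨hy, ha⟩, rfl⟩
  have hD : (⁅M, M⁆).map (QuotientGroup.mk' K) = S := by
    rw [Subgroup.map_commutator, hMmap, hS]
  have hsD : s ∣ Nat.card (⁅M, M⁆ : Subgroup G) := by
    have h2 : Nat.card S ∣ Nat.card (⁅M, M⁆ : Subgroup G) := by
      rw [← hD]
      exact Subgroup.card_map_dvd _ _
    exact hsS.trans h2
  obtain ⟨y, hy⟩ := exists_prime_orderOf_dvd_card' s hsD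
  have hrQ : r ∣ Nat.card Q' := by
    rw [hQ'c]
    exact Q.dvd_card_of_dvd_card hrK
  obtain ⟨x, hx⟩ := exists_prime_orderOf_dvd_card' r hrQ
  -- commutators centralize
  have hcen : ⁅M, M⁆ ≤ centralizer (Q' : Set G) := by
    rw [Subgroup.commutator_le]
    intro a ha b hb
    have ha' : a ∈ N := ha.2
    have hb' : b ∈ N := hb.2
    have h3 : φ ⁅(⟨a, ha'⟩ : N), ⟨b, hb'⟩⁆ = 1 := by
      rw [map_commutatorElement, commutatorElement_eq_one_iff_mul_comm]
      exact hcomm _ _
    have h4 : ⁅(⟨a, ha'⟩ : N), ⟨b, hb'⟩⁆ ∈ φ.ker := h3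
    rw [Subgroup.normalizerMonoidHom_ker] at h4
    exact h4
  have hxy : Commute (x : G) (y : G) := by
    have h5 := hcen y.2
    rw [mem_centralizer_iff] at h5
    exact h5 x x.2
  refine ⟨x * y, ?_⟩
  rw [hxy.orderOf_mul_eq_mul_orderOf_of_coprime]
  · rw [Subgroup.orderOf_coe, Subgroup.orderOf_coe, hx, hy]
  · rw [Subgroup.orderOf_coe, Subgroup.orderOf_coe, hx, hy]
    exact (Nat.coprime_primes hr hs).2 hrs

end Cfsg.Agent.H364.CycFrat
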