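import Mathlib
import Cfsg.Agent.H364.DEnum

/-!
# `D_n`, `n ≥ 8` even: no simple groups of Lie type in cross characteristic (helper364)
-/

set_option autoImplicit false

namespace Cfsg.Agent.H364.DEight

open Finset Cfsg.Agent.H902.Lte Cfsg.Agent.H902.Art Cfsg.Agent.H364.DIneq Cfsg.Agent.H364.DCross
  Cfsg.Agent.H364.DEnum
open Cfsg.Agent.H364.SpFin (two_primes dvd_three dvd_eight)

variable {n p f q M : ℕ} {X : Sh} {v g MS I : ℕ}

theorem eq_of_pow {p f r : ℕ} (hp : p.Prime) (hr : r.Prime) (h : r ∣ p ^ f) : p = r :=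
  ((Nat.prime_dvd_prime_iff_eq hr hp).1 (hr.dvd_of_dvd_pow h)).symm

theorem use (hc : CrD n p f M X v g MS I) (hev : n % 2 = 0) {q s a : ℕ} (hq : p ^ f = q)
    (hfl : fl n q (q ^ (n - 1) + 1) s = true)
    (hs : s = 0 ∨ (s = 1 ∧ ∀ v : ℕ, v.Prime → v ≠ 2 → v ∣ q ^ 2 - 1 → ∃ a, en n q (te n q) v a = true))
    (h2 : 2 ∣ q ∨ tw n q a = true) : False := by
  have hn : 4 ≤ n := hc.hY.ok
  refine cross_fl (a := a) hc hq (by omega) hev (te_bound hc hq (by omega) (good_of_fl hfl)) hfl ?_ ?_
  · intro e he hes v hv hv2 hd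
    rcases hs with hs | ⟨hs, h3⟩
    · omega
    · have : e = 1 := by omega
      subst this
      exact h3 v hv hv2 hd
  · intro hp2
    rcases h2 with h2 | h2
    · exfalso
      rw [← hq] at h2
      exact hp2 (eq_of_pow hc.hY.hp Nat.prime_two h2)
    · exact h2

theorem ten (hc : CrD 10 p f M X v g MS I) (hq : p ^ f < 8) : False := by
  have hp := hc.hY.hp
  have hq2 := hc.hY.q_ge
  obtain ⟨q, hqe⟩ : ∃ q, p ^ f = q := ⟨_, rfl⟩
  have h2 := Nat.prime_two
  have h3 := Nat.prime_three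
  rw [hqe] at hq hq2
  interval_cases q
  · exact use (s := 1) (a := 0) hc rfl hqe (fl_list (10, 2, 1) (by decide)) (Or.inr ⟨rfl, fun v hv hv2 hd => by
      have : v = 3 := dvd_three hv hd
      subst this
      exact ⟨14, en_list (10, 2, 3, 14) (by decide)⟩⟩) (Or.inl (by norm_num))
  · exact use (s := 0) (a := 35) hc rfl hqe (fl_list (10, 3, 0) (by decide)) (Or.inl rfl)
      (Or.inr (tw_list (10, 3, 35) (by decide)))
  · exact use (s := 0) (a := 0) hc rfl hqe (fl_list (10, 4, 0) (by decide)) (Or.inl rfl) (Or.inl (by norm_num))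
  · exact use (s := 0) (a := 0) hc rfl hqe (fl_list (10, 5, 0) (by decide)) (Or.inl rfl)
      (Or.inr (tw_list (10, 5, 0) (by decide)))
  · exact two_primes hp h2 h3 (by norm_num) (by rw [hqe]; norm_num) (by rw [hqe]; norm_num)
  · exact use (s := 0) (a := 0) hc rfl hqe (fl_list (10, 7, 0) (by decide)) (Or.inl rfl)
      (Or.inr (tw_list (10, 7, 0) (by decide)))

theorem eight (hc : CrD 8 p f M X v g MS I) (hq : p ^ f < 17) : False := by
  have hp := hc.hY.hp
  have hq2 := hc.hY.q_ge
  obtain ⟨q, hqe⟩ : ∃ q, p ^ f = q := ⟨_, rfl⟩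
  have h2 := Nat.prime_two
  have h3 := Nat.prime_three
  have h5 := Nat.prime_five
  rw [hqe] at hq hq2
  interval_cases q
  · exact use (s := 1) (a := 0) hc rfl hqe (fl_list (8, 2, 1) (by decide)) (Or.inr ⟨rfl, fun v hv hv2 hd => by
      have : v = 3 := dvd_three hv hd
      subst this
      exact ⟨10, en_list (8, 2, 3, 10) (by decide)⟩⟩) (Or.inl (by norm_num))
  · exact use (s := 1) (a := 28) hc rfl hqe (fl_list (8, 3, 1) (by decide)) (Or.inr ⟨rfl, fun v hv hv2 hd =>
      (dvd_eight hv hv2 hd).elim⟩) (Or.inr (tw_list (8, 3, 28) (by decide)))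
  · exact use (s := 0) (a := 0) hc rfl hqe (fl_list (8, 4, 0) (by decide)) (Or.inl rfl) (Or.inl (by norm_num))
  · exact use (s := 0) (a := 28) hc rfl hqe (fl_list (8, 5, 0) (by decide)) (Or.inl rfl)
      (Or.inr (tw_list (8, 5, 28) (by decide)))
  · exact two_primes hp h2 h3 (by norm_num) (by rw [hqe]; norm_num) (by rw [hqe]; norm_num)
  · exact use (s := 0) (a := 0) hc rfl hqe (fl_list (8, 7, 0) (by decide)) (Or.inl rfl)
      (Or.inr (tw_list (8, 7, 0) (by decide)))
  · exact use (s := 0) (a := 0) hc rfl hqe (fl_list (8, 8, 0) (by decide)) (Or.inl rfl) (Or.inl (by norm_num))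
  · exact use (s := 0) (a := 0) hc rfl hqe (fl_list (8, 9, 0) (by decide)) (Or.inl rfl)
      (Or.inr (tw_list (8, 9, 0) (by decide)))
  · exact two_primes hp h2 h5 (by norm_num) (by rw [hqe]; norm_num) (by rw [hqe]; norm_num)
  · exact use (s := 0) (a := 0) hc rfl hqe (fl_list (8, 11, 0) (by decide)) (Or.inl rfl)
      (Or.inr (tw_list (8, 11, 0) (by decide)))
  · exact two_primes hp h2 h3 (by norm_num) (by rw [hqe]; norm_num) (by rw [hqe]; norm_num)
  · exact use (s := 0) (a := 0) hc rfl hqe (fl_list (8, 13, 0) (by decide)) (Or.inl rfl)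
      (Or.inr (tw_list (8, 13, 0) (by decide)))
  · exact two_primes hp h2 (show Nat.Prime 7 by norm_num) (by norm_num) (by rw [hqe]; norm_num)
      (by rw [hqe]; norm_num)
  · exact two_primes hp h3 h5 (by norm_num) (by rw [hqe]; norm_num) (by rw [hqe]; norm_num)
  · exact use (s := 0) (a := 0) hc rfl hqe (fl_list (8, 16, 0) (by decide)) (Or.inl rfl) (Or.inl (by norm_num))

/-- **`n ≥ 8`.** -/
theorem cross_eight (hc : CrD n p f M X v g MS I) (hn : 8 ≤ n) (hev : n % 2 = 0) : False := by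
  rcases Nat.lt_or_ge (p ^ f) (q0 n) with h | h
  · have hq2 := hc.hY.q_ge
    by_cases h8 : n = 8
    · subst h8
      exact eight hc h
    by_cases h10 : n = 10
    · subst h10
      exact ten hc h
    by_cases h12 : n = 12
    · subst h12
      have h' : p ^ f < 4 := h
      obtain ⟨q, hqe⟩ : ∃ q, p ^ f = q := ⟨_, rfl⟩
      rw [hqe] at h' hq2
      interval_cases q
      · exact use (s := 0) (a := 0) hc rfl hqe (fl_list (12, 2, 0) (by decide)) (Or.inl rfl) (Or.inl (by norm_num))
      · exact use (s := 0) (a := 0) hc rfl hqe (fl_list (12, 3, 0) (by decide)) (Or.inl rfl)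
          (Or.inr (tw_list (12, 3, 0) (by decide)))
    · rw [q0, if_neg h8, if_neg h10, if_neg h12] at h
      split_ifs at h with h22
      · have hqe : p ^ f = 2 := by omega
        have hn' : n = 14 ∨ n = 16 ∨ n = 18 ∨ n = 20 ∨ n = 22 := by omega
        rcases hn' with rfl | rfl | rfl | rfl | rfl
        · exact use (s := 0) (a := 0) hc rfl hqe (fl_list (14, 2, 0) (by decide)) (Or.inl rfl) (Or.inl (by norm_num))
        · exact use (s := 0) (a := 0) hc rfl hqe (fl_list (16, 2, 0) (by decide)) (Or.inl rfl) (Or.inl (by norm_num))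
        · exact use (s := 0) (a := 0) hc rfl hqe (fl_list (18, 2, 0) (by decide)) (Or.inl rfl) (Or.inl (by norm_num))
        · exact use (s := 0) (a := 0) hc rfl hqe (fl_list (20, 2, 0) (by decide)) (Or.inl rfl) (Or.inl (by norm_num))
        · exact use (s := 0) (a := 0) hc rfl hqe (fl_list (22, 2, 0) (by decide)) (Or.inl rfl) (Or.inl (by norm_num))
      · omega
  · exact cross_gen hn hev hc h

end Cfsg.Agent.H364.DEight
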