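import Mathlib
import Cfsg.Agent.H364.DEight

/-!
# `D_6`: no simple groups of Lie type in cross characteristic, the estimates (helper364)
-/

set_option autoImplicit false

namespace Cfsg.Agent.H364.DSix

open Finset Cfsg.Agent.H902.Lte Cfsg.Agent.H902.Art Cfsg.Agent.H364.DIneq Cfsg.Agent.H364.DCross
  Cfsg.Agent.H364.DEnum Cfsg.Agent.H364.DEight
open Cfsg.Agent.H364.SpVal (AA AA_ne PC_odd' P_le_of_order P_odd_sq_le)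
open Cfsg.Agent.H364.SpPrim (pk Ph_le)

variable {n p f q M : ℕ} {X : Sh} {v g MS I : ℕ}

/-- the abstract end, `v ∤ t` -/
theorem finA (hc : CrD n p f M X v g MS I) {t P1 NB C D w : ℕ} (hd : t ∣ I * MS) (hC : D ≤ t * C) (h1 : P v M ≤ P1)
    (hvt : ¬ v ∣ t) (hw : w ≤ v) (hN : P1 < w ^ (NB + 1)) (hw0 : 1 ≤ w) (e1 : C ^ 3 * (P1 ^ 5 * NB ^ 3) < D ^ 3) :
    False := by
  have hX := hc.hX
  have hv := hX.hp
  have hP := SpCross.pow_le_P hX hc.hY hc.hMS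
  set N := g * NN X with hNdef
  have hNle : N ≤ NB := by
    by_contra hcon
    have h3 : w ^ (NB + 1) ≤ v ^ N :=
      (Nat.pow_le_pow_right hw0 (by omega)).trans (Nat.pow_le_pow_left hw N)
    omega
  have hD : D ^ 3 ≤ C ^ 3 * t ^ 3 := by
    calc D ^ 3 ≤ (t * C) ^ 3 := Nat.pow_le_pow_left hC 3
      _ = _ := by rw [mul_pow, mul_comm]
  have hcop : Nat.Coprime t v := (Nat.Coprime.symm ((Nat.Prime.coprime_iff_not_dvd hv).2 hvt))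
  have h3 := SpCross.cube_num hX hc.hX2 hc.hI hc.hI0 hcop hd
  have h4 : (v ^ N) ^ 5 * N ^ 3 ≤ P1 ^ 5 * NB ^ 3 :=
    Nat.mul_le_mul (Nat.pow_le_pow_left (hP.trans h1) 5) (Nat.pow_le_pow_left hNle 3)
  have h5 := Nat.mul_le_mul_left (C ^ 3) (h3.trans h4)
  omega

/-- the abstract end, arbitrary `v` -/
theorem finB (hc : CrD n p f M X v g MS I) {t P1 NB C D w : ℕ} (hd : t ∣ I * MS) (hC : D ≤ t * C) (h1 : P v M ≤ P1)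
    (hw : w ≤ v) (hN : P1 < w ^ (NB + 1)) (hw0 : 1 ≤ w) (e1 : C ^ 3 * (P1 ^ 8 * NB ^ 3) < D ^ 3) :
    False := by
  have hX := hc.hX
  have hv := hX.hp
  have hP := SpCross.pow_le_P hX hc.hY hc.hMS
  set N := g * NN X with hNdef
  have hNle : N ≤ NB := by
    by_contra hcon
    have h3 : w ^ (NB + 1) ≤ v ^ N :=
      (Nat.pow_le_pow_right hw0 (by omega)).trans (Nat.pow_le_pow_left hw N)
    omega
  have hD : D ^ 3 ≤ C ^ 3 * t ^ 3 := by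
    calc D ^ 3 ≤ (t * C) ^ 3 := Nat.pow_le_pow_left hC 3
      _ = _ := by rw [mul_pow, mul_comm]
  have h3 := SpCross.cube_all hX hc.hX2 hc.hI hc.hI0 hd
  have h4 : (v ^ N) ^ 8 * N ^ 3 ≤ P1 ^ 8 * NB ^ 3 :=
    Nat.mul_le_mul (Nat.pow_le_pow_left (hP.trans h1) 8) (Nat.pow_le_pow_left hNle 3)
  have h5 := Nat.mul_le_mul_left (C ^ 3) (h3.trans h4)
  omega

theorem tD_six {q : ℕ} (hq : 2 ≤ q) : (q ^ 2 - 1) ^ 6 ≤ tD 6 (q ^ 2) * 20 := by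
  have h := tD_ge (n := 6) (Q := q ^ 2) (by nlinarith)
  have hs : sD 6 = 6 := by decide +kernel
  have hl : lD 6 = 20 := by decide +kernel
  rw [hs, hl] at h
  exact h

/-! ### numerical inequalities -/

theorem ineq_odd {y : ℕ} (hy : 6 ≤ y) : 20 ^ 3 * ((24 * y ^ 6) ^ 5 * (2 * y) ^ 3) < ((4 * (y * (y - 1))) ^ 6) ^ 3 := by
  obtain ⟨x, rfl⟩ := Nat.exists_eq_add_of_le' (show 1 ≤ y by omega)
  rw [Nat.add_sub_cancel]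
  have hx : 5 ≤ x := by omega
  have h1 : (x + 1) * 5 ≤ 6 * x := by omega
  have h2 : (x + 1) ^ 15 * 5 ^ 15 ≤ 6 ^ 15 * x ^ 15 := by
    rw [← mul_pow, ← mul_pow]
    exact Nat.pow_le_pow_left h1 15
  have h3 : 5 ^ 3 ≤ x ^ 3 := Nat.pow_le_pow_left hx 3
  have h4 : 20 ^ 3 * (24 ^ 5 * 8) * (x + 1) ^ 15 < 4 ^ 18 * x ^ 18 := by
    refine lt_of_mul_lt_mul_right ?_ (Nat.zero_le (5 ^ 15))
    calc 20 ^ 3 * (24 ^ 5 * 8) * (x + 1) ^ 15 * 5 ^ 15 = 20 ^ 3 * (24 ^ 5 * 8) * ((x + 1) ^ 15 * 5 ^ 15) := by ring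
      _ ≤ 20 ^ 3 * (24 ^ 5 * 8) * (6 ^ 15 * x ^ 15) := Nat.mul_le_mul_left _ h2
      _ = (20 ^ 3 * (24 ^ 5 * 8) * 6 ^ 15) * x ^ 15 := by ring
      _ < (4 ^ 18 * 5 ^ 15 * 5 ^ 3) * x ^ 15 := Nat.mul_lt_mul_of_pos_right (by norm_num) (pow_pos (by omega) _)
      _ ≤ (4 ^ 18 * 5 ^ 15 * x ^ 3) * x ^ 15 := Nat.mul_le_mul_right _ (Nat.mul_le_mul_left _ h3)
      _ = 4 ^ 18 * x ^ 18 * 5 ^ 15 := by ring
  calc 20 ^ 3 * ((24 * (x + 1) ^ 6) ^ 5 * (2 * (x + 1)) ^ 3)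
      = (20 ^ 3 * (24 ^ 5 * 8) * (x + 1) ^ 15) * (x + 1) ^ 18 := by ring
    _ < (4 ^ 18 * x ^ 18) * (x + 1) ^ 18 := Nat.mul_lt_mul_of_pos_right h4 (pow_pos (by omega) _)
    _ = _ := by ring

theorem ineq_odd_N {y : ℕ} (hy : 6 ≤ y) : 24 * y ^ 6 < 3 ^ (2 * y + 1) := by
  induction y, hy using Nat.le_induction with
  | base => norm_num
  | succ k hk ih =>
    have h1 : 3 ^ (2 * (k + 1) + 1) = 9 * 3 ^ (2 * k + 1) := by ring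
    rw [h1]
    have h2 : (k + 1) ^ 6 * 6 ^ 6 ≤ 7 ^ 6 * k ^ 6 := by
      rw [← mul_pow, ← mul_pow]
      exact Nat.pow_le_pow_left (by omega) 6
    have h3 : (k + 1) ^ 6 ≤ 9 * k ^ 6 := by
      have h4 : (7 : ℕ) ^ 6 ≤ 9 * 6 ^ 6 := by norm_num
      have h5 : (k + 1) ^ 6 * 6 ^ 6 ≤ (9 * k ^ 6) * 6 ^ 6 := by
        calc _ ≤ 7 ^ 6 * k ^ 6 := h2
          _ ≤ (9 * 6 ^ 6) * k ^ 6 := Nat.mul_le_mul_right _ h4
          _ = _ := by ring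
      exact Nat.le_of_mul_le_mul_right h5 (by norm_num)
    omega

theorem ineq_even {z : ℕ} (hz : 64 ≤ z) :
    20 ^ 3 * ((16 * (8 * z + 1) ^ 6) ^ 5 * z ^ 3) < (((8 * z) ^ 2 - 1) ^ 6) ^ 3 := by
  obtain ⟨x, hx⟩ : ∃ x, 8 * z = x + 1 := ⟨8 * z - 1, by omega⟩
  have hx2 : 511 ≤ x := by omega
  have e : (8 * z) ^ 2 - 1 = x * (x + 2) := by
    rw [hx]
    have : (x + 1) ^ 2 = x * (x + 2) + 1 := by ring
    rw [this, Nat.add_sub_cancel]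
  rw [e, hx]
  have h1 : (x + 2) * 511 ≤ 513 * x := by linarith
  have h1' : (x + 1) * 511 ≤ 512 * x := by linarith
  have hz3 : z ^ 3 * 512 = (x + 1) ^ 3 := by rw [← hx]; ring
  have h2 : (x + 2) ^ 12 * (x + 1) ^ 3 * 511 ^ 15 ≤ 513 ^ 12 * 512 ^ 3 * x ^ 15 := by
    calc (x + 2) ^ 12 * (x + 1) ^ 3 * 511 ^ 15 = ((x + 2) * 511) ^ 12 * ((x + 1) * 511) ^ 3 := by ring
      _ ≤ (513 * x) ^ 12 * (512 * x) ^ 3 := Nat.mul_le_mul (Nat.pow_le_pow_left h1 12) (Nat.pow_le_pow_left h1' 3)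
      _ = _ := by ring
  have h3 : 511 ^ 3 ≤ x ^ 3 := Nat.pow_le_pow_left hx2 3
  have h4 : 20 ^ 3 * 2 ^ 20 * ((x + 2) ^ 12 * z ^ 3) < x ^ 18 := by
    refine lt_of_mul_lt_mul_right ?_ (Nat.zero_le (512 * 511 ^ 15))
    calc 20 ^ 3 * 2 ^ 20 * ((x + 2) ^ 12 * z ^ 3) * (512 * 511 ^ 15)
        = 20 ^ 3 * 2 ^ 20 * ((x + 2) ^ 12 * (z ^ 3 * 512) * 511 ^ 15) := by ring
      _ = 20 ^ 3 * 2 ^ 20 * ((x + 2) ^ 12 * (x + 1) ^ 3 * 511 ^ 15) := by rw [hz3]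
      _ ≤ 20 ^ 3 * 2 ^ 20 * (513 ^ 12 * 512 ^ 3 * x ^ 15) := Nat.mul_le_mul_left _ h2
      _ = (20 ^ 3 * 2 ^ 20 * (513 ^ 12 * 512 ^ 3)) * x ^ 15 := by ring
      _ < (512 * 511 ^ 15 * 511 ^ 3) * x ^ 15 := Nat.mul_lt_mul_of_pos_right (by norm_num) (pow_pos (by omega) _)
      _ ≤ (512 * 511 ^ 15 * x ^ 3) * x ^ 15 := Nat.mul_le_mul_right _ (Nat.mul_le_mul_left _ h3)
      _ = x ^ 18 * (512 * 511 ^ 15) := by ring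
  calc 20 ^ 3 * ((16 * (x + 1 + 1) ^ 6) ^ 5 * z ^ 3)
      = (20 ^ 3 * 2 ^ 20 * ((x + 2) ^ 12 * z ^ 3)) * (x + 2) ^ 18 := by ring
    _ < x ^ 18 * (x + 2) ^ 18 := Nat.mul_lt_mul_of_pos_right h4 (pow_pos (by omega) _)
    _ = _ := by ring

theorem ineq_even_N {z : ℕ} (hz : 64 ≤ z) : 16 * (8 * z + 1) ^ 6 < 3 ^ (z + 1) := by
  induction z, hz using Nat.le_induction with
  | base => norm_num
  | succ k hk ih =>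
    have h1 : 3 ^ (k + 1 + 1) = 3 * 3 ^ (k + 1) := by ring
    rw [h1]
    have h2 : (8 * (k + 1) + 1) ^ 6 * 64 ^ 6 ≤ 65 ^ 6 * (8 * k + 1) ^ 6 := by
      rw [← mul_pow, ← mul_pow]
      exact Nat.pow_le_pow_left (by omega) 6
    have h3 : (8 * (k + 1) + 1) ^ 6 ≤ 3 * (8 * k + 1) ^ 6 := by
      have h4 : (65 : ℕ) ^ 6 ≤ 3 * 64 ^ 6 := by norm_num
      have h5 : (8 * (k + 1) + 1) ^ 6 * 64 ^ 6 ≤ (3 * (8 * k + 1) ^ 6) * 64 ^ 6 := by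
        calc _ ≤ 65 ^ 6 * (8 * k + 1) ^ 6 := h2
          _ ≤ (3 * 64 ^ 6) * (8 * k + 1) ^ 6 := Nat.mul_le_mul_right _ h4
          _ = _ := by ring
      exact Nat.le_of_mul_le_mul_right h5 (by norm_num)
    omega

/-- `v` divides `t` -/
theorem ineq_top {q : ℕ} (hq : 49 ≤ q) :
    20 ^ 3 * ((q ^ 4 + q ^ 3 + q ^ 2 + q + 1) ^ 8 * (q / 6) ^ 3) < ((q ^ 2 - 1) ^ 6) ^ 3 := by
  have h1 : (q ^ 4 + q ^ 3 + q ^ 2 + q + 1) * 48 ≤ 49 * q ^ 4 := by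
    have h2 : 49 * q ^ 3 ≤ q ^ 4 := by
      calc 49 * q ^ 3 ≤ q * q ^ 3 := Nat.mul_le_mul_right _ hq
        _ = q ^ 4 := by ring
    have h3 : 49 * q ^ 2 ≤ q ^ 3 := by
      calc 49 * q ^ 2 ≤ q * q ^ 2 := Nat.mul_le_mul_right _ hq
        _ = q ^ 3 := by ring
    have h4 : 49 * q ≤ q ^ 2 := by nlinarith
    omega
  have h2 : q ^ 2 * 2400 ≤ 2401 * (q ^ 2 - 1) := by
    have : 49 ^ 2 ≤ q ^ 2 := Nat.pow_le_pow_left hq 2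
    omega
  have h3 : q / 6 * 6 ≤ q := Nat.div_mul_le_self q 6
  have h4 : ((q ^ 4 + q ^ 3 + q ^ 2 + q + 1) ^ 8 * (q / 6) ^ 3) * (48 ^ 8 * 6 ^ 3) ≤ 49 ^ 8 * q ^ 35 := by
    calc ((q ^ 4 + q ^ 3 + q ^ 2 + q + 1) ^ 8 * (q / 6) ^ 3) * (48 ^ 8 * 6 ^ 3)
        = ((q ^ 4 + q ^ 3 + q ^ 2 + q + 1) * 48) ^ 8 * (q / 6 * 6) ^ 3 := by
          rw [mul_pow (q ^ 4 + q ^ 3 + q ^ 2 + q + 1) 48, mul_pow (q / 6) 6]; ac_rfl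
      _ ≤ (49 * q ^ 4) ^ 8 * q ^ 3 := Nat.mul_le_mul (Nat.pow_le_pow_left h1 8) (Nat.pow_le_pow_left h3 3)
      _ = 49 ^ 8 * q ^ 35 := by ring
  have h5 : q ^ 36 * 2400 ^ 18 ≤ 2401 ^ 18 * ((q ^ 2 - 1) ^ 6) ^ 3 := by
    calc q ^ 36 * 2400 ^ 18 = (q ^ 2 * 2400) ^ 18 := by rw [mul_pow, ← pow_mul]
      _ ≤ (2401 * (q ^ 2 - 1)) ^ 18 := Nat.pow_le_pow_left h2 18
      _ = _ := by rw [mul_pow, ← pow_mul]
  refine lt_of_mul_lt_mul_right ?_ (Nat.zero_le ((48 ^ 8 * 6 ^ 3) * 2401 ^ 18))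
  calc 20 ^ 3 * ((q ^ 4 + q ^ 3 + q ^ 2 + q + 1) ^ 8 * (q / 6) ^ 3) * ((48 ^ 8 * 6 ^ 3) * 2401 ^ 18)
      = (20 ^ 3 * 2401 ^ 18) * (((q ^ 4 + q ^ 3 + q ^ 2 + q + 1) ^ 8 * (q / 6) ^ 3) * (48 ^ 8 * 6 ^ 3)) := by
        generalize (q ^ 4 + q ^ 3 + q ^ 2 + q + 1) ^ 8 * (q / 6) ^ 3 = y
        ac_rfl
    _ ≤ (20 ^ 3 * 2401 ^ 18) * (49 ^ 8 * q ^ 35) := Nat.mul_le_mul_left _ h4
    _ = (20 ^ 3 * 2401 ^ 18 * 49 ^ 8) * q ^ 35 := by ac_rfl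
    _ < (49 * 2400 ^ 18 * (48 ^ 8 * 6 ^ 3)) * q ^ 35 :=
        Nat.mul_lt_mul_of_pos_right (by norm_num) (pow_pos (by omega) _)
    _ ≤ (q * 2400 ^ 18 * (48 ^ 8 * 6 ^ 3)) * q ^ 35 := by
        apply Nat.mul_le_mul_right
        apply Nat.mul_le_mul_right
        exact Nat.mul_le_mul_right _ hq
    _ = (q ^ 36 * 2400 ^ 18) * (48 ^ 8 * 6 ^ 3) := by
        rw [show q ^ 36 = q * q ^ 35 by ring]
        ac_rfl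
    _ ≤ (2401 ^ 18 * ((q ^ 2 - 1) ^ 6) ^ 3) * (48 ^ 8 * 6 ^ 3) := Nat.mul_le_mul_right _ h5
    _ = _ := by ac_rfl

theorem ineq_top_N {q : ℕ} (hq : 49 ≤ q) : q ^ 4 + q ^ 3 + q ^ 2 + q + 1 < 11 ^ (q / 6 + 1) := by
  have key : ∀ k, 8 ≤ k → (6 * k + 6) ^ 5 < 11 ^ (k + 1) := by
    intro k hk
    induction k, hk using Nat.le_induction with
    | base => norm_num
    | succ k hk ih =>
      have h1 : 11 ^ (k + 1 + 1) = 11 * 11 ^ (k + 1) := by ring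
      rw [h1]
      have h2 : (6 * (k + 1) + 6) ^ 5 * 9 ^ 5 ≤ 10 ^ 5 * (6 * k + 6) ^ 5 := by
        rw [← mul_pow, ← mul_pow]
        exact Nat.pow_le_pow_left (by omega) 5
      have h3 : (6 * (k + 1) + 6) ^ 5 ≤ 11 * (6 * k + 6) ^ 5 := by
        have h4 : (10 : ℕ) ^ 5 ≤ 11 * 9 ^ 5 := by norm_num
        have h5 : (6 * (k + 1) + 6) ^ 5 * 9 ^ 5 ≤ (11 * (6 * k + 6) ^ 5) * 9 ^ 5 := by
          calc _ ≤ 10 ^ 5 * (6 * k + 6) ^ 5 := h2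
            _ ≤ (11 * 9 ^ 5) * (6 * k + 6) ^ 5 := Nat.mul_le_mul_right _ h4
            _ = _ := by ring
        exact Nat.le_of_mul_le_mul_right h5 (by norm_num)
      omega
  refine lt_of_le_of_lt ?_ (key (q / 6) (by omega))
  have h1 : q + 1 ≤ 6 * (q / 6) + 6 := by omega
  calc q ^ 4 + q ^ 3 + q ^ 2 + q + 1 ≤ (q + 1) ^ 5 := by
        have : (q + 1) ^ 5 = q ^ 5 + 5 * q ^ 4 + 10 * q ^ 3 + 10 * q ^ 2 + 5 * q + 1 := by ring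
        omega
    _ ≤ _ := Nat.pow_le_pow_left h1 5

theorem ineq_two {y : ℕ} (hy : 6 ≤ y) :
    20 ^ 3 * ((12 * y ^ 6) ^ 5 * (3 * y + 1) ^ 3) < ((4 * (y * (y - 1))) ^ 6) ^ 3 := by
  obtain ⟨x, rfl⟩ := Nat.exists_eq_add_of_le' (show 1 ≤ y by omega)
  rw [Nat.add_sub_cancel]
  have hx : 5 ≤ x := by omega
  have h1 : (x + 1) * 5 ≤ 6 * x := by omega
  have h1' : (3 * (x + 1) + 1) * 5 ≤ 19 * x := by omega
  have h2 : (x + 1) ^ 12 * (3 * (x + 1) + 1) ^ 3 * 5 ^ 15 ≤ 6 ^ 12 * 19 ^ 3 * x ^ 15 := by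
    calc (x + 1) ^ 12 * (3 * (x + 1) + 1) ^ 3 * 5 ^ 15 = ((x + 1) * 5) ^ 12 * ((3 * (x + 1) + 1) * 5) ^ 3 := by ring
      _ ≤ (6 * x) ^ 12 * (19 * x) ^ 3 := Nat.mul_le_mul (Nat.pow_le_pow_left h1 12) (Nat.pow_le_pow_left h1' 3)
      _ = _ := by ring
  have h3 : 5 ^ 3 ≤ x ^ 3 := Nat.pow_le_pow_left hx 3
  have h4 : 20 ^ 3 * 12 ^ 5 * ((x + 1) ^ 12 * (3 * (x + 1) + 1) ^ 3) < 4 ^ 18 * x ^ 18 := by
    refine lt_of_mul_lt_mul_right ?_ (Nat.zero_le (5 ^ 15))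
    calc 20 ^ 3 * 12 ^ 5 * ((x + 1) ^ 12 * (3 * (x + 1) + 1) ^ 3) * 5 ^ 15
        = 20 ^ 3 * 12 ^ 5 * ((x + 1) ^ 12 * (3 * (x + 1) + 1) ^ 3 * 5 ^ 15) := by ring
      _ ≤ 20 ^ 3 * 12 ^ 5 * (6 ^ 12 * 19 ^ 3 * x ^ 15) := Nat.mul_le_mul_left _ h2
      _ = (20 ^ 3 * 12 ^ 5 * (6 ^ 12 * 19 ^ 3)) * x ^ 15 := by ring
      _ < (4 ^ 18 * 5 ^ 15 * 5 ^ 3) * x ^ 15 := Nat.mul_lt_mul_of_pos_right (by norm_num) (pow_pos (by omega) _)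
      _ ≤ (4 ^ 18 * 5 ^ 15 * x ^ 3) * x ^ 15 := Nat.mul_le_mul_right _ (Nat.mul_le_mul_left _ h3)
      _ = 4 ^ 18 * x ^ 18 * 5 ^ 15 := by ring
  calc 20 ^ 3 * ((12 * (x + 1) ^ 6) ^ 5 * (3 * (x + 1) + 1) ^ 3)
      = (20 ^ 3 * 12 ^ 5 * ((x + 1) ^ 12 * (3 * (x + 1) + 1) ^ 3)) * (x + 1) ^ 18 := by ring
    _ < (4 ^ 18 * x ^ 18) * (x + 1) ^ 18 := Nat.mul_lt_mul_of_pos_right h4 (pow_pos (by omega) _)
    _ = _ := by ring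

theorem ineq_two_N {y : ℕ} (hy : 6 ≤ y) : 12 * y ^ 6 < 2 ^ (3 * y + 1 + 1) := by
  induction y, hy using Nat.le_induction with
  | base => norm_num
  | succ k hk ih =>
    have h1 : 2 ^ (3 * (k + 1) + 1 + 1) = 8 * 2 ^ (3 * k + 1 + 1) := by ring
    rw [h1]
    have h2 : (k + 1) ^ 6 * 6 ^ 6 ≤ 7 ^ 6 * k ^ 6 := by
      rw [← mul_pow, ← mul_pow]
      exact Nat.pow_le_pow_left (by omega) 6
    have h3 : (k + 1) ^ 6 ≤ 8 * k ^ 6 := by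
      have h4 : (7 : ℕ) ^ 6 ≤ 8 * 6 ^ 6 := by norm_num
      have h5 : (k + 1) ^ 6 * 6 ^ 6 ≤ (8 * k ^ 6) * 6 ^ 6 := by
        calc _ ≤ 7 ^ 6 * k ^ 6 := h2
          _ ≤ (8 * 6 ^ 6) * k ^ 6 := Nat.mul_le_mul_right _ h4
          _ = _ := by ring
      exact Nat.le_of_mul_le_mul_right h5 (by norm_num)
    omega

/-- the special odd `q` -/
theorem ineq_spec {k : ℕ} (hk : 12 ≤ k) :
    20 ^ 3 * ((2 ^ (6 * k + 7)) ^ 5 * (6 * k + 7) ^ 3) < ((2 ^ (k + 1) * (2 ^ (k - 1) - 1)) ^ 6) ^ 3 := by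
  have key : 2 ^ 49 * (6 * k + 7) ^ 3 < 2 ^ (6 * k) := by
    induction k, hk using Nat.le_induction with
    | base => norm_num
    | succ k hk ih =>
      have h1 : 2 ^ (6 * (k + 1)) = 64 * 2 ^ (6 * k) := by ring
      rw [h1]
      have h2 : (6 * (k + 1) + 7) ^ 3 ≤ 64 * (6 * k + 7) ^ 3 := by
        calc (6 * (k + 1) + 7) ^ 3 ≤ (4 * (6 * k + 7)) ^ 3 := Nat.pow_le_pow_left (by omega) 3
          _ = _ := by ring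
      calc 2 ^ 49 * (6 * (k + 1) + 7) ^ 3 ≤ 2 ^ 49 * (64 * (6 * k + 7) ^ 3) := Nat.mul_le_mul_left _ h2
        _ = 64 * (2 ^ 49 * (6 * k + 7) ^ 3) := by ring
        _ < _ := by omega
  obtain ⟨m, rfl⟩ := Nat.exists_eq_add_of_le' (show 1 ≤ k by omega)
  rw [Nat.add_sub_cancel]
  have h1 : 2 ^ 11 ≤ 2 ^ m := Nat.pow_le_pow_right (by norm_num) (by omega)
  have h2 : 2 ^ m * 2047 ≤ 2048 * (2 ^ m - 1) := by omega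
  have h3 : (2 ^ m) ^ 18 * 2047 ^ 18 ≤ 2048 ^ 18 * (2 ^ m - 1) ^ 18 := by
    rw [← mul_pow, ← mul_pow]
    exact Nat.pow_le_pow_left h2 18
  refine lt_of_mul_lt_mul_right ?_ (Nat.zero_le (2048 ^ 18))
  calc 20 ^ 3 * ((2 ^ (6 * (m + 1) + 7)) ^ 5 * (6 * (m + 1) + 7) ^ 3) * 2048 ^ 18
      = (20 ^ 3 * 2048 ^ 18) * (2 ^ (5 * (6 * (m + 1) + 7)) * (6 * (m + 1) + 7) ^ 3) := by
        rw [← pow_mul]; ring_nf
    _ = (20 ^ 3 * 2048 ^ 18) * (2 ^ (30 * (m + 1)) * 2 ^ 35 * (6 * (m + 1) + 7) ^ 3) := by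
        rw [← pow_add]; congr 3; ring
    _ ≤ (2 ^ 14 * 2047 ^ 18) * (2 ^ (30 * (m + 1)) * 2 ^ 35 * (6 * (m + 1) + 7) ^ 3) :=
        Nat.mul_le_mul_right _ (by norm_num)
    _ = 2047 ^ 18 * 2 ^ (30 * (m + 1)) * (2 ^ 49 * (6 * (m + 1) + 7) ^ 3) := by ring
    _ < 2047 ^ 18 * 2 ^ (30 * (m + 1)) * 2 ^ (6 * (m + 1)) :=
        Nat.mul_lt_mul_of_pos_left key (by positivity)
    _ = (2 ^ (m + 1 + 1)) ^ 18 * ((2 ^ m) ^ 18 * 2047 ^ 18) := by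
        rw [← pow_mul, ← pow_mul, mul_assoc, ← pow_add, ← mul_assoc, ← pow_add, mul_comm]
        congr 2
        ring
    _ ≤ (2 ^ (m + 1 + 1)) ^ 18 * (2048 ^ 18 * (2 ^ m - 1) ^ 18) := Nat.mul_le_mul_left _ h3
    _ = _ := by rw [← pow_mul, mul_pow]; ring

end Cfsg.Agent.H364.DSix
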