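import Mathlib
import Cfsg.Agent.H364.DSix

/-!
# `D_6`: the parts of the order (helper364)
-/

set_option autoImplicit false

namespace Cfsg.Agent.H364.DSixB

open Finset Cfsg.Agent.H902.Lte Cfsg.Agent.H902.Art Cfsg.Agent.H364.DIneq Cfsg.Agent.H364.DCross
  Cfsg.Agent.H364.DEnum Cfsg.Agent.H364.DEight
open Cfsg.Agent.H364.SpVal (AA AA_ne PC_odd' cast_sq)

variable {n p f q M : ℕ} {X : Sh} {v g MS I : ℕ}

/-- the square of the part, with the exact base -/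
theorem P_sq_gen {r : ℕ} (hr : r.Prime) (hr2 : r ≠ 2) (hq : 2 ≤ q) (hrq : ¬ r ∣ q) (m : ℕ)
    (he : orderOf ((q ^ 2 : ℕ) : ZMod r) ≤ m) {b : ℕ} (hb : P r (q ^ (2 * orderOf ((q ^ 2 : ℕ) : ZMod r)) - 1) ≤ b) :
    (P r (AA m q)) ^ 2 ≤ (b ^ 2) ^ (m / orderOf ((q ^ 2 : ℕ) : ZMod r)) *
      3 ^ (m / orderOf ((q ^ 2 : ℕ) : ZMod r) - 1) := by
  have hx := abs_sq_ge hq
  have hrx := not_dvd_sq hr hrq
  rw [← cast_sq] at he hb ⊢
  set x : ℤ := (q : ℤ) ^ 2 with hxdef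
  have hpos := order_pos (q := q) hr hrx
  have h1 : (x ^ orderOf (x : ZMod r) - 1).natAbs = q ^ (2 * orderOf (x : ZMod r)) - 1 := by
    have h2 : x ^ orderOf (x : ZMod r) - 1 = ((q ^ (2 * orderOf (x : ZMod r)) - 1 : ℕ) : ℤ) := by
      rw [Nat.cast_sub (Nat.one_le_pow _ _ (by omega)), hxdef, ← pow_mul]; push_cast; rfl
    rw [h2, Int.natAbs_natCast]
  rw [AA, ← W_sq hq]
  apply PW_odd_sq hr hr2 hx hrx
  · rw [h1]
    exact Nat.pow_le_pow_left hb 2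
  · exact (Nat.div_pos he (by omega)).ne'

theorem P_le_half {r a : ℕ} (hr : r.Prime) (hr2 : r ≠ 2) (ha : a ≠ 0) (h2 : 2 ∣ a) : 2 * P r a ≤ a := by
  have h1 : Nat.Coprime 2 (P r a) := by
    rw [P]
    apply Nat.Coprime.pow_right
    exact (Nat.coprime_primes Nat.prime_two hr).2 (Ne.symm hr2)
  exact Nat.le_of_dvd (Nat.pos_of_ne_zero ha) (h1.mul_dvd_of_dvd_of_dvd h2 (P_dvd r a))

theorem odd_two {r : ℕ} (hr : r.Prime) (hr2 : r ≠ 2) : ¬ r ∣ 2 := fun h =>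
  hr2 ((Nat.prime_dvd_prime_iff_eq hr Nat.prime_two).1 h)

theorem P_one {r : ℕ} (hr : r.Prime) (hr2 : r ≠ 2) (hq : 3 ≤ q) (ho : Odd q) : 2 * P r (q ^ (2 * 1) - 1) ≤ q + 1 := by
  obtain ⟨a, rfl⟩ := Nat.exists_eq_add_of_le' (show 1 ≤ q by omega)
  have e1 : (a + 1) ^ (2 * 1) - 1 = a * (a + 2) := by
    have : (a + 1) ^ (2 * 1) = a * (a + 2) + 1 := by ring
    rw [this, Nat.add_sub_cancel]
  have ha : 2 ∣ a := by
    obtain ⟨k, hk⟩ := ho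
    exact ⟨k, by omega⟩
  rw [e1, P_mul (by omega) (by omega)]
  by_cases h : r ∣ a
  · have h2 : ¬ r ∣ a + 2 := fun h2 => odd_two hr hr2 ((Nat.dvd_add_right h).1 h2)
    rw [P_eq_one h2, mul_one]
    have := P_le_half hr hr2 (show a ≠ 0 by omega) ha
    omega
  · rw [P_eq_one h, one_mul]
    have := P_le_half hr hr2 (show a + 2 ≠ 0 by omega) (by omega)
    omega

theorem P_two {r : ℕ} (hr : r.Prime) (hr2 : r ≠ 2) (hq : 3 ≤ q) (ho : Odd q)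
    (h : orderOf ((q ^ 2 : ℕ) : ZMod r) = 2) : 2 * P r (q ^ (2 * 2) - 1) ≤ q ^ 2 + 1 := by
  have h1 : ¬ r ∣ q ^ (2 * 1) - 1 := by
    rw [SpSix.dvd_pow_iff (by omega), h]; norm_num
  have hq1 : 1 < q ^ 2 := Nat.one_lt_pow (by norm_num) (by omega)
  have e1 : q ^ (2 * 2) - 1 = (q ^ (2 * 1) - 1) * (q ^ 2 + 1) := by
    rw [mul_one, pow_mul]
    obtain ⟨a, ha⟩ := Nat.exists_eq_add_of_le' hq1.le
    rw [ha, Nat.add_sub_cancel]
    have : (a + 1) ^ 2 = a * (a + 1 + 1) + 1 := by ring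
    rw [this, Nat.add_sub_cancel]
  rw [e1, P_mul (by rw [mul_one]; omega) (by omega), P_eq_one h1, one_mul]
  apply P_le_half hr hr2 (by omega)
  have : Odd (q ^ 2) := ho.pow
  obtain ⟨k, hk⟩ := this
  exact ⟨k + 1, by omega⟩

theorem P_four {r : ℕ} (hr : r.Prime) (hr2 : r ≠ 2) (hq : 2 ≤ q) :
    P r (q ^ (2 * 4) - 1) ≤ q ^ 4 + q ^ 3 + q ^ 2 + q + 1 := by
  have := P_sq_sub_one_le (j := 4) hr hr2 hq (by norm_num)
  have h3 : 0 ≤ q ^ 3 := Nat.zero_le _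
  omega

theorem P_five {r : ℕ} (hr : r.Prime) (hr2 : r ≠ 2) (hq : 2 ≤ q)
    (h : orderOf ((q ^ 2 : ℕ) : ZMod r) = 5) : P r (q ^ (2 * 5) - 1) ≤ q ^ 4 + q ^ 3 + q ^ 2 + q + 1 := by
  have h1 : ¬ r ∣ q ^ (2 * 1) - 1 := by
    rw [SpSix.dvd_pow_iff hq, h]; norm_num
  obtain ⟨a, rfl⟩ := Nat.exists_eq_add_of_le' (show 1 ≤ q by omega)
  set A := (a + 1) ^ 4 + (a + 1) ^ 3 + (a + 1) ^ 2 + (a + 1) + 1 with hA
  set B := a * ((a + 1) ^ 3 + (a + 1)) + 1 with hB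
  have e1 : (a + 1) ^ (2 * 5) - 1 = ((a + 1) ^ (2 * 1) - 1) * (A * B) := by
    have e2 : (a + 1) ^ (2 * 1) - 1 = a ^ 2 + 2 * a := by
      have : (a + 1) ^ (2 * 1) = a ^ 2 + 2 * a + 1 := by ring
      rw [this, Nat.add_sub_cancel]
    rw [e2]
    have : (a + 1) ^ (2 * 5) = (a ^ 2 + 2 * a) * (A * B) + 1 := by rw [hA, hB]; ring
    rw [this, Nat.add_sub_cancel]
  have h10 : (a + 1) ^ (2 * 1) - 1 ≠ 0 := by
    intro h0
    rw [h0] at h1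
    exact h1 (dvd_zero _)
  have h11 : A ≠ 0 := by positivity
  have h12 : B ≠ 0 := by positivity
  have hBA : B ≤ A := by
    have : A = B + 2 * ((a + 1) ^ 3 + (a + 1)) := by rw [hA, hB]; ring
    omega
  rw [e1, P_mul h10 (Nat.mul_ne_zero h11 h12), P_eq_one h1, one_mul, P_mul h11 h12]
  by_cases h2 : r ∣ A
  · by_cases h3 : r ∣ B
    · exfalso
      -- `A - B = 2 (q³ + q)`, so `r ∣ q² + 1`; then `r ∣ q⁴ - 1`
      have h4 : r ∣ 2 * ((a + 1) ^ 3 + (a + 1)) := by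
        have e3 : A = B + 2 * ((a + 1) ^ 3 + (a + 1)) := by rw [hA, hB]; ring
        rw [e3] at h2
        exact (Nat.dvd_add_right h3).1 h2
      have h5 : r ∣ (a + 1) ^ 3 + (a + 1) := (hr.dvd_mul.1 h4).resolve_left (odd_two hr hr2)
      have h6 : r ∣ a * ((a + 1) ^ 3 + (a + 1)) := h5.mul_left _
      have h7 : r ∣ 1 := (Nat.dvd_add_right h6).1 h3
      exact hr.one_lt.ne' (Nat.dvd_one.1 h7)
    · rw [P_eq_one h3, mul_one]
      exact P_le h11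
  · rw [P_eq_one h2, one_mul]
    exact (P_le h12).trans hBA

/-- only the orders up to 5 occur -/
theorem order_le (hY : Real (.D 6) p f M) (hq : p ^ f = q) (hv : v.Prime) (hvp : v ≠ p) (hd : v ∣ M) :
    orderOf ((q ^ 2 : ℕ) : ZMod v) ≤ 5 := by
  have hq2 := hY.q_ge
  have hvq := hY.not_dvd_q hv hvp
  have h1 : v ∣ num (.D 6) (p ^ f) := hY.dvd_num_of_dvd hv hvp hd
  rw [hq] at hq2 hvq h1
  have h2 : num (.D 6) q = (q ^ 6 - 1) * AA 5 q := rfl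
  rw [h2] at h1
  rcases hv.dvd_mul.1 h1 with h3 | h3
  · have h4 : v ∣ q ^ (2 * 3) - 1 := h3
    rw [SpSix.dvd_pow_iff hq2] at h4
    have := Nat.le_of_dvd (by norm_num) h4
    omega
  · rw [AA] at h3
    obtain ⟨i, hi, h4⟩ := (hv.prime.dvd_finsetProd_iff _).1 h3
    rw [Finset.mem_range] at hi
    rw [SpSix.dvd_pow_iff hq2] at h4
    have := Nat.le_of_dvd (by omega) h4
    omega

theorem dvd_M (hc : CrD n p f M X v g MS I) : v ∣ M := by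
  have hX := hc.hX
  have h1 : v ^ (g * NN X) ∣ MS := by
    have := P_dvd v MS
    rwa [hX.P_self, ← pow_mul] at this
  have h2 : g * NN X ≠ 0 := (Nat.mul_pos hX.hf (NN_pos hX)).ne'
  exact ((dvd_pow_self v h2).trans h1).trans hc.hMS

/-- the odd parts, `q` odd -/
theorem P_odd_le (hc : CrD 6 p f M X v g MS I) {y : ℕ} (hq : p ^ f + 1 = 2 * y) (hy : 2 ≤ y) (hv2 : v ≠ 2)
    (he : orderOf (((p ^ f) ^ 2 : ℕ) : ZMod v) ≤ 3) : P v M ≤ 24 * y ^ 6 := by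
  have hv := hc.hX.hp
  have hq2 := hc.hY.q_ge
  have hvq := hc.hY.not_dvd_q hv hc.hvp
  have h1 : P v M ≤ P v (AA 6 (p ^ f)) := P_le_AA hc.hY hv hc.hvp
  have hpos := (PC_odd' hv hv2 hq2 hvq 6).1
  set q := p ^ f with hqd
  have ho : Odd q := ⟨y - 1, by omega⟩
  apply le_of_sq_le
  refine (Nat.pow_le_pow_left h1 2).trans ?_
  have hqy : q = 2 * y - 1 := by omega
  rcases (show orderOf (((q) ^ 2 : ℕ) : ZMod v) = 1 ∨ orderOf (((q) ^ 2 : ℕ) : ZMod v) = 2 ∨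
      orderOf (((q) ^ 2 : ℕ) : ZMod v) = 3 by omega) with h | h | h
  · have h2 := P_one hv hv2 (show 3 ≤ q by omega) ho
    have h3 := P_sq_gen (b := y) hv hv2 hq2 hvq 6 (by omega) (by rw [h]; omega)
    rw [h] at h3
    refine h3.trans ?_
    calc (y ^ 2) ^ (6 / 1) * 3 ^ (6 / 1 - 1) = 243 * y ^ 12 := by norm_num; ring
      _ ≤ 576 * y ^ 12 := Nat.mul_le_mul_right _ (by norm_num)
      _ = (24 * y ^ 6) ^ 2 := by ring
  · have h2 := P_two hv hv2 (show 3 ≤ q by omega) ho h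
    have h4 : q ^ 2 + 1 ≤ 2 * (2 * y ^ 2) := by
      obtain ⟨x, rfl⟩ := Nat.exists_eq_add_of_le' (show 1 ≤ y by omega)
      have : q = 2 * x + 1 := by omega
      rw [this]
      nlinarith
    have h3 := P_sq_gen (b := 2 * y ^ 2) hv hv2 hq2 hvq 6 (by omega) (by rw [h]; omega)
    rw [h] at h3
    refine h3.trans ?_
    calc ((2 * y ^ 2) ^ 2) ^ (6 / 2) * 3 ^ (6 / 2 - 1) = 576 * y ^ 12 := by norm_num; ring
      _ ≤ (24 * y ^ 6) ^ 2 := by apply le_of_eq; ring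
  · have h2 := SpSix.P_three hv hv2 hq2 hvq h
    have h4 : q ^ 2 + q + 1 ≤ 4 * y ^ 2 := by
      obtain ⟨x, rfl⟩ := Nat.exists_eq_add_of_le' (show 1 ≤ y by omega)
      have : q = 2 * x + 1 := by omega
      rw [this]
      nlinarith
    have h3 := P_sq_gen (b := 4 * y ^ 2) hv hv2 hq2 hvq 6 (by omega) (by rw [h]; omega)
    rw [h] at h3
    refine h3.trans ?_
    have h5 : 2 ^ 4 ≤ y ^ 4 := Nat.pow_le_pow_left hy 4
    calc ((4 * y ^ 2) ^ 2) ^ (6 / 3) * 3 ^ (6 / 3 - 1) = 48 * (2 ^ 4 * y ^ 8) := by norm_num; ring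
      _ ≤ 48 * (y ^ 4 * y ^ 8) := Nat.mul_le_mul_left _ (Nat.mul_le_mul_right _ h5)
      _ ≤ (24 * y ^ 6) ^ 2 := by
        have : (24 * y ^ 6) ^ 2 = 576 * (y ^ 4 * y ^ 8) := by ring
        rw [this]
        exact Nat.mul_le_mul_right _ (by norm_num)

/-- the odd parts, general `q` -/
theorem P_odd_le' (hc : CrD 6 p f M X v g MS I) (hv2 : v ≠ 2)
    (he : orderOf (((p ^ f) ^ 2 : ℕ) : ZMod v) ≤ 3) : P v M ≤ 16 * (p ^ f + 1) ^ 6 := by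
  have hv := hc.hX.hp
  have hq2 := hc.hY.q_ge
  have hvq := hc.hY.not_dvd_q hv hc.hvp
  have h1 : P v M ≤ P v (AA 6 (p ^ f)) := P_le_AA hc.hY hv hc.hvp
  have hpos := (PC_odd' hv hv2 hq2 hvq 6).1
  set q := p ^ f with hqd
  apply le_of_sq_le
  refine (Nat.pow_le_pow_left h1 2).trans ?_
  have hb := P_sq_sub_one_le (r := v) (j := orderOf (((q) ^ 2 : ℕ) : ZMod v)) hv hv2 hq2 hpos
  have h3 := P_sq_gen hv hv2 hq2 hvq 6 (by omega) hb
  refine h3.trans ?_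
  rcases (show orderOf (((q) ^ 2 : ℕ) : ZMod v) = 1 ∨ orderOf (((q) ^ 2 : ℕ) : ZMod v) = 2 ∨
      orderOf (((q) ^ 2 : ℕ) : ZMod v) = 3 by omega) with h | h | h
  · rw [h]
    calc ((q ^ 1 + 1) ^ 2) ^ (6 / 1) * 3 ^ (6 / 1 - 1) = 243 * (q + 1) ^ 12 := by norm_num; ring
      _ ≤ 256 * (q + 1) ^ 12 := Nat.mul_le_mul_right _ (by norm_num)
      _ = (16 * (q + 1) ^ 6) ^ 2 := by ring
  · rw [h]
    have h5 : q ^ 2 + 1 ≤ (q + 1) ^ 2 := by nlinarith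
    calc ((q ^ 2 + 1) ^ 2) ^ (6 / 2) * 3 ^ (6 / 2 - 1) ≤ (((q + 1) ^ 2) ^ 2) ^ (6 / 2) * 3 ^ (6 / 2 - 1) := by
          apply Nat.mul_le_mul_right
          exact Nat.pow_le_pow_left (Nat.pow_le_pow_left h5 2) _
      _ = 9 * (q + 1) ^ 12 := by norm_num; ring
      _ ≤ 256 * (q + 1) ^ 12 := Nat.mul_le_mul_right _ (by norm_num)
      _ = (16 * (q + 1) ^ 6) ^ 2 := by ring
  · rw [h]
    have h5 : q ^ 3 + 1 ≤ (q + 1) ^ 3 := by nlinarith [sq_nonneg (q : ℤ)]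
    calc ((q ^ 3 + 1) ^ 2) ^ (6 / 3) * 3 ^ (6 / 3 - 1) ≤ (((q + 1) ^ 3) ^ 2) ^ (6 / 3) * 3 ^ (6 / 3 - 1) := by
          apply Nat.mul_le_mul_right
          exact Nat.pow_le_pow_left (Nat.pow_le_pow_left h5 2) _
      _ = 3 * (q + 1) ^ 12 := by norm_num; ring
      _ ≤ 256 * (q + 1) ^ 12 := Nat.mul_le_mul_right _ (by norm_num)
      _ = (16 * (q + 1) ^ 6) ^ 2 := by ring

/-- the top parts -/
theorem P_top_le (hc : CrD 6 p f M X v g MS I) (hv2 : v ≠ 2)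
    (he : 3 < orderOf (((p ^ f) ^ 2 : ℕ) : ZMod v)) :
    P v M ≤ (p ^ f) ^ 4 + (p ^ f) ^ 3 + (p ^ f) ^ 2 + p ^ f + 1 := by
  have hv := hc.hX.hp
  have hq2 := hc.hY.q_ge
  have hvq := hc.hY.not_dvd_q hv hc.hvp
  have h1 : P v M ≤ P v (AA 6 (p ^ f)) := P_le_AA hc.hY hv hc.hvp
  have hle := order_le hc.hY rfl hv hc.hvp (dvd_M hc)
  rw [SpSix.P_eq_of_order (n := 6) hv hv2 hq2 hvq (by omega) (by omega)] at h1
  refine h1.trans ?_
  rcases (show orderOf (((p ^ f) ^ 2 : ℕ) : ZMod v) = 4 ∨ orderOf (((p ^ f) ^ 2 : ℕ) : ZMod v) = 5 by omega) with h | h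
  · rw [h]
    exact P_four hv hv2 hq2
  · rw [h]
    exact P_five hv hv2 hq2 h

theorem eleven_le (hc : CrD 6 p f M X v g MS I) (hv2 : v ≠ 2)
    (he : 3 < orderOf (((p ^ f) ^ 2 : ℕ) : ZMod v)) : 11 ≤ v := by
  have hv := hc.hX.hp
  have hvq := hc.hY.not_dvd_q hv hc.hvp
  have hle := order_le hc.hY rfl hv hc.hvp (dvd_M hc)
  have := Fact.mk hv
  -- the order of `q` is 5, 8 or 10
  have hq0 : ((p ^ f : ℕ) : ZMod v) ≠ 0 := fun h0 => hvq ((ZMod.natCast_eq_zero_iff _ _).1 h0)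
  have h1 : orderOf ((p ^ f : ℕ) : ZMod v) ∣ v - 1 :=
    orderOf_dvd_of_pow_eq_one (ZMod.pow_card_sub_one_eq_one hq0)
  have h2 : orderOf (((p ^ f) ^ 2 : ℕ) : ZMod v) =
      orderOf ((p ^ f : ℕ) : ZMod v) / Nat.gcd (orderOf ((p ^ f : ℕ) : ZMod v)) 2 := by
    rw [Nat.cast_pow (p ^ f) 2, orderOf_pow' _ (by norm_num)]
  rw [h2] at he hle
  have hpos : 0 < orderOf ((p ^ f : ℕ) : ZMod v) := by
    rcases Nat.eq_zero_or_pos (orderOf ((p ^ f : ℕ) : ZMod v)) with h0 | h0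
    · rw [h0] at he
      norm_num at he
    · exact h0
  have hv2' := hv.two_le
  have h3 := Nat.le_of_dvd (by omega) h1
  generalize orderOf ((p ^ f : ℕ) : ZMod v) = o at *
  obtain ⟨k, hk⟩ := h1
  rcases Nat.even_or_odd o with ho | ho
  · rw [Nat.gcd_eq_right ho.two_dvd] at he hle
    obtain ⟨j, rfl⟩ := ho
    have h4 : j = 4 ∨ j = 5 := by omega
    have h5 : v ≠ 9 := by rintro rfl; exact absurd hv (by norm_num)
    have h6 : v ≠ 10 := by rintro rfl; exact absurd hv (by norm_num)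
    omega
  · rw [Nat.coprime_two_right.2 ho, Nat.div_one] at he hle
    obtain ⟨j, rfl⟩ := ho
    have h4 : j = 2 := by omega
    subst h4
    have h5 : v ≠ 6 := by rintro rfl; exact absurd hv (by norm_num)
    rcases Nat.lt_or_ge k 2 with h6 | h6
    · interval_cases k <;> omega
    · omega

/-- the `2`-part -/
theorem P_two_six (hY : Real (.D 6) p f M) (hq : p ^ f = q) (ho : Odd q) : P 2 M = 2 * (P 2 (q ^ 2 - 1)) ^ 6 := by
  have hp2 : 2 ≠ p := by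
    rintro rfl
    rw [← hq] at ho
    have := hY.hf
    exact Nat.not_even_iff_odd.2 ho ((even_two).pow_of_ne_zero (by omega))
  have h2 := hY.P_other Nat.prime_two hp2
  have hq2 := hY.q_ge
  rw [hq] at h2 hq2
  obtain ⟨t, ht⟩ : ∃ t, q ^ 2 = 8 * t + 1 := by
    obtain ⟨k, rfl⟩ := ho
    obtain ⟨j, hj⟩ := Nat.even_mul_succ_self k
    refine ⟨j, ?_⟩
    have : (2 * k + 1) ^ 2 = 4 * (k * (k + 1)) + 1 := by ring
    rw [this, hj]; ring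
  have ht0 : t ≠ 0 := by
    rintro rfl
    have : 2 ^ 2 ≤ q ^ 2 := Nat.pow_le_pow_left hq2 2
    omega
  have hdd : dd (.D 6) q = 4 := by
    show Nat.gcd 4 (q ^ 6 - 1) = 4
    apply Nat.gcd_eq_left
    have h4 : q ^ 6 = (q ^ 2) ^ 3 := by rw [← pow_mul]
    rw [h4, ht]
    have : (8 * t + 1) ^ 3 = 4 * (2 * t * ((8 * t + 1) ^ 2 + (8 * t + 1) + 1)) + 1 := by ring
    rw [this, Nat.add_sub_cancel]
    exact Dvd.intro _ rfl
  have hP4 : P 2 4 = 4 := by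
    have := P_pow_self (r := 2) (k := 2) (a := 1) Nat.prime_two (by norm_num)
    simpa using this
  rw [hdd, hP4] at h2
  have hnum : num (.D 6) q = (8 * t) ^ 6 * (2 ^ 3 * (((4 * t + 1) ^ 2 * (32 * t ^ 2 + 8 * t + 1)) *
      (((8 * t + 1) ^ 2 + (8 * t + 1) + 1) ^ 2 *
        ((8 * t + 1) ^ 4 + (8 * t + 1) ^ 3 + (8 * t + 1) ^ 2 + (8 * t + 1) + 1)))) := by
    have h3 : num (.D 6) q = (q ^ 6 - 1) * ((q ^ 2 - 1) * (q ^ 4 - 1) * (q ^ 6 - 1) * (q ^ 8 - 1) * (q ^ 10 - 1)) := by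
      simp only [num, Finset.prod_range_succ, Finset.prod_range_zero]
      norm_num
    have h4 : q ^ 4 = (q ^ 2) ^ 2 := by rw [← pow_mul]
    have h6 : q ^ 6 = (q ^ 2) ^ 3 := by rw [← pow_mul]
    have h8 : q ^ 8 = (q ^ 2) ^ 4 := by rw [← pow_mul]
    have h10 : q ^ 10 = (q ^ 2) ^ 5 := by rw [← pow_mul]
    rw [h3, h4, h6, h8, h10, ht]
    have e4 : (8 * t + 1) ^ 2 - 1 = 8 * t * (2 * (4 * t + 1)) := by
      have : (8 * t + 1) ^ 2 = 8 * t * (2 * (4 * t + 1)) + 1 := by ring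
      rw [this, Nat.add_sub_cancel]
    have e6 : (8 * t + 1) ^ 3 - 1 = 8 * t * ((8 * t + 1) ^ 2 + (8 * t + 1) + 1) := by
      have : (8 * t + 1) ^ 3 = 8 * t * ((8 * t + 1) ^ 2 + (8 * t + 1) + 1) + 1 := by ring
      rw [this, Nat.add_sub_cancel]
    have e8 : (8 * t + 1) ^ 4 - 1 = 8 * t * (2 * (4 * t + 1)) * (2 * (32 * t ^ 2 + 8 * t + 1)) := by
      have : (8 * t + 1) ^ 4 = 8 * t * (2 * (4 * t + 1)) * (2 * (32 * t ^ 2 + 8 * t + 1)) + 1 := by ring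
      rw [this, Nat.add_sub_cancel]
    have e10 : (8 * t + 1) ^ 5 - 1 =
        8 * t * ((8 * t + 1) ^ 4 + (8 * t + 1) ^ 3 + (8 * t + 1) ^ 2 + (8 * t + 1) + 1) := by
      have : (8 * t + 1) ^ 5 =
          8 * t * ((8 * t + 1) ^ 4 + (8 * t + 1) ^ 3 + (8 * t + 1) ^ 2 + (8 * t + 1) + 1) + 1 := by ring
      rw [this, Nat.add_sub_cancel]
    rw [e4, e6, e8, e10, Nat.add_sub_cancel]
    ring
  set m := (((4 * t + 1) ^ 2 * (32 * t ^ 2 + 8 * t + 1)) *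
      (((8 * t + 1) ^ 2 + (8 * t + 1) + 1) ^ 2 *
        ((8 * t + 1) ^ 4 + (8 * t + 1) ^ 3 + (8 * t + 1) ^ 2 + (8 * t + 1) + 1))) with hm
  have hmo : ¬ 2 ∣ m := by
    have o1 : Odd (4 * t + 1) := ⟨2 * t, by ring⟩
    have o2 : Odd (32 * t ^ 2 + 8 * t + 1) := ⟨16 * t ^ 2 + 4 * t, by ring⟩
    have o3 : Odd ((8 * t + 1) ^ 2 + (8 * t + 1) + 1) := ⟨32 * t ^ 2 + 12 * t + 1, by ring⟩
    have o4 : Odd ((8 * t + 1) ^ 4 + (8 * t + 1) ^ 3 + (8 * t + 1) ^ 2 + (8 * t + 1) + 1) :=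
      ⟨2048 * t ^ 4 + 1280 * t ^ 3 + 320 * t ^ 2 + 40 * t + 2, by ring⟩
    have : Odd m := by
      rw [hm]
      exact ((o1.pow).mul o2).mul ((o3.pow).mul o4)
    exact fun h => (Nat.not_even_iff_odd.2 this) (even_iff_two_dvd.2 h)
  have hpow : ∀ x k : ℕ, P 2 (x ^ k) = (P 2 x) ^ k := fun x k => by
    rw [P, P, Nat.factorization_pow, Finsupp.smul_apply, smul_eq_mul, ← pow_mul, mul_comm]
  rw [hnum, P_mul (by positivity) (by
    have : m ≠ 0 := fun h => hmo (by rw [h]; exact dvd_zero _)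
    positivity), P_pow_self Nat.prime_two hmo, hpow] at h2
  have e : q ^ 2 - 1 = 8 * t := by omega
  rw [e]
  omega

end Cfsg.Agent.H364.DSixB
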