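import Mathlib
import Cfsg.Agent.H364.OutLie
import Cfsg.Agent.H902.Facts

/-!
# `|Out S| ≤ dd X * NN X * f` (helper364)
-/

set_option autoImplicit false

namespace Cfsg.Agent.H364.SpOut

open Cfsg Cfsg.Agent.OrdDiv Finset
open Cfsg.Agent.H902 Cfsg.Agent.H902.Names Cfsg.Agent.H934.OutB Cfsg.Agent.H364.OutLie

universe u

/-- the conclusion -/
def Bl (S : Type u) [Group S] (X : Art.Sh) (p f : ℕ) : Prop :=
  Nat.card (Cfsg.Out S) ≤ Art.dd X (p ^ f) * Art.NN X * f

theorem Bl.of {S : Type u} [Group S] {X : Art.Sh} {p f : ℕ} (c : ℕ) (h : Nat.card (Cfsg.Out S) = c * f)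
    (h1 : c ≤ Art.dd X (p ^ f) * Art.NN X) : Bl S X p f := by
  rw [Bl, h]
  exact Nat.mul_le_mul_right _ h1

theorem tri {n : ℕ} (hn : 3 ≤ n) : 3 ≤ n * (n - 1) / 2 := by
  rw [Nat.le_div_iff_mul_le (by norm_num)]
  calc 3 * 2 ≤ n * (n - 1) := Nat.mul_le_mul hn (by omega)

theorem card_out_le {S : Type u} [Group S] [Finite S] [IsSimpleGroup S] (hna : ¬ ∀ a b : S, a * b = b * a)
    {g : Grp} {X : Art.Sh} {p f : ℕ} (hg : IsLie g X p f) (h : OrdDiv.Real g S) (hr : Art.Real X p f (Nat.card S)) :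
    Bl S X p f := by
  have hna' : ¬ IsMulCommutative S := fun hc => hna fun a b => hc.is_comm.comm a b
  have hdd := Nat.pos_of_ne_zero hr.dd_ne
  obtain ⟨hp, hf, hok, -⟩ := hr
  have hpf := Fact.mk hp
  cases hg with
  | psl n p f =>
    obtain ⟨F, _, _, hF, ⟨e⟩⟩ := h
    have h1 := Cfsg.Agent.S0813.result p f hf hF n hok.1 hok.2
    rw [card_pgl hok.1, hF] at h1
    have h2 : Nat.card (MulAut S) = ((if n = 2 then 1 else 2) * Nat.gcd n (p ^ f - 1) * f) * Nat.card S := by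
      rw [mulaut_congr e, h1, Nat.card_congr e.toEquiv]; ring
    refine Bl.of _ (card_out_of_aut hna' h2) ?_
    show _ ≤ Nat.gcd n (p ^ f - 1) * (n * (n - 1) / 2)
    rw [mul_comm]
    apply Nat.mul_le_mul_left
    have hn : 2 ≤ n := hok.1
    split_ifs with h3
    · subst h3; norm_num
    · have := tri (show 3 ≤ n by omega)
      omega
  | psp n p f =>
    obtain ⟨F, _, _, hF, ⟨e⟩⟩ := h
    have h1 := Cfsg.Agent.S0814.result p f hf hF n hok.1 hok.2
    have h2 : Nat.card (MulAut S) = ((if n = 2 ∧ p = 2 then 2 else 1) * Nat.gcd 2 (p ^ f - 1) * f) * Nat.card S := by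
      rw [mulaut_congr e, h1, Nat.card_congr e.toEquiv]
    refine Bl.of _ (card_out_of_aut hna' h2) ?_
    show _ ≤ Nat.gcd 2 (p ^ f - 1) * n ^ 2
    rw [mul_comm]
    apply Nat.mul_le_mul_left
    have hn : 2 ≤ n := hok.1
    have : 2 ≤ n ^ 2 := by nlinarith
    split_ifs <;> omega
  | oodd n p f hn ho =>
    obtain ⟨F, _, _, hF, ⟨e⟩⟩ := h
    have hpo : Odd p := by
      rcases hp.eq_two_or_odd' with h | h
      · subst h
        exact absurd ho (by rw [Nat.not_odd_iff_even]; exact (even_two.pow_of_ne_zero (by omega)))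
      · exact h
    have h1 := Cfsg.Agent.S0816.result p f hf hF hpo n hn
    have h2 : Nat.card (MulAut S) = (2 * f) * Nat.card S := by
      rw [mulaut_congr e, h1, Nat.card_congr e.toEquiv]
    refine Bl.of _ (card_out_of_aut hna' h2) ?_
    show _ ≤ Art.dd (.C n) (p ^ f) * n ^ 2
    have : 2 ≤ n ^ 2 := by nlinarith
    calc 2 ≤ n ^ 2 := this
      _ ≤ _ := Nat.le_mul_of_pos_left _ hdd
  | psu n p f =>
    obtain ⟨F, _, _, hF, ⟨e⟩⟩ := h
    have h1 := Cfsg.Agent.S0815.result p f hf rfl hF n hok.1 (fun h => by have := hok.2 h.1; omega)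
    have h2 : Nat.card (MulAut S) = (2 * Nat.gcd n (p ^ f + 1) * f) * Nat.card S := by
      rw [mulaut_congr e, h1, Nat.card_congr e.toEquiv]; ring
    refine Bl.of _ (card_out_of_aut hna' h2) ?_
    show _ ≤ Nat.gcd n (p ^ f + 1) * (n * (n - 1) / 2)
    rw [mul_comm]
    apply Nat.mul_le_mul_left
    have := tri hok.1
    omega
  | oplus n p f =>
    obtain ⟨F, _, _, hF, ⟨e⟩⟩ := h
    have h1 := Cfsg.Agent.S0817.result p f hf hF n hok
    have h2 : Nat.card (MulAut S) = (((if n = 4 then 3 else 1) *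
        (if p = 2 then 2 else (if Even (n * (p ^ f - 1) / 2) then 8 else 4))) * f) * Nat.card S := by
      rw [mulaut_congr e, h1, Nat.card_congr e.toEquiv]
    refine Bl.of _ (card_out_of_aut hna' h2) ?_
    have hn : 4 ≤ n := hok
    have hN : 12 ≤ n * (n - 1) := by
      calc 12 = 4 * 3 := by norm_num
        _ ≤ n * (n - 1) := Nat.mul_le_mul hn (by omega)
    have hN5 : n ≠ 4 → 20 ≤ n * (n - 1) := fun h => by
      calc 20 = 5 * 4 := by norm_num
        _ ≤ n * (n - 1) := Nat.mul_le_mul (by omega) (by omega)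
    show _ ≤ Art.dd (.D n) (p ^ f) * (n * (n - 1))
    by_cases h4 : n = 4
    · subst h4
      by_cases hp2 : p = 2
      · rw [if_pos rfl, if_pos hp2]
        calc 3 * 2 ≤ 4 * (4 - 1) := by norm_num
          _ ≤ _ := Nat.le_mul_of_pos_left _ hdd
      · have hd : Art.dd (.D 4) (p ^ f) = 4 := by
          show Nat.gcd 4 ((p ^ f) ^ 4 - 1) = 4
          apply Nat.gcd_eq_left
          have hodd : Odd (p ^ f) := (hp.odd_of_ne_two hp2).pow
          obtain ⟨k, hk⟩ := hodd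
          rw [hk]
          have e : (2 * k + 1) ^ 4 = 4 * (4 * k ^ 4 + 8 * k ^ 3 + 6 * k ^ 2 + 2 * k) + 1 := by ring
          rw [e, Nat.add_sub_cancel]
          exact Dvd.intro _ rfl
        rw [hd]
        split_ifs <;> norm_num
    · have h3 := hN5 h4
      rw [if_neg h4, one_mul]
      calc _ ≤ 20 := by split_ifs <;> norm_num
        _ ≤ n * (n - 1) := h3
        _ ≤ _ := Nat.le_mul_of_pos_left _ hdd
  | ominus n p f =>
    obtain ⟨F, _, _, a, b, hF, hab, ⟨e⟩⟩ := h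
    have h1 := Cfsg.Agent.S0818.result p f hf hF n hok a b hab
    have h2 : Nat.card (MulAut S) = ((if p = 2 then 2 else (if Even (n * (p ^ f - 1) / 2) then 4 else 8)) * f) *
        Nat.card S := by
      rw [mulaut_congr e, h1, Nat.card_congr e.toEquiv]
    refine Bl.of _ (card_out_of_aut hna' h2) ?_
    have hn : 4 ≤ n := hok
    have hN : 12 ≤ n * (n - 1) := by
      calc 12 = 4 * 3 := by norm_num
        _ ≤ n * (n - 1) := Nat.mul_le_mul hn (by omega)
    calc _ ≤ 12 := by split_ifs <;> norm_num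
      _ ≤ n * (n - 1) := hN
      _ ≤ _ := Nat.le_mul_of_pos_left _ hdd
  | g2 p f =>
    obtain ⟨F, _, _, hF, ⟨e⟩⟩ := h
    have := charP_of_card hp hf hF
    have h1 := Cfsg.Agent.S2121.result p f hF hok
    refine Bl.of (if p = 3 then 2 else 1) ?_ ?_
    · rw [card_out_congr e, h1]; split_ifs <;> ring
    · calc _ ≤ 6 := by split_ifs <;> norm_num
        _ ≤ _ := Nat.le_mul_of_pos_left _ hdd
  | f4 p f =>
    obtain ⟨F, _, _, hF, ⟨e⟩⟩ := h
    have := charP_of_card hp hf hF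
    have h1 := Cfsg.Agent.S2122.result p f hF
    refine Bl.of (Nat.gcd 2 p) (by rw [card_out_congr e, h1]) ?_
    calc _ ≤ 2 := Nat.gcd_le_left _ (by norm_num)
      _ ≤ 24 := by norm_num
      _ ≤ _ := Nat.le_mul_of_pos_left _ hdd
  | e6 p f =>
    obtain ⟨F, _, _, hF, ⟨e⟩⟩ := h
    have := charP_of_card hp hf hF
    have h1 := Cfsg.Agent.S2123.result p f hF
    refine Bl.of (2 * Nat.gcd 3 (p ^ f - 1)) (by rw [card_out_congr e, h1]) ?_
    show _ ≤ Nat.gcd 3 (p ^ f - 1) * 36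
    omega
  | e7 p f =>
    obtain ⟨F, _, _, hF, ⟨e⟩⟩ := h
    have := charP_of_card hp hf hF
    have h1 := Cfsg.Agent.S2124.result p f hF
    refine Bl.of (Nat.gcd 2 (p ^ f - 1)) (by rw [card_out_congr e, h1]) ?_
    show _ ≤ Nat.gcd 2 (p ^ f - 1) * 63
    omega
  | e8 p f =>
    obtain ⟨F, _, _, hF, ⟨e⟩⟩ := h
    have := charP_of_card hp hf hF
    have h1 := Cfsg.Agent.S2125.result p f hF
    refine Bl.of 1 (by rw [card_out_congr e, h1, one_mul]) ?_
    calc 1 ≤ 120 := by norm_num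
      _ ≤ _ := Nat.le_mul_of_pos_left _ hdd
  | te6 p f =>
    obtain ⟨F, _, _, hF, ⟨e⟩⟩ := h
    have hF' : Fintype.card F = p ^ (2 * f) := by rw [hF, ← pow_mul, mul_comm]
    have := charP_of_card hp (by omega) hF'
    have h1 := Cfsg.Agent.S2130.result p f hF' hf
    refine Bl.of (2 * Nat.gcd 3 (p ^ f + 1)) (by rw [card_out_congr e, h1]) ?_
    show _ ≤ Nat.gcd 3 (p ^ f + 1) * 36
    omega
  | td4 p f =>
    obtain ⟨F, _, _, hF, ⟨e⟩⟩ := h
    have hF' : Fintype.card F = p ^ (3 * f) := by rw [hF, ← pow_mul, mul_comm]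
    have := charP_of_card hp (by omega) hF'
    have h1 := Cfsg.Agent.S2129.result p f hF' hf
    refine Bl.of 3 (by rw [card_out_congr e, h1]) ?_
    calc 3 ≤ 12 := by norm_num
      _ ≤ _ := Nat.le_mul_of_pos_left _ hdd
  | sz p f =>
    obtain ⟨F, _, _, m, hm, hF, hq, ⟨e⟩⟩ := h
    obtain ⟨rfl, -, -⟩ := hok
    have hfm : f = 2 * m + 1 := Nat.pow_right_injective (le_refl 2) hq
    have h1 := Cfsg.Agent.S2126.result hm (hF.trans hq)
    refine Bl.of 1 (by rw [card_out_congr e, h1, one_mul, hfm]) ?_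
    calc 1 ≤ 2 := by norm_num
      _ ≤ _ := Nat.le_mul_of_pos_left _ hdd
  | ree p f =>
    obtain ⟨F, _, _, m, hm, hF, hq, ⟨e⟩⟩ := h
    obtain ⟨rfl, -, -⟩ := hok
    have hfm : f = 2 * m + 1 := Nat.pow_right_injective (by norm_num : 2 ≤ 3) hq
    have h1 := Cfsg.Agent.S2127.result hm (hF.trans hq)
    refine Bl.of 1 (by rw [card_out_congr e, h1, one_mul, hfm]) ?_
    calc 1 ≤ 3 := by norm_num
      _ ≤ _ := Nat.le_mul_of_pos_left _ hdd
  | tf4 p f =>
    obtain ⟨F, _, _, m, hm, hF, hq, ⟨e⟩⟩ := h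
    obtain ⟨rfl, -, -⟩ := hok
    have hfm : f = 2 * m + 1 := Nat.pow_right_injective (le_refl 2) hq
    have h1 := Cfsg.Agent.S2128.result hm (hF.trans hq)
    refine Bl.of 1 (by rw [card_out_congr e, h1, one_mul, hfm]) ?_
    calc 1 ≤ 12 := by norm_num
      _ ≤ _ := Nat.le_mul_of_pos_left _ hdd

end Cfsg.Agent.H364.SpOut
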