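import Mathlib
import Cfsg.Agent.H364.DSixB
import Cfsg.Agent.H364.SpLarge

/-!
# `S = L₂(v^g)` in `C_3(q)` and `C_5(2)`: elimination by the order (helper364)
-/

set_option autoImplicit false

namespace Cfsg.Agent.H364.SpTwo

open Finset Cfsg.Agent.H902.Lte Cfsg.Agent.H902.Art Cfsg.Agent.H364.SpVal Cfsg.Agent.H364.SpIneq Cfsg.Agent.H364.SpPrim
  Cfsg.Agent.H364.SpTot Cfsg.Agent.H364.SpCross Cfsg.Agent.H364.SpSmall Cfsg.Agent.H364.SpEnum Cfsg.Agent.H364.SpSix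
  Cfsg.Agent.H364.SpFin Cfsg.Agent.H364.SpLarge

/-- everything known about `S = L₂(v^g)` -/
structure Tw (n p f M v g MS I : ℕ) : Prop where
  hY : Real (.C n) p f M
  hX : Real (.L 2) v g MS
  hvp : v ≠ p
  hMS : MS ∣ M
  hI : I ∣ dd (.L 2) (v ^ g) * g
  hd : Fr n (p ^ f) I MS

variable {n p f q M v g MS I : ℕ}

theorem eq_L2 (hX : Real (.L 2) v g MS) : dd (.L 2) (v ^ g) * MS = v ^ g * ((v ^ g) ^ 2 - 1) := by
  have h := hX.eq
  have h1 : NN (.L 2) = 1 := rfl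
  have h2 : num (.L 2) (v ^ g) = (v ^ g) ^ 2 - 1 := by
    show ∏ i ∈ range (2 - 1), ((v ^ g) ^ (i + 2) - 1) = _
    rw [Finset.prod_range_one]
  rw [h1, h2, pow_one] at h
  exact h

theorem dvd_all {D : ℕ} (hX : Real (.L 2) v g MS) (hI : I ∣ dd (.L 2) (v ^ g) * g) (hd : D ∣ I * MS) :
    D ∣ g * (v ^ g * ((v ^ g) ^ 2 - 1)) := by
  refine hd.trans ?_
  rw [← eq_L2 hX]
  calc I * MS ∣ (dd (.L 2) (v ^ g) * g) * MS := Nat.mul_dvd_mul_right hI _
    _ = g * (dd (.L 2) (v ^ g) * MS) := by ring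

theorem pos_sq (hX : Real (.L 2) v g MS) : 0 < (v ^ g) ^ 2 - 1 := by
  have h1 : 1 < (v ^ g) ^ 2 := Nat.one_lt_pow (by norm_num) (Nat.one_lt_pow (by have := hX.hf; omega) hX.hp.one_lt)
  omega

theorem le_cube {D : ℕ} (hX : Real (.L 2) v g MS) (hI : I ∣ dd (.L 2) (v ^ g) * g) (hd : D ∣ I * MS) :
    D ≤ g * (v ^ g) ^ 3 := by
  have h1 := dvd_all hX hI hd
  have h2 := pos_sq hX
  have h3 : 0 < v ^ g := pow_pos hX.hp.pos _
  refine (Nat.le_of_dvd (Nat.mul_pos hX.hf (Nat.mul_pos h3 h2)) h1).trans ?_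
  apply Nat.mul_le_mul_left
  calc v ^ g * ((v ^ g) ^ 2 - 1) ≤ v ^ g * (v ^ g) ^ 2 := Nat.mul_le_mul_left _ (Nat.sub_le _ _)
    _ = _ := by ring

theorem le_sq {D : ℕ} (hX : Real (.L 2) v g MS) (hI : I ∣ dd (.L 2) (v ^ g) * g) (hd : D ∣ I * MS)
    (hv : Nat.Coprime D v) : D ≤ g * (v ^ g) ^ 2 := by
  have h1 := dvd_all hX hI hd
  have h2 := pos_sq hX
  have h4 : D ∣ g * ((v ^ g) ^ 2 - 1) := by
    have h5 : D ∣ v ^ g * (g * ((v ^ g) ^ 2 - 1)) := by
      rw [show v ^ g * (g * ((v ^ g) ^ 2 - 1)) = g * (v ^ g * ((v ^ g) ^ 2 - 1)) by ring]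
      exact h1
    exact (Nat.Coprime.pow_right _ hv).dvd_of_dvd_mul_left h5
  refine (Nat.le_of_dvd (Nat.mul_pos hX.hf h2) h4).trans ?_
  exact Nat.mul_le_mul_left _ (Nat.sub_le _ _)

/-- the enumeration -/
def e2 (n q v a x : ℕ) : Bool :=
  (cardC n q % v ^ (a + 1) != 0) && (List.range (a + 1)).all fun g => decide (g = 0) || decide (v ^ g = x) ||
    (cardC n q % (v ^ g * ((v ^ g) ^ 2 - 1) / Nat.gcd 2 (v ^ g - 1)) != 0) ||
      ((g * (v ^ g * ((v ^ g) ^ 2 - 1))) % (q ^ cn n * te n q) != 0)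

theorem e2_false {a x : ℕ} (hc : Tw n p f M v g MS I) (hq : p ^ f = q) (hg : good n q (te n q) = true)
    (h : e2 n q v a x = true) : v ^ g = x := by
  have hM := M_eq hc.hY hq
  have hX := hc.hX
  have hv := hX.hp
  have hq2 := hc.hY.q_ge
  have hd := hc.hd
  rw [hq] at hq2 hd
  have hd' := hd.good hq2 hg
  rw [e2, Bool.and_eq_true, bne_iff_ne, List.all_eq_true] at h
  obtain ⟨h1, h2⟩ := h
  have hpow : v ^ g ∣ M := by
    have h3 := P_dvd v MS
    rw [hX.P_self, ← pow_mul, show NN (.L 2) = 1 from rfl, mul_one] at h3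
    exact h3.trans hc.hMS
  have hN : g ≤ a := by
    by_contra hcon
    apply h1
    apply Nat.mod_eq_zero_of_dvd
    rw [← hM]
    exact (pow_dvd_pow v (by omega)).trans hpow
  have h3 := h2 g (List.mem_range.2 (by omega))
  simp only [Bool.or_eq_true, decide_eq_true_eq, bne_iff_ne, ne_eq] at h3
  rcases h3 with ((h3 | h3) | h3) | h3
  · have := hX.hf
    omega
  · exact h3
  · exfalso
    apply h3
    apply Nat.mod_eq_zero_of_dvd
    rw [← hM, ← eq_L2 hX]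
    have h4 : dd (.L 2) (v ^ g) = Nat.gcd 2 (v ^ g - 1) := rfl
    rw [h4, Nat.mul_div_cancel_left _ (Nat.gcd_pos_of_pos_left _ (by norm_num))]
    exact hc.hMS
  · exact (h3 (Nat.mod_eq_zero_of_dvd (dvd_all hX hc.hI hd'))).elim

theorem exponent (hX : Real (.L 2) v g MS) {B w NB : ℕ} (hMS : v ^ g ≤ B) (hw : w ≤ v) (hw0 : 1 ≤ w)
    (hN : B < w ^ (NB + 1)) : g ≤ NB := by
  by_contra hcon
  have h3 : w ^ (NB + 1) ≤ v ^ g :=
    (Nat.pow_le_pow_right hw0 (by omega)).trans (Nat.pow_le_pow_left hw g)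
  omega

theorem pow_le (hc : Tw n p f M v g MS I) : v ^ g ≤ P v M := by
  have h1 := P_mono hc.hX.hp hc.hY.M_ne hc.hMS
  rw [hc.hX.P_self, show NN (.L 2) = 1 from rfl, pow_one] at h1
  exact h1

theorem dvd_M (hc : Tw n p f M v g MS I) : v ∣ M := by
  have h3 := P_dvd v MS
  rw [hc.hX.P_self, show NN (.L 2) = 1 from rfl, pow_one] at h3
  exact ((dvd_pow_self v (by have := hc.hX.hf; omega)).trans h3).trans hc.hMS

/-! ### rank 3 -/

theorem n_two {q : ℕ} (hq : 37 ≤ q) : 16 * (q + 1) ^ 3 < 2 ^ ((q + 1) / 2 + 1) := by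
  have key : ∀ k, 19 ≤ k → 16 * (2 * k + 1) ^ 3 < 2 ^ (k + 1) := by
    intro k hk
    induction k, hk using Nat.le_induction with
    | base => norm_num
    | succ k hk ih =>
      have h1 : 2 ^ (k + 1 + 1) = 2 * 2 ^ (k + 1) := by ring
      rw [h1]
      have h3 : (2 * (k + 1) + 1) ^ 3 ≤ 2 * (2 * k + 1) ^ 3 := by
        obtain ⟨y, rfl⟩ := Nat.exists_eq_add_of_le hk
        ring_nf
        nlinarith
      omega
  refine lt_of_le_of_lt ?_ (key ((q + 1) / 2) (by omega))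
  apply Nat.mul_le_mul_left
  exact Nat.pow_le_pow_left (by omega) 3

theorem i_two {q : ℕ} (hq : 37 ≤ q) : 6 * ((q + 1) / 2 * (16 * (q + 1) ^ 3) ^ 2) < q ^ 9 := by
  have h1 : (q + 1) / 2 * 2 ≤ q + 1 := Nat.div_mul_le_self _ 2
  have h2 : (q + 1) * 37 ≤ 38 * q := by omega
  have h3 : (q + 1) ^ 7 * 37 ^ 7 ≤ 38 ^ 7 * q ^ 7 := by
    rw [← mul_pow, ← mul_pow]
    exact Nat.pow_le_pow_left h2 7
  have h4 : 37 ^ 2 ≤ q ^ 2 := Nat.pow_le_pow_left hq 2
  refine lt_of_mul_lt_mul_right ?_ (Nat.zero_le (37 ^ 7))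
  calc 6 * ((q + 1) / 2 * (16 * (q + 1) ^ 3) ^ 2) * 37 ^ 7
      = 768 * ((q + 1) / 2 * 2) * (q + 1) ^ 6 * 37 ^ 7 := by ring
    _ ≤ 768 * (q + 1) * (q + 1) ^ 6 * 37 ^ 7 := by gcongr
    _ = 768 * ((q + 1) ^ 7 * 37 ^ 7) := by ring
    _ ≤ 768 * (38 ^ 7 * q ^ 7) := Nat.mul_le_mul_left _ h3
    _ = (768 * 38 ^ 7) * q ^ 7 := by ring
    _ < (37 ^ 7 * 37 ^ 2) * q ^ 7 := Nat.mul_lt_mul_of_pos_right (by norm_num) (pow_pos (by omega) _)
    _ ≤ (37 ^ 7 * q ^ 2) * q ^ 7 := Nat.mul_le_mul_right _ (Nat.mul_le_mul_left _ h4)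
    _ = q ^ 9 * 37 ^ 7 := by ring

theorem n_odd {q : ℕ} (hq : 9 ≤ q) : 3 * (q + 1) ^ 3 < 3 ^ (q - 2 + 1) := by
  obtain ⟨k, rfl⟩ := Nat.exists_eq_add_of_le hq
  induction k with
  | zero => norm_num
  | succ k ih =>
    have ih' := ih (by omega)
    have h1 : 3 ^ (9 + (k + 1) - 2 + 1) = 3 * 3 ^ (9 + k - 2 + 1) := by
      rw [← pow_succ']; congr 1; omega
    rw [h1]
    have h3 : (9 + (k + 1) + 1) ^ 3 ≤ 3 * (9 + k + 1) ^ 3 := by
      ring_nf
      nlinarith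
    omega

theorem i_odd {q : ℕ} (hq : 9 ≤ q) : 6 * ((q - 2) * (3 * (q + 1) ^ 3) ^ 2) < q ^ 9 := by
  have h2 : (q + 1) * 9 ≤ 10 * q := by omega
  have h3 : (q + 1) ^ 6 * 9 ^ 6 ≤ 10 ^ 6 * q ^ 6 := by
    rw [← mul_pow, ← mul_pow]
    exact Nat.pow_le_pow_left h2 6
  have h4 : 54 * 10 ^ 6 * (q - 2) < 9 ^ 6 * q ^ 3 := by
    obtain ⟨k, rfl⟩ := Nat.exists_eq_add_of_le hq
    rw [show 9 + k - 2 = 7 + k by omega]
    ring_nf
    nlinarith
  refine lt_of_mul_lt_mul_right ?_ (Nat.zero_le (9 ^ 6))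
  calc 6 * ((q - 2) * (3 * (q + 1) ^ 3) ^ 2) * 9 ^ 6
      = 54 * (q - 2) * ((q + 1) ^ 6 * 9 ^ 6) := by ring
    _ ≤ 54 * (q - 2) * (10 ^ 6 * q ^ 6) := Nat.mul_le_mul_left _ h3
    _ = (54 * 10 ^ 6 * (q - 2)) * q ^ 6 := by ring
    _ < (9 ^ 6 * q ^ 3) * q ^ 6 := Nat.mul_lt_mul_of_pos_right h4 (pow_pos (by omega) _)
    _ = q ^ 9 * 9 ^ 6 := by ring

theorem n_top {q : ℕ} (hq : 3 ≤ q) : q ^ 2 + q + 1 < 5 ^ (q / 2 + 1) := by
  have key : ∀ k, 1 ≤ k → (2 * k + 1) ^ 2 + (2 * k + 1) + 1 < 5 ^ (k + 1) := by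
    intro k hk
    induction k, hk using Nat.le_induction with
    | base => norm_num
    | succ k hk ih =>
      have h1 : 5 ^ (k + 1 + 1) = 5 * 5 ^ (k + 1) := by ring
      rw [h1]
      nlinarith
  refine lt_of_le_of_lt ?_ (key (q / 2) (by omega))
  have h : q ≤ 2 * (q / 2) + 1 := by omega
  have h1 := Nat.pow_le_pow_left h 2
  omega

theorem i_top {q : ℕ} (hq : 3 ≤ q) : 6 * (q / 2 * (q ^ 2 + q + 1) ^ 3) < q ^ 9 := by
  rcases Nat.lt_or_ge q 4 with h | h
  · have : q = 3 := by omega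
    subst this
    norm_num
  · have h1 : q / 2 * 2 ≤ q := Nat.div_mul_le_self _ 2
    have h2 : (q ^ 2 + q + 1) * 16 ≤ 21 * q ^ 2 := by nlinarith
    have h3 : (q ^ 2 + q + 1) ^ 3 * 16 ^ 3 ≤ 21 ^ 3 * q ^ 6 := by
      calc (q ^ 2 + q + 1) ^ 3 * 16 ^ 3 = ((q ^ 2 + q + 1) * 16) ^ 3 := by rw [mul_pow]
        _ ≤ (21 * q ^ 2) ^ 3 := Nat.pow_le_pow_left h2 3
        _ = _ := by ring
    have h4 : 4 ^ 2 ≤ q ^ 2 := Nat.pow_le_pow_left h 2
    refine lt_of_mul_lt_mul_right ?_ (Nat.zero_le (16 ^ 3))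
    calc 6 * (q / 2 * (q ^ 2 + q + 1) ^ 3) * 16 ^ 3
        = 3 * (q / 2 * 2) * ((q ^ 2 + q + 1) ^ 3 * 16 ^ 3) := by ring
      _ ≤ 3 * q * (21 ^ 3 * q ^ 6) := Nat.mul_le_mul (Nat.mul_le_mul_left _ h1) h3
      _ = (3 * 21 ^ 3) * q ^ 7 := by ring
      _ < (16 ^ 3 * 4 ^ 2) * q ^ 7 := Nat.mul_lt_mul_of_pos_right (by norm_num) (pow_pos (by omega) _)
      _ ≤ (16 ^ 3 * q ^ 2) * q ^ 7 := Nat.mul_le_mul_right _ (Nat.mul_le_mul_left _ h4)
      _ = q ^ 9 * 16 ^ 3 := by ring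

theorem ge_three (hc : Tw 3 p f M v g MS I) : (p ^ f) ^ 9 ≤ 6 * ((p ^ f) ^ 3 * t3 (p ^ f)) := by
  have h1 := t3_ge (q := p ^ f)
  generalize p ^ f = q at *
  calc q ^ 9 = q ^ 3 * q ^ 6 := by rw [← pow_add]
    _ ≤ q ^ 3 * (t3 q * 6) := Nat.mul_le_mul_left _ h1
    _ = _ := by ring

theorem chk_two : ∀ q ∈ List.range 37, q < 3 ∨ q % 2 = 0 ∨
    (good 3 q (te 3 q) = true ∧ ∃ a ∈ List.range 20, e2 3 q 2 a (if q = 3 then 64 else 0) = true) := by
  decide +kernel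

theorem chk_odd : ∀ x ∈ [(4, 3), (4, 5), (5, 3), (7, 3), (8, 3), (8, 7)],
    good 3 x.1 (te 3 x.1) = true ∧ ∃ a ∈ List.range 20, e2 3 x.1 x.2 a 0 = true := by
  decide +kernel

theorem chk_five : good 5 2 (te 5 2) = true ∧ ∀ x ∈ [(3, 6), (5, 2), (7, 1), (11, 1), (17, 1), (31, 1)],
    e2 5 2 x.1 x.2 0 = true := by
  decide +kernel

/-- **`C_5(2)`.** -/
theorem five (hc : Tw 5 p f M v g MS I) (hq : p ^ f = 2) : False := by
  have hv := hc.hX.hp
  have hM := M_eq hc.hY hq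
  have h1 := dvd_M hc
  rw [hM] at h1
  have h2 : cardC 5 2 ∣ 2 ^ 25 * (3 * 5 * 7 * 11 * 17 * 31) ^ 6 := by
    rw [Nat.dvd_iff_mod_eq_zero]
    decide +kernel
  have hp2 : p = 2 := DEight.eq_of_pow hc.hY.hp Nat.prime_two (by rw [hq])
  have hv2 : ¬ v ∣ 2 ^ 25 := fun h => hc.hvp (by
    rw [hp2]; exact (Nat.prime_dvd_prime_iff_eq hv Nat.prime_two).1 (hv.dvd_of_dvd_pow h))
  have h3 : v ∣ 3 * 5 * 7 * 11 * 17 * 31 :=
    hv.dvd_of_dvd_pow ((hv.dvd_mul.1 (h1.trans h2)).resolve_left hv2)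
  have hv0 : v ^ g ≠ 0 := (pow_pos hv.pos _).ne'
  have key : ∀ a b : ℕ, (a, b) ∈ [(3, 6), (5, 2), (7, 1), (11, 1), (17, 1), (31, 1)] → v = a → False := by
    rintro a b hab rfl
    exact hv0 (e2_false hc hq chk_five.1 (chk_five.2 _ hab))
  have he : ∀ {a : ℕ}, a.Prime → v ∣ a → v = a := fun ha h => (Nat.prime_dvd_prime_iff_eq hv ha).1 h
  rcases hv.dvd_mul.1 h3 with h4 | h4
  · rcases hv.dvd_mul.1 h4 with h5 | h5
    · rcases hv.dvd_mul.1 h5 with h6 | h6
      · rcases hv.dvd_mul.1 h6 with h7 | h7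
        · rcases hv.dvd_mul.1 h7 with h8 | h8
          · exact key 3 6 (by simp) (he (by norm_num) h8)
          · exact key 5 2 (by simp) (he (by norm_num) h8)
        · exact key 7 1 (by simp) (he (by norm_num) h7)
      · exact key 11 1 (by simp) (he (by norm_num) h6)
    · exact key 17 1 (by simp) (he (by norm_num) h5)
  · exact key 31 1 (by simp) (he (by norm_num) h4)

/-- **`C_3(q)`**: only `L₂(64)` in `C_3(3)`. -/
theorem three (hc : Tw 3 p f M v g MS I) (hq3 : 3 ≤ p ^ f) : p ^ f = 3 ∧ v ^ g = 64 := by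
  have hv := hc.hX.hp
  have hX := hc.hX
  have hp := hc.hY.hp
  have hq2 := hc.hY.q_ge
  have hvq := hc.hY.not_dvd_q hv hc.hvp
  have hpow := pow_le hc
  have hge := ge_three hc
  have hv0 : v ^ g ≠ 0 := (pow_pos hv.pos _).ne'
  obtain ⟨q, hq⟩ : ∃ q, p ^ f = q := ⟨_, rfl⟩
  have hfr := hc.hd
  have hd := hfr (t3 (p ^ f)) (t3_dvd (by omega)) fun r hr h => t3_order hq2 hr h
  rw [show cn 3 = 3 from rfl] at hd
  by_cases hvt : v ∣ t3 (p ^ f)
  · -- `v` divides `t`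
    exfalso
    have hv2 : v ≠ 2 := by
      rintro rfl
      have h3 := t3_order hq2 hv hvt
      have := order_two_le hvq
      omega
    have ho := t3_order hq2 hv hvt
    have hP := P_le_three hc.hY rfl hv hc.hvp hv2 ho
    have hv3 : v ≠ 3 := by
      rintro rfl
      have h3 : orderOf (((p ^ f) ^ 2 : ℕ) : ZMod 3) ≤ 1 := by
        have h4 : (((p ^ f) ^ 2 : ℕ) : ZMod 3) = 1 := by
          rw [← Nat.cast_one, ZMod.natCast_eq_natCast_iff]
          have h5 : (p ^ f) % 3 ≠ 0 := fun h => hvq (Nat.dvd_of_mod_eq_zero h)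
          have h6 : (p ^ f) % 3 < 3 := Nat.mod_lt _ (by norm_num)
          show (p ^ f) ^ 2 % 3 = 1 % 3
          rw [Nat.pow_mod]
          interval_cases (p ^ f) % 3 <;> simp_all
        rw [h4, orderOf_one]
      omega
    have hv5 : 5 ≤ v := by
      have := hv.two_le
      have : v ≠ 4 := by rintro rfl; exact absurd hv (by norm_num)
      omega
    have hg := exponent hX (hpow.trans hP) hv5 (by norm_num) (n_top hq3)
    have h1 := le_cube hX hc.hI hd
    have h2 : g * (v ^ g) ^ 3 ≤ p ^ f / 2 * ((p ^ f) ^ 2 + p ^ f + 1) ^ 3 :=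
      Nat.mul_le_mul hg (Nat.pow_le_pow_left (hpow.trans hP) 3)
    have h3 := i_top hq3
    omega
  · have hcop : Nat.Coprime ((p ^ f) ^ 3 * t3 (p ^ f)) v :=
      Nat.Coprime.mul_left (Nat.Coprime.pow_left _ (Nat.Coprime.symm ((Nat.Prime.coprime_iff_not_dvd hv).2 hvq)))
        (Nat.Coprime.symm ((Nat.Prime.coprime_iff_not_dvd hv).2 hvt))
    have h1 := le_sq hX hc.hI hd hcop
    by_cases hv2 : v = 2
    · subst hv2
      rcases Nat.lt_or_ge q 37 with h | h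
      · have hodd : q % 2 ≠ 0 := by
          rw [hq] at hvq
          omega
        rcases chk_two q (List.mem_range.2 h) with h2 | h2 | ⟨hg, a, -, h2⟩
        · omega
        · exact absurd h2 hodd
        · have h3 := e2_false hc hq hg h2
          split_ifs at h3 with h4
          · exact ⟨by rw [hq, h4], h3⟩
          · exact absurd h3 hv0
      · exfalso
        have hP := P_two_le hc.hY rfl hc.hvp (show 1 ≤ 3 by norm_num)
        have e : (4 * (p ^ f + 1)) ^ 3 / 4 = 16 * (p ^ f + 1) ^ 3 := by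
          have : (4 * (p ^ f + 1)) ^ 3 = 16 * (p ^ f + 1) ^ 3 * 4 := by ring
          rw [this, Nat.mul_div_cancel _ (by norm_num)]
        rw [e] at hP
        have hg := exponent hX (hpow.trans hP) le_rfl (by norm_num) (n_two (by omega))
        have h2 : g * (2 ^ g) ^ 2 ≤ (p ^ f + 1) / 2 * (16 * (p ^ f + 1) ^ 3) ^ 2 :=
          Nat.mul_le_mul hg (Nat.pow_le_pow_left (hpow.trans hP) 2)
        have h3 := i_two (q := p ^ f) (by omega)
        omega
    · exfalso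
      have hv3 : 3 ≤ v := by have := hv.two_le; omega
      -- the order of `q²` is one
      have hvM := dvd_M hc
      have h2 : P v M ≤ P v (AA 3 (p ^ f)) := hc.hY.P_other_le hv hc.hvp
      have hle : orderOf (((p ^ f) ^ 2 : ℕ) : ZMod v) = 1 := by
        obtain ⟨he, h4 | ⟨h4, h5⟩⟩ := PC_odd' hv hv2 hq2 hvq 3
        · exfalso
          have h6 : 1 < P v M := by
            rw [P]
            exact Nat.one_lt_pow (hv.factorization_pos_of_dvd hc.hY.M_ne hvM).ne' hv.one_lt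
          omega
        · by_contra hcon
          apply hvt
          -- orders 2 and 3
          have h6 : ¬ v ∣ (p ^ f) ^ (2 * 1) - 1 := by
            rw [dvd_pow_iff hq2]
            intro h
            exact hcon (Nat.dvd_one.1 h)
          have hq4 : 1 ≤ (p ^ f) ^ 2 := Nat.one_le_pow _ _ (by omega)
          rw [t3]
          rcases (show orderOf (((p ^ f) ^ 2 : ℕ) : ZMod v) = 2 ∨ orderOf (((p ^ f) ^ 2 : ℕ) : ZMod v) = 3 by omega)
            with h7 | h7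
          · apply Dvd.dvd.mul_right
            have h8 : v ∣ (p ^ f) ^ (2 * 2) - 1 := by rw [dvd_pow_iff hq2, h7]
            have e1 : (p ^ f) ^ (2 * 2) - 1 = ((p ^ f) ^ (2 * 1) - 1) * ((p ^ f) ^ 2 + 1) := by
              rw [mul_one, pow_mul]
              obtain ⟨a, ha⟩ := Nat.exists_eq_add_of_le' hq4
              rw [ha, Nat.add_sub_cancel]
              have : (a + 1) ^ 2 = a * (a + 1 + 1) + 1 := by ring
              rw [this, Nat.add_sub_cancel]
            rw [e1] at h8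
            have h9 := (hv.dvd_mul.1 h8).resolve_left h6
            have h10 : Nat.Coprime v (Nat.gcd ((p ^ f) ^ 2 + 1) 2) :=
              Nat.Coprime.coprime_dvd_right (Nat.gcd_dvd_right _ _) ((Nat.coprime_primes hv Nat.prime_two).2 hv2)
            have h11 : (p ^ f) ^ 2 + 1 = ((p ^ f) ^ 2 + 1) / Nat.gcd ((p ^ f) ^ 2 + 1) 2 *
              Nat.gcd ((p ^ f) ^ 2 + 1) 2 := (Nat.div_mul_cancel (Nat.gcd_dvd_left _ _)).symm
            rw [h11] at h9
            exact h10.dvd_of_dvd_mul_right h9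
          · apply Dvd.dvd.mul_left
            have h8 : v ∣ (p ^ f) ^ (2 * 3) - 1 := by rw [dvd_pow_iff hq2, h7]
            have e1 : (p ^ f) ^ (2 * 3) - 1 = ((p ^ f) ^ (2 * 1) - 1) * ((p ^ f) ^ 4 + (p ^ f) ^ 2 + 1) := by
              have e4 : (p ^ f) ^ 4 = ((p ^ f) ^ 2) ^ 2 := by ring
              rw [mul_one, pow_mul, e4]
              obtain ⟨a, ha⟩ := Nat.exists_eq_add_of_le' hq4
              rw [ha, Nat.add_sub_cancel]
              have : (a + 1) ^ 3 = a * ((a + 1) ^ 2 + (a + 1) + 1) + 1 := by ring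
              rw [this, Nat.add_sub_cancel]
            rw [e1] at h8
            have h9 := (hv.dvd_mul.1 h8).resolve_left h6
            have hv3' : v ≠ 3 := by
              rintro rfl
              have h3 : orderOf (((p ^ f) ^ 2 : ℕ) : ZMod 3) ≤ 1 := by
                have h4 : (((p ^ f) ^ 2 : ℕ) : ZMod 3) = 1 := by
                  rw [← Nat.cast_one, ZMod.natCast_eq_natCast_iff]
                  have h5 : (p ^ f) % 3 ≠ 0 := fun h => hvq (Nat.dvd_of_mod_eq_zero h)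
                  have h6 : (p ^ f) % 3 < 3 := Nat.mod_lt _ (by norm_num)
                  show (p ^ f) ^ 2 % 3 = 1 % 3
                  rw [Nat.pow_mod]
                  interval_cases (p ^ f) % 3 <;> simp_all
                rw [h4, orderOf_one]
              omega
            have h10 : Nat.Coprime v (Nat.gcd ((p ^ f) ^ 4 + (p ^ f) ^ 2 + 1) 3) :=
              Nat.Coprime.coprime_dvd_right (Nat.gcd_dvd_right _ _) ((Nat.coprime_primes hv Nat.prime_three).2 hv3')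
            have h11 : (p ^ f) ^ 4 + (p ^ f) ^ 2 + 1 = ((p ^ f) ^ 4 + (p ^ f) ^ 2 + 1) /
                Nat.gcd ((p ^ f) ^ 4 + (p ^ f) ^ 2 + 1) 3 * Nat.gcd ((p ^ f) ^ 4 + (p ^ f) ^ 2 + 1) 3 :=
              (Nat.div_mul_cancel (Nat.gcd_dvd_left _ _)).symm
            rw [h11] at h9
            exact h10.dvd_of_dvd_mul_right h9
      have hP : P v M ≤ 3 * (p ^ f + 1) ^ 3 := by
        apply le_of_sq_le
        refine (Nat.pow_le_pow_left h2 2).trans ?_
        have hb := P_sq_sub_one_le (r := v) (j := orderOf (((p ^ f) ^ 2 : ℕ) : ZMod v)) hv hv2 hq2 (by omega)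
        have h3 := DSixB.P_sq_gen hv hv2 hq2 hvq 3 (by omega) hb
        rw [hle] at h3
        refine h3.trans (le_of_eq ?_)
        norm_num
        ring
      rcases Nat.lt_or_ge q 9 with h | h
      · -- small `q`
        have hd1 : v ∣ q ^ 2 - 1 := by
          have h3 := (dvd_pow_iff (r := v) hq2 1).2 (by rw [hle])
          rw [hq] at h3
          simpa using h3
        have key : ∀ a b : ℕ, (a, b) ∈ [(4, 3), (4, 5), (5, 3), (7, 3), (8, 3), (8, 7)] → q = a → v = b → False := by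
          intro a b hab h3 h4
          subst h3
          subst h4
          obtain ⟨hg, x, -, h5⟩ := chk_odd _ hab
          exact hv0 (e2_false hc hq hg h5)
        have he : ∀ {a : ℕ}, a.Prime → v ∣ a → v = a := fun ha h => (Nat.prime_dvd_prime_iff_eq hv ha).1 h
        have hno2 : ∀ k, ¬ v ∣ 2 ^ k := fun k h => hv2 (he Nat.prime_two (hv.dvd_of_dvd_pow h))
        rw [hq] at hq3
        interval_cases q
        · exact hno2 3 hd1
        · have h4 : v ∣ 3 * 5 := hd1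
          rcases hv.dvd_mul.1 h4 with h5 | h5
          · exact key 4 3 (by simp) rfl (he (by norm_num) h5)
          · exact key 4 5 (by simp) rfl (he (by norm_num) h5)
        · have h4 : v ∣ 2 ^ 3 * 3 := hd1
          exact key 5 3 (by simp) rfl (he (by norm_num) ((hv.dvd_mul.1 h4).resolve_left (hno2 3)))
        · exact two_primes hp Nat.prime_two Nat.prime_three (by norm_num) (by rw [hq]; norm_num) (by rw [hq]; norm_num)
        · have h4 : v ∣ 2 ^ 4 * 3 := hd1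
          exact key 7 3 (by simp) rfl (he (by norm_num) ((hv.dvd_mul.1 h4).resolve_left (hno2 4)))
        · have h4 : v ∣ 3 ^ 2 * 7 := hd1
          rcases hv.dvd_mul.1 h4 with h5 | h5
          · exact key 8 3 (by simp) rfl (he (by norm_num) (hv.dvd_of_dvd_pow h5))
          · exact key 8 7 (by simp) rfl (he (by norm_num) h5)
      · have hg := exponent hX (hpow.trans hP) hv3 (by norm_num) (n_odd (by omega))
        have h3 : g * (v ^ g) ^ 2 ≤ (p ^ f - 2) * (3 * (p ^ f + 1) ^ 3) ^ 2 :=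
          Nat.mul_le_mul hg (Nat.pow_le_pow_left (hpow.trans hP) 2)
        have h4 := i_odd (q := p ^ f) (by omega)
        omega

end Cfsg.Agent.H364.SpTwo
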