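import Mathlib
import Cfsg.Agent.H364.PSUFour
import Cfsg.Agent.H365.Near

/-!
# Recognition by order and spectrum with two classes of primes not adjacent to the characteristic (helper364)
-/

set_option autoImplicit false

namespace Cfsg.Agent.H364.TwoRow

open Subgroup Cfsg Cfsg.Agent.OrdDiv
open Cfsg.Agent.H902 Cfsg.Agent.H364.ArithU Cfsg.Agent.H364.Slack

universe u

/-- the power of `p` in the index divides `24 g` -/
theorem OutDat.dvd {X : Art.Sh} {p g MX I δ : ℕ} (hX : Art.Real X p g MX) (hI : OutDat X p g I) (h : p ^ δ ∣ I) :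
    p ^ δ ∣ 24 * g ∧ (p = 2 → 2 ^ δ ∣ 6 * g) := by
  have hp := hX.hp
  have hcop : Nat.Coprime (p ^ δ) (Art.dd X (p ^ g)) :=
    Nat.Coprime.pow_left δ ((Nat.Prime.coprime_iff_not_dvd hp).2 hX.not_dvd_dd)
  obtain ⟨c, h1, h2, h3⟩ := hI.ex
  constructor
  · have h5 : p ^ δ ∣ Art.dd X (p ^ g) * (24 * g) := (h.trans h1).trans (by
      rw [show Art.dd X (p ^ g) * (24 * g) = 24 * Art.dd X (p ^ g) * g by ring]
      exact Nat.mul_dvd_mul_right h2 g)
    exact hcop.dvd_of_dvd_mul_left h5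
  · rintro rfl
    have h5 : 2 ^ δ ∣ Art.dd X (2 ^ g) * (6 * g) := (h.trans h1).trans (by
      rw [show Art.dd X (2 ^ g) * (6 * g) = 6 * Art.dd X (2 ^ g) * g by ring]
      exact Nat.mul_dvd_mul_right (h3 rfl) g)
    exact hcop.dvd_of_dvd_mul_left h5

/-- a primitive prime divisor of the largest exponent does not divide an outer index -/
theorem not_dvd_index {X Y : Art.Sh} {p f g MX MY I r : ℕ} (hX : Art.Real X p g MX) (hY : Art.Real Y p f MY)
    (hdvd : MX ∣ MY) (h6 : 6 ≤ f * Art.DM Y) (hr : r.Prime) (hro : orderOf (p : ZMod r) = f * Art.DM Y)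
    (hI : OutDat X p g I) : ¬ r ∣ I := by
  intro hrI
  have hg := hX.hf
  have hDle := le_DM hX hY hdvd h6
  have hge := Art.DM_ge hX
  have hr1 : f * Art.DM Y ∣ r - 1 := by
    rw [← hro]
    have := Fact.mk hr
    have hne : (p : ZMod r) ≠ 0 := by
      intro h0
      rw [h0] at hro
      have h1 : (0 : ZMod r) ^ (f * Art.DM Y) = 1 := by rw [← hro]; exact pow_orderOf_eq_one _
      rw [zero_pow (by omega)] at h1
      exact zero_ne_one h1
    exact orderOf_dvd_of_pow_eq_one (ZMod.pow_card_sub_one_eq_one hne)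
  have hr7 : f * Art.DM Y ≤ r - 1 := Nat.le_of_dvd (by have := hr.two_le; omega) hr1
  rcases hI.prime hX hr (by omega) hrI with h1 | ⟨h1, -⟩ | ⟨h1, h2⟩
  · have h3 := Nat.le_of_dvd (by omega) h1
    have h4 : g * 2 ≤ g * Art.DM X := Nat.mul_le_mul_left _ hge.1
    omega
  · rw [hro] at h1
    have h3 := Nat.le_of_dvd (by omega) h1
    have h4 : g * 2 ≤ g * Art.DM X := Nat.mul_le_mul_left _ hge.1
    omega
  · rw [hro] at h1
    have h3 := Nat.le_of_dvd (by omega) h1
    have h4 : g * 3 ≤ g * Art.DM X := Nat.mul_le_mul_left _ (hge.2 h2)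
    omega

/-- **The general row**, with the elimination of the simple groups not of Lie type in characteristic `p` as a
hypothesis.  `|G|` is the order of a group of shape `Y`; `r` is a primitive prime divisor of the largest
exponent, `s` a second prime, both are not adjacent to `p`, and the `p`-part is small compared to the least common
multiple of the orders of `p` modulo `r`, `s`. -/
theorem main' {G : Type u} [Group G] [Finite G] {Y : Art.Sh} {p f r s b e : ℕ} (hY : Art.Real Y p f (Nat.card G))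
    (hr : r.Prime) (hro : orderOf (p : ZMod r) = f * Art.DM Y) (h6 : 6 ≤ f * Art.DM Y) (hs : s.Prime)
    (hso : orderOf (p : ZMod s) = b) (hb : 1 ≤ b) (hsG : s ∣ Nat.card G) (hEr : NoEdge G r p) (hEs : NoEdge G s p)
    (hlcm : f * Art.NN Y < Nat.lcm (f * Art.DM Y) b) (hexp : ∀ x : G, ∀ j, orderOf x = p ^ j → j ≤ e)
    (heN : e + 1 < f * Art.NN Y)
    (hkey : ∀ (S : Type u) [Group S] [Finite S] [IsSimpleGroup S], (¬ ∀ x y : S, x * y = y * x) → ∀ δ, δ ≤ e + 1 →
      (p ≠ 2 → δ ≤ e) → Nat.card S * p ^ δ ≤ Nat.card G → Nat.card S ∣ Nat.card G →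
      (Nat.card S).factorization p + δ = f * Art.NN Y → (¬ r ∣ Nat.card S → f * Art.DM Y ∣ (Nat.card S).factorization p) →
      (¬ s ∣ Nat.card S → b ∣ (Nat.card S).factorization p) → IsLieTypeChar p S ∨ Nat.card S = Nat.card G) :
    ∃ (K : Subgroup G) (_ : K.Normal) (H : Subgroup (G ⧸ K)), IsSimpleGroup H ∧ (¬ ∀ x y : H, x * y = y * x) ∧
      (Nat.card H = Nat.card G ∨ ∃ X g, Cfsg.Agent.H365.Near.Exc X Y p g f ∧ Art.Real X p g (Nat.card H)) := by
  have hp := hY.hp
  have hf := hY.hf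
  have hpos : ∀ {t k : ℕ}, t.Prime → orderOf (p : ZMod t) = k → 1 ≤ k → p ≠ t ∧ (∀ m, t ∣ p ^ m - 1 → k ∣ m) := by
    intro t k ht ho hk
    refine ⟨fun h => ?_, fun m hm => ?_⟩
    · subst h
      rw [ZMod.natCast_self] at ho
      have h1 : (0 : ZMod p) ^ k = 1 := by rw [← ho]; exact pow_orderOf_eq_one _
      rw [zero_pow (by omega)] at h1
      have := Fact.mk hp
      exact zero_ne_one h1
    · rwa [Cfsg.Agent.Lib.Zsigmondy.dvd_pow_sub_one_iff hp.one_le, ho] at hm
  obtain ⟨hpr, hrm⟩ := hpos hr hro (by omega)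
  obtain ⟨hps, hsm⟩ := hpos hs hso hb
  have hrG : r ∣ Nat.card G := hY.dvd_of_order_DM hr hro (by omega)
  have hN : (Nat.card G).factorization p = f * Art.NN Y := fac_self hY
  obtain ⟨K, hKn, hpK, hrK, hsK, H, hHn, hHs, hHna, hHG, hout, hEr', hEs', hrs, hi1, hi2, har, hbs, hfr, hfs⟩ :=
    reduce hp hr hs hpr hps hrG hsG hEr hEs hrm hsm (by rw [hN]; exact hlcm) hexp (by rw [hN]; exact heN)
  refine ⟨K, hKn, H, hHs, hHna, ?_⟩
  have hK0 : Nat.card K ≠ 0 := Nat.card_pos.ne'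
  have hH0 : Nat.card H ≠ 0 := Nat.card_pos.ne'
  have hI0 : H.index ≠ 0 := Subgroup.index_ne_zero_of_finite
  set δ := H.index.factorization p with hδdef
  have hδ : (Nat.card H).factorization p + δ = (Nat.card G).factorization p := by
    rw [← hHG, Nat.factorization_mul hK0 (Nat.mul_ne_zero hI0 hH0), Finsupp.add_apply,
      Nat.factorization_eq_zero_of_not_dvd hpK, Nat.factorization_mul hI0 hH0, Finsupp.add_apply, hδdef]
    omega
  have hpI : p ^ δ ∣ H.index := Nat.ordProj_dvd _ _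
  have hHd : Nat.card H ∣ Nat.card G := by rw [← hHG]; exact (Dvd.intro_left _ rfl).trans (Dvd.intro_left _ rfl)
  have h3 : Nat.card H * p ^ δ ≤ Nat.card G := by
    calc Nat.card H * p ^ δ ≤ Nat.card H * H.index :=
          Nat.mul_le_mul_left _ (Nat.le_of_dvd (Nat.pos_of_ne_zero hI0) hpI)
      _ = H.index * Nat.card H := mul_comm _ _
      _ ≤ Nat.card K * (H.index * Nat.card H) := Nat.le_mul_of_pos_left _ (Nat.pos_of_ne_zero hK0)
      _ = Nat.card G := hHG
  rcases hkey H hHna δ hi1 hi2 h3 hHd (by omega) har hbs with hlie | hlie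
  swap
  · exact Or.inl hlie
  obtain ⟨g, X, f', hg, hreal, hX⟩ := LieNam.lie_nam table hp hlie
  obtain ⟨c, hc1, hc2, hc3⟩ := OutLie.card_out hHna hg hreal hX
  have hI : OutDat X p f' H.index := ⟨c, by rw [← hc1]; exact hout, hc2, hc3⟩
  have hrH : r ∣ Nat.card H := by
    have h1 : r ∣ Nat.card K * (H.index * Nat.card H) := by rw [hHG]; exact hrG
    exact ((hr.dvd_mul.1 ((hr.dvd_mul.1 h1).resolve_left hrK)).resolve_left (not_dvd_index hX hY hHd h6 hr hro hI))
  have hδ2 : f * Art.NN Y - f' * Art.NN X = δ := by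
    have h1 := fac_self hX
    omega
  obtain ⟨h24, h6'⟩ := OutDat.dvd hX hI hpI
  rcases Cfsg.Agent.H365.Near.near_out hX hY hHd hr hro (by omega) hrH (by rw [hδ2]; exact h24)
      (by rw [hδ2]; exact h6') with ⟨rfl, rfl⟩ | h
  · left
    have h1 := hX.eq
    rw [← hY.eq] at h1
    exact Nat.eq_of_mul_eq_mul_left (Nat.pos_of_ne_zero hY.dd_ne) h1
  · exact Or.inr ⟨X, f', h, hX⟩

/-- **The general row.** -/
theorem main {G : Type u} [Group G] [Finite G] {Y : Art.Sh} {p f r s b e A : ℕ} (hY : Art.Real Y p f (Nat.card G))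
    (hr : r.Prime) (hro : orderOf (p : ZMod r) = f * Art.DM Y) (h6 : 6 ≤ f * Art.DM Y) (hs : s.Prime)
    (hso : orderOf (p : ZMod s) = b) (hb : 1 ≤ b) (hsG : s ∣ Nat.card G) (hEr : NoEdge G r p) (hEs : NoEdge G s p)
    (hlcm : f * Art.NN Y < Nat.lcm (f * Art.DM Y) b) (hexp : ∀ x : G, ∀ j, orderOf x = p ^ j → j ≤ e)
    (heN : e + 1 < f * Art.NN Y) (hA : Nat.card G ≤ p ^ A)
    (hbd : ∀ δ, δ ≤ e + 1 → (p ≠ 2 → δ ≤ e) → cc p + A + 2 * δ ≤ 3 * (f * Art.NN Y)) :
    ∃ (K : Subgroup G) (_ : K.Normal) (H : Subgroup (G ⧸ K)), IsSimpleGroup H ∧ (¬ ∀ x y : H, x * y = y * x) ∧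
      (Nat.card H = Nat.card G ∨ ∃ X g, Cfsg.Agent.H365.Near.Exc X Y p g f ∧ Art.Real X p g (Nat.card H)) := by
  refine main' hY hr hro h6 hs hso hb hsG hEr hEs hlcm hexp heN fun S _ _ _ hna δ h1 h2 h3 _ h5 _ _ => ?_
  left
  have hp := hY.hp
  rcases known_slack table (Cfsg.Agent.S0000.result (G := S)) hna hp with h | h
  · exact h
  exfalso
  have h6 : H365.PPart.pt p (Nat.card S) = p ^ (f * Art.NN Y - δ) := by
    rw [H365.PPart.pt]; congr 1; omega
  rw [h6] at h
  have h7 := PSUFour.not_slack hp.two_le h (h3.trans hA)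
  have h8 := hbd δ h1 h2
  omega

end Cfsg.Agent.H364.TwoRow
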